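import Mathlib

/-!
# Twice as many derangements as |G|/n in a doubly transitive, not sharply doubly transitive group

The fixed-point sets of the two-point stabilisers are the lines of a linear space, so an element fixing `f`
points satisfies `f * (F - 1) ≤ n - 1`, `F` the line size. This settles `F ≥ 4`; the cases `F = 2, 3` reduce to
an elementary abelian two-point stabiliser with all other orbits of length two.
-/

set_option autoImplicit false
set_option linter.unusedSectionVars false
set_option linter.unusedSimpArgs false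
set_option linter.deprecated false

namespace CfsgLib.DerangementTwo

open MulAction Finset

variable {G Ω : Type*} [Group G] [Fintype G] [MulAction G Ω] [FaithfulSMul G Ω] [Fintype Ω] [DecidableEq Ω]

/-- number of fixed points -/
def nfix (Ω : Type*) {G : Type*} [Group G] [MulAction G Ω] [Fintype Ω] [DecidableEq Ω] (g : G) : ℕ :=
  (Finset.univ.filter fun x : Ω => g • x = x).card

/-- two-point stabiliser as a finset -/
def st2 (G : Type*) {Ω : Type*} [Group G] [Fintype G] [MulAction G Ω] [DecidableEq Ω] (a b : Ω) : Finset G :=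
  Finset.univ.filter fun g => g • a = a ∧ g • b = b

/-- fixed set of a two-point stabiliser -/
def line (G : Type*) {Ω : Type*} [Group G] [Fintype G] [MulAction G Ω] [Fintype Ω] [DecidableEq Ω] (a b : Ω) :
    Finset Ω :=
  Finset.univ.filter fun x => ∀ g : G, g ∈ st2 G a b → g • x = x

theorem mem_st2 {a b : Ω} {g : G} : g ∈ st2 G a b ↔ g • a = a ∧ g • b = b := by simp [st2]

theorem mem_line {a b x : Ω} : x ∈ line G a b ↔ ∀ g : G, g • a = a → g • b = b → g • x = x := by
  simp [line, st2]

theorem nfix_one : nfix Ω (1 : G) = Fintype.card Ω := by simp [nfix]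

theorem nfix_conj (k g : G) : nfix Ω (k * g * k⁻¹) = nfix Ω g := by
  refine Finset.card_nbij' (fun x => k⁻¹ • x) (fun x => k • x) ?_ ?_ ?_ ?_
  · intro x hx
    simp only [Finset.coe_filter, Finset.mem_univ, true_and, Set.mem_setOf_eq] at hx ⊢
    rw [mul_smul, mul_smul] at hx
    conv_rhs => rw [← hx]
    rw [inv_smul_smul]
  · intro x hx
    simp only [Finset.coe_filter, Finset.mem_univ, true_and, Set.mem_setOf_eq] at hx ⊢
    rw [mul_smul, mul_smul, inv_smul_smul, hx]
  · intro x _; simp
  · intro x _; simp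

theorem nfix_lt {g : G} (hg : g ≠ 1) : nfix Ω g < Fintype.card Ω := by
  rw [nfix, ← Finset.card_univ]
  refine Finset.card_lt_card (Finset.ssubset_univ_iff.2 fun h => hg ?_)
  refine FaithfulSMul.eq_of_smul_eq_smul (α := Ω) fun x => ?_
  have := Finset.mem_univ x
  rw [← h, Finset.mem_filter] at this
  rw [this.2, one_smul]

variable (h2 : ∀ a b c d : Ω, a ≠ b → c ≠ d → ∃ g : G, g • a = c ∧ g • b = d)
include h2

theorem card_st2 {a b c d : Ω} (hab : a ≠ b) (hcd : c ≠ d) : (st2 G a b).card = (st2 G c d).card := by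
  obtain ⟨k, hka, hkb⟩ := h2 a b c d hab hcd
  have ha : k⁻¹ • c = a := inv_smul_eq_iff.2 hka.symm
  have hb : k⁻¹ • d = b := inv_smul_eq_iff.2 hkb.symm
  refine Finset.card_nbij' (fun g => k * g * k⁻¹) (fun g => k⁻¹ * g * k) ?_ ?_ ?_ ?_
  · intro g hg
    simp only [Finset.mem_coe, mem_st2] at hg ⊢
    simp only [mul_smul, ha, hb, hg.1, hg.2, hka, hkb, and_self]
  · intro g hg
    simp only [Finset.mem_coe, mem_st2] at hg ⊢
    simp only [mul_smul, hka, hkb, hg.1, hg.2, ha, hb, and_self]
  · intro g _; simp [mul_assoc]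
  · intro g _; simp [mul_assoc]

theorem st2_eq_of_mem_line {a b u v : Ω} (hab : a ≠ b) (huv : u ≠ v) (hu : u ∈ line G a b)
    (hv : v ∈ line G a b) : st2 G u v = st2 G a b := by
  refine (Finset.eq_of_subset_of_card_le (fun g hg => ?_) (card_st2 h2 huv hab).le).symm
  rw [mem_st2] at hg ⊢
  exact ⟨mem_line.1 hu g hg.1 hg.2, mem_line.1 hv g hg.1 hg.2⟩

theorem line_eq_of_mem {a b u v : Ω} (hab : a ≠ b) (huv : u ≠ v) (hu : u ∈ line G a b)
    (hv : v ∈ line G a b) : line G u v = line G a b := by
  simp only [line, st2_eq_of_mem_line h2 hab huv hu hv]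

omit h2 in
theorem left_mem_line (a b : Ω) : a ∈ line G a b := mem_line.2 fun _ h _ => h

omit h2 in
theorem right_mem_line (a b : Ω) : b ∈ line G a b := mem_line.2 fun _ _ h => h

theorem card_line {a b c d : Ω} (hab : a ≠ b) (hcd : c ≠ d) : (line G a b).card = (line G c d).card := by
  obtain ⟨k, hka, hkb⟩ := h2 a b c d hab hcd
  have ha : k⁻¹ • c = a := inv_smul_eq_iff.2 hka.symm
  have hb : k⁻¹ • d = b := inv_smul_eq_iff.2 hkb.symm
  refine Finset.card_nbij' (fun x => k • x) (fun x => k⁻¹ • x) ?_ ?_ ?_ ?_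
  · intro x hx
    rw [Finset.mem_coe, mem_line] at hx ⊢
    intro g hc hd
    have := hx (k⁻¹ * g * k) (by simp [mul_smul, hka, hc, ha]) (by simp [mul_smul, hkb, hd, hb])
    rw [mul_smul, mul_smul, inv_smul_eq_iff] at this
    exact this
  · intro x hx
    rw [Finset.mem_coe, mem_line] at hx ⊢
    intro g hga hgb
    have := hx (k * g * k⁻¹) (by simp [mul_smul, hka, hga, ha]) (by simp [mul_smul, hkb, hgb, hb])
    rw [mul_smul, mul_smul] at this
    exact eq_inv_smul_iff.2 this
  · intro x _; simp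
  · intro x _; simp

theorem line_bound {α β : Ω} (hαβ : α ≠ β) {g : G} {u : Ω} (hu : g • u ≠ u) :
    nfix Ω g * ((line G α β).card - 1) ≤ Fintype.card Ω - 1 := by
  set X := Finset.univ.filter fun x : Ω => g • x = x
  have hne : ∀ x ∈ X, u ≠ x := fun x hx e => hu (e ▸ (Finset.mem_filter.1 hx).2)
  have hsum : ∑ x ∈ X, ((line G u x).erase u).card = nfix Ω g * ((line G α β).card - 1) := by
    rw [Finset.sum_congr rfl (g := fun _ => (line G α β).card - 1) (fun x hx => by
      rw [Finset.card_erase_of_mem (left_mem_line u x), card_line h2 (hne x hx) hαβ]),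
      Finset.sum_const, smul_eq_mul]
    rfl
  rw [← hsum, ← Finset.card_biUnion, ← Finset.card_univ, ← Finset.card_erase_of_mem (Finset.mem_univ u)]
  · refine Finset.card_le_card fun w hw => ?_
    obtain ⟨x, _, hw⟩ := Finset.mem_biUnion.1 hw
    exact Finset.mem_erase.2 ⟨(Finset.mem_erase.1 hw).1, Finset.mem_univ w⟩
  · intro x hx x' hx' hxx
    rw [Function.onFun, Finset.disjoint_left]
    intro w hw hw'
    obtain ⟨hwu, hw1⟩ := Finset.mem_erase.1 hw
    have hw2 := (Finset.mem_erase.1 hw').2
    have e1 := line_eq_of_mem h2 (hne x hx) (Ne.symm hwu) (left_mem_line u x) hw1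
    have e2 := line_eq_of_mem h2 (hne x' hx') (Ne.symm hwu) (left_mem_line u x') hw2
    have hx'L : x' ∈ line G u x := by rw [← e1, e2]; exact right_mem_line u x'
    have := st2_eq_of_mem_line h2 (hne x hx) hxx (right_mem_line u x) hx'L
    have hg : g ∈ st2 G u x := by
      rw [← this, mem_st2]
      exact ⟨(Finset.mem_filter.1 hx).2, (Finset.mem_filter.1 hx').2⟩
    exact hu (mem_st2.1 hg).1

theorem moment {α β : Ω} (hαβ : α ≠ β) (φ : G → ℚ) (hφ : ∀ k g, φ (k * g * k⁻¹) = φ g) :
    ∑ g : G, ((nfix Ω g : ℚ) * ((nfix Ω g : ℚ) - 1)) * φ g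
      = (Fintype.card Ω : ℚ) * ((Fintype.card Ω : ℚ) - 1) * ∑ h ∈ st2 G α β, φ h := by
  have e1 : ∀ g : G, ((nfix Ω g : ℚ) * ((nfix Ω g : ℚ) - 1)) * φ g
      = ∑ p ∈ (Finset.univ : Finset Ω).offDiag, if g • p.1 = p.1 ∧ g • p.2 = p.2 then φ g else 0 := by
    intro g
    rw [← Finset.sum_filter, Finset.sum_const, nsmul_eq_mul]
    congr 1
    have : (Finset.univ : Finset Ω).offDiag.filter (fun p => g • p.1 = p.1 ∧ g • p.2 = p.2)
        = (Finset.univ.filter fun x : Ω => g • x = x).offDiag := by
      ext p; simp only [Finset.mem_filter, Finset.mem_offDiag, Finset.mem_univ, true_and]; tauto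
    rw [this, Finset.offDiag_card, Nat.cast_sub (Nat.le_mul_self _), Nat.cast_mul]
    simp only [nfix]; ring
  rw [Finset.sum_congr rfl (fun g _ => e1 g), Finset.sum_comm]
  have e2 : ∀ p ∈ (Finset.univ : Finset Ω).offDiag,
      (∑ g : G, if g • p.1 = p.1 ∧ g • p.2 = p.2 then φ g else 0) = ∑ h ∈ st2 G α β, φ h := by
    intro p hp
    obtain ⟨k, hka, hkb⟩ := h2 α β p.1 p.2 hαβ (Finset.mem_offDiag.1 hp).2.2
    have ha : k⁻¹ • p.1 = α := inv_smul_eq_iff.2 hka.symm
    have hb : k⁻¹ • p.2 = β := inv_smul_eq_iff.2 hkb.symm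
    rw [← Finset.sum_filter]
    refine Finset.sum_nbij' (fun g => k⁻¹ * g * k) (fun g => k * g * k⁻¹) ?_ ?_ ?_ ?_ ?_
    · intro g hg
      simp only [Finset.mem_coe, Finset.mem_filter, Finset.mem_univ, true_and, mem_st2] at hg ⊢
      simp only [mul_smul, hka, hkb, hg.1, hg.2, ha, hb, and_self]
    · intro g hg
      simp only [Finset.mem_coe, Finset.mem_filter, Finset.mem_univ, true_and, mem_st2] at hg ⊢
      simp only [mul_smul, ha, hb, hg.1, hg.2, hka, hkb, and_self]
    · intro g _; simp [mul_assoc]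
    · intro g _; simp [mul_assoc]
    · intro g _
      rw [show φ g = φ (k⁻¹ * g * k⁻¹⁻¹) from (hφ k⁻¹ g).symm, inv_inv]
  rw [Finset.sum_congr rfl e2, Finset.sum_const, nsmul_eq_mul, Finset.offDiag_card, Finset.card_univ,
    Nat.cast_sub (Nat.le_mul_self _), Nat.cast_mul]
  ring

omit h2 in
/-- a fixed-point-free involutive map forces even cardinality -/
theorem even_card_of_swap {α : Type*} (s : Finset α) (f : α → α) (hf : ∀ x ∈ s, f x ∈ s)
    (hne : ∀ x ∈ s, f x ≠ x) (hff : ∀ x ∈ s, f (f x) = x) : Even s.card := by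
  have h : ∑ _x ∈ s, (1 : ZMod 2) = 0 :=
    Finset.sum_involution (fun x _ => f x) (fun x _ => by decide) (fun x hx _ => hne x hx) hf hff
  rw [Finset.sum_const, nsmul_eq_mul, mul_one] at h
  exact even_iff_two_dvd.2 ((ZMod.natCast_eq_zero_iff_even.1 h).two_dvd)

omit h2 in
theorem mul_mem_st2 {a b : Ω} {g h : G} (hg : g ∈ st2 G a b) (hh : h ∈ st2 G a b) : g * h ∈ st2 G a b := by
  rw [mem_st2] at hg hh ⊢
  simp [mul_smul, hg.1, hg.2, hh.1, hh.2]

omit h2 in
theorem inv_mem_st2 {a b : Ω} {g : G} (hg : g ∈ st2 G a b) : g⁻¹ ∈ st2 G a b := by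
  rw [mem_st2] at hg ⊢
  exact ⟨inv_smul_eq_iff.2 hg.1.symm, inv_smul_eq_iff.2 hg.2.symm⟩

omit h2 in
theorem one_mem_st2 (a b : Ω) : (1 : G) ∈ st2 G a b := by simp [st2]

omit h2 in
/-- orbit-stabiliser inside a two-point stabiliser -/
theorem orbit_mul_stab {a b : Ω} (x : Ω) :
    ((st2 G a b).image fun g => g • x).card * ((st2 G a b).filter fun g => g • x = x).card
      = (st2 G a b).card := by
  rw [Finset.card_eq_sum_card_image (fun g : G => g • x) (st2 G a b),
    Finset.sum_congr rfl (g := fun _ => ((st2 G a b).filter fun g => g • x = x).card), Finset.sum_const,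
    smul_eq_mul]
  intro y hy
  obtain ⟨k, hk, rfl⟩ := Finset.mem_image.1 hy
  refine Finset.card_nbij' (fun g => k⁻¹ * g) (fun g => k * g) ?_ ?_ ?_ ?_
  · intro g hg
    simp only [Finset.mem_coe, Finset.mem_filter] at hg ⊢
    exact ⟨mul_mem_st2 (inv_mem_st2 hk) hg.1, by rw [mul_smul, hg.2, inv_smul_smul]⟩
  · intro g hg
    simp only [Finset.mem_coe, Finset.mem_filter] at hg ⊢
    exact ⟨mul_mem_st2 hk hg.1, by rw [mul_smul, hg.2]⟩
  · intro g _; simp
  · intro g _; simp

section PureTwo

variable {α β : Ω} (hαβ : α ≠ β)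
  (h2orb : ∀ x, x ∉ line G α β → ((st2 G α β).image fun g => g • x).card = 2)

omit h2 in
include h2orb in
theorem move_eq {g h : G} (hg : g ∈ st2 G α β) (hh : h ∈ st2 G α β) {x : Ω} (hgx : g • x ≠ x)
    (hhx : h • x ≠ x) : g • x = h • x := by
  by_contra hne
  have hx : x ∉ line G α β := fun hL => hgx (mem_line.1 hL g (mem_st2.1 hg).1 (mem_st2.1 hg).2)
  have hsub : ({x, g • x, h • x} : Finset Ω) ⊆ (st2 G α β).image fun g => g • x := by
    intro y hy
    simp only [Finset.mem_insert, Finset.mem_singleton] at hy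
    rcases hy with rfl | rfl | rfl
    · exact Finset.mem_image.2 ⟨1, one_mem_st2 _ _, one_smul _ _⟩
    · exact Finset.mem_image_of_mem _ hg
    · exact Finset.mem_image_of_mem _ hh
  have h3 : ({x, g • x, h • x} : Finset Ω).card = 3 :=
    Finset.card_eq_three.2 ⟨x, g • x, h • x, Ne.symm hgx, Ne.symm hhx, hne, rfl⟩
  have := Finset.card_le_card hsub
  rw [h3, h2orb x hx] at this
  omega

omit h2 in
include h2orb in
theorem sq_one {g : G} (hg : g ∈ st2 G α β) : g * g = 1 := by
  refine FaithfulSMul.eq_of_smul_eq_smul (α := Ω) fun x => ?_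
  rw [one_smul, mul_smul]
  by_cases hgx : g • x = x
  · rw [hgx, hgx]
  have hi : g⁻¹ • x ≠ x := fun e => hgx (inv_smul_eq_iff.1 e).symm
  rw [move_eq h2orb hg (inv_mem_st2 hg) hgx hi, smul_inv_smul]

omit h2 in
include h2orb in
theorem comm_st2 {g h : G} (hg : g ∈ st2 G α β) (hh : h ∈ st2 G α β) : g * h = h * g := by
  have h1 := sq_one h2orb hg
  have h2' := sq_one h2orb hh
  have h3 := sq_one h2orb (mul_mem_st2 hg hh)
  calc g * h = g * (g * h * (g * h)) * h := by rw [h3]; group
    _ = g * g * (h * g) * (h * h) := by group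
    _ = h * g := by rw [h1, h2', one_mul, mul_one]

include h2orb hαβ in
/-- with trivial lines and two orbit types the group has a regular odd normal subgroup: impossible -/
theorem no_two_types (hF : line G α β = {α, β}) {x₀ y₀ : Ω} (hx₀ : x₀ ∉ line G α β) {h₁ h₂' : G} (h₁S : h₁ ∈ st2 G α β)
    (h₂S : h₂' ∈ st2 G α β) (h₁x : h₁ • x₀ = x₀) (h₁y : h₁ • y₀ ≠ y₀) (h₂y : h₂' • y₀ = y₀)
    (h₂x : h₂' • x₀ ≠ x₀) : False := by
  -- the degree is even
  have heven : Even (Finset.univ \ ({α, β} : Finset Ω)).card := by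
    have hex : ∀ x : Ω, ∃ y : Ω, x ∉ ({α, β} : Finset Ω) →
        y ≠ x ∧ ∃ g ∈ st2 G α β, g • x = y := by
      intro x
      by_cases hx : x ∉ ({α, β} : Finset Ω)
      · have hc := h2orb x (hF ▸ hx)
        obtain ⟨y, hy, hyx⟩ := Finset.exists_mem_ne (by rw [hc]; norm_num) x
        obtain ⟨g, hg, hgy⟩ := Finset.mem_image.1 hy
        exact ⟨y, fun _ => ⟨hyx, g, hg, hgy⟩⟩
      · exact ⟨x, fun h => absurd h hx⟩
    choose oth hoth using hex
    have hout : ∀ x ∉ ({α, β} : Finset Ω), ∀ g ∈ st2 G α β, g • x ∉ ({α, β} : Finset Ω) := by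
      intro x hx g hg hgx
      simp only [Finset.mem_insert, Finset.mem_singleton] at hgx hx
      rw [mem_st2] at hg
      rcases hgx with e | e
      · exact hx (Or.inl (MulAction.injective g (e.trans hg.1.symm)))
      · exact hx (Or.inr (MulAction.injective g (e.trans hg.2.symm)))
    refine even_card_of_swap _ oth (fun x hx => ?_) (fun x hx => (hoth x (Finset.mem_sdiff.1 hx).2).1)
      (fun x hx => ?_)
    · obtain ⟨-, g, hg, hgy⟩ := hoth x (Finset.mem_sdiff.1 hx).2
      exact Finset.mem_sdiff.2 ⟨Finset.mem_univ _, hgy ▸ hout x (Finset.mem_sdiff.1 hx).2 g hg⟩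
    · obtain ⟨hne, g, hg, hgy⟩ := hoth x (Finset.mem_sdiff.1 hx).2
      obtain ⟨hne', g', hg', hgy'⟩ := hoth (oth x) (hgy ▸ hout x (Finset.mem_sdiff.1 hx).2 g hg)
      have h1 : g • oth x = x := by rw [← hgy, ← mul_smul, sq_one h2orb hg, one_smul]
      rw [← hgy', ← move_eq h2orb hg hg' (by rw [h1]; exact hne.symm) (by rw [hgy']; exact hne'), h1]
  rw [Finset.card_sdiff_of_subset (Finset.subset_univ _), Finset.card_pair hαβ, Finset.card_univ] at heven
  have hn2 : 2 ≤ Fintype.card Ω := Fintype.one_lt_card_iff.2 ⟨α, β, hαβ⟩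
  -- the point stabiliser
  set X := stabilizer G α
  set Hs : Subgroup X := stabilizer X β
  have hmem : ∀ g : X, g ∈ Hs ↔ (g : G) ∈ st2 G α β := fun g => by
    rw [mem_st2]; exact ⟨fun h => ⟨g.2, h⟩, fun h => h.2⟩
  have hp : IsPGroup 2 Hs := fun g => ⟨1, Subtype.ext (Subtype.ext (by
    have := sq_one h2orb ((hmem g.1).1 g.2)
    simpa [pow_two] using this))⟩
  have horb : (orbit X β) = {x | x ≠ α} := by
    ext x
    constructor
    · rintro ⟨g, rfl⟩
      show g • β ≠ α
      intro e
      exact hαβ ((MulAction.injective (g : G)) ((g.2 : (g : G) • α = α).trans e.symm))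
    · intro hx
      obtain ⟨g, hg1, hg2⟩ := h2 α β α x hαβ (Ne.symm hx)
      exact ⟨⟨g, hg1⟩, hg2⟩
  have hidx : Hs.index = Fintype.card Ω - 1 := by
    rw [index_stabilizer, horb, Set.ncard_eq_toFinset_card']
    simp [Finset.filter_ne', Finset.card_erase_of_mem]
  have hnd : ¬ 2 ∣ Hs.index := by
    rw [hidx]
    obtain ⟨e, he⟩ := heven
    omega
  set P : Sylow 2 X := hp.toSylow hnd
  have hP : (P : Subgroup X) = Hs := rfl
  have hN : Subgroup.normalizer ((P : Subgroup X) : Set X) ≤ Subgroup.centralizer ((P : Subgroup X) : Set X) := by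
    intro x hx
    rw [hP] at hx ⊢
    have hxH : x ∈ Hs := by
      show (x : G) • β = β
      have hmemL : (x : G) • β ∈ line G α β := mem_line.2 fun g hga hgb => by
        have h1 : (⟨g, hga⟩ : X) ∈ Hs := hgb
        have h2 := (Subgroup.mem_normalizer_iff''.1 hx ⟨g, hga⟩).1 h1
        have h3 : ((x : G)⁻¹ * g * x) • β = β := h2
        rw [mul_smul, mul_smul, inv_smul_eq_iff] at h3
        exact h3
      rw [hF, Finset.mem_insert, Finset.mem_singleton] at hmemL
      rcases hmemL with e | e
      · exact absurd ((MulAction.injective (x : G)) ((x.2 : (x : G) • α = α).trans e.symm)) hαβ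
      · exact e
    exact Subgroup.mem_centralizer_iff.2 fun y hy => Subtype.ext
      (comm_st2 h2orb ((hmem y).1 hy) ((hmem x).1 hxH))
  set O := (MonoidHom.transferSylow P hN).ker
  have hc : Subgroup.IsComplement' O Hs := MonoidHom.ker_transferSylow_isComplement' P hN
  have hOodd : Odd (Nat.card O) := by
    have h1 := hc.card_mul
    have h2' := Hs.index_mul_card
    have : Nat.card O = Hs.index := by
      refine Nat.eq_of_mul_eq_mul_right (Nat.card_pos (α := Hs)) ?_
      rw [h1, h2']
    rw [this, Nat.odd_iff]; omega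
  have hdec : ∀ x : Ω, x ≠ α → ∃ o ∈ O, o • β = x := by
    intro x hx
    obtain ⟨g, rfl⟩ : x ∈ orbit X β := horb ▸ hx
    obtain ⟨⟨o, h⟩, hgh⟩ := hc.2 g
    refine ⟨o, o.2, ?_⟩
    show (o : X) • β = g • β
    rw [← show (o : X) * (h : X) = g from hgh, mul_smul, show (h : X) • β = β from h.2]
  have hinj : ∀ o ∈ O, ∀ o' ∈ O, o • β = o' • β → o = o' := by
    intro o ho o' ho' e
    have h1 : o'⁻¹ * o ∈ O ⊓ Hs := ⟨O.mul_mem (O.inv_mem ho') ho, by
      show (o'⁻¹ * o) • β = β
      rw [mul_smul, e, inv_smul_smul]⟩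
    rw [hc.disjoint.eq_bot, Subgroup.mem_bot] at h1
    exact (inv_mul_eq_one.1 h1).symm
  have hfix : ∀ h : X, h ∈ Hs → ∀ o ∈ O, ((h * o * h⁻¹ = o) ↔ h • o • β = o • β) := by
    intro h hh o ho
    have he : (h * o * h⁻¹) • β = h • o • β := by
      rw [mul_smul, mul_smul, inv_smul_eq_iff.2 (show β = h • β from (hh : h • β = β).symm)]
    constructor
    · intro e; rw [← he, e]
    · intro e
      exact hinj _ (MonoidHom.normal_ker _ |>.conj_mem o ho h) o ho (he.trans e)
  have hne : ∀ z, h₁ • z ≠ z ∨ h₂' • z ≠ z → z ≠ α := fun z hz e => by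
    subst e; rcases hz with h | h
    · exact h (mem_st2.1 h₁S).1
    · exact h (mem_st2.1 h₂S).1
  obtain ⟨a, ha, hax⟩ := hdec x₀ (hne x₀ (Or.inr h₂x))
  obtain ⟨b, hb, hby⟩ := hdec y₀ (hne y₀ (Or.inl h₁y))
  let k₁ : X := ⟨h₁, (mem_st2.1 h₁S).1⟩
  let k₂ : X := ⟨h₂', (mem_st2.1 h₂S).1⟩
  have k₁H : k₁ ∈ Hs := (hmem k₁).2 h₁S
  have k₂H : k₂ ∈ Hs := (hmem k₂).2 h₂S
  have e1a : k₁ * a * k₁⁻¹ = a := (hfix k₁ k₁H a ha).2 (by rw [hax]; exact h₁x)
  have e2b : k₂ * b * k₂⁻¹ = b := (hfix k₂ k₂H b hb).2 (by rw [hby]; exact h₂y)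
  have e1b : k₁ * b * k₁⁻¹ ≠ b := fun e => h₁y (by have := (hfix k₁ k₁H b hb).1 e; rwa [hby] at this)
  have e2a : k₂ * a * k₂⁻¹ ≠ a := fun e => h₂x (by have := (hfix k₂ k₂H a ha).1 e; rwa [hax] at this)
  -- a squared is moved as well
  have e2aa : k₂ * (a * a) * k₂⁻¹ ≠ a * a := by
    intro e
    apply e2a
    obtain ⟨m, hm⟩ := hOodd
    have h1 : (⟨a, ha⟩ : O) ^ Nat.card O = 1 := pow_card_eq_one'
    rw [hm, pow_succ, pow_mul, pow_two] at h1
    have h1' : (a * a) ^ m * a = 1 := congrArg Subtype.val h1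
    have ha' : a = ((a * a) ^ m)⁻¹ := (inv_eq_of_mul_eq_one_right h1').symm
    conv_lhs => rw [ha']
    conv_rhs => rw [ha']
    rw [show k₂ * ((a * a) ^ m)⁻¹ * k₂⁻¹ = (k₂ * (a * a) ^ m * k₂⁻¹)⁻¹ by group, ← conj_pow, e]
  -- the product moves under both, so is fixed by k₁k₂
  have key : ∀ o ∈ O, k₁ * o * k₁⁻¹ ≠ o → k₂ * o * k₂⁻¹ ≠ o → (k₁ * k₂) * o * (k₁ * k₂)⁻¹ = o := by
    intro o ho n1 n2
    refine (hfix _ (Hs.mul_mem k₁H k₂H) o ho).2 ?_
    have m1 : h₁ • (o • β) ≠ o • β := fun e => n1 ((hfix k₁ k₁H o ho).2 e)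
    have m2 : h₂' • (o • β) ≠ o • β := fun e => n2 ((hfix k₂ k₂H o ho).2 e)
    show (h₁ * h₂') • (o • β) = o • β
    rw [mul_smul, ← move_eq h2orb h₁S h₂S m1 m2, ← mul_smul, sq_one h2orb h₁S, one_smul]
  have c1 : ∀ c : X, k₁ * (c * b) * k₁⁻¹ = (k₁ * c * k₁⁻¹) * (k₁ * b * k₁⁻¹) := fun c => by group
  have c2 : ∀ c : X, k₂ * (c * b) * k₂⁻¹ = (k₂ * c * k₂⁻¹) * (k₂ * b * k₂⁻¹) := fun c => by group
  have e1aa : k₁ * (a * a) * k₁⁻¹ = a * a := by
    rw [show k₁ * (a * a) * k₁⁻¹ = (k₁ * a * k₁⁻¹) * (k₁ * a * k₁⁻¹) by group, e1a]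
  have f1 := key (a * b) (O.mul_mem ha hb) (by rw [c1, e1a]; simpa using e1b)
    (by rw [c2, e2b]; simpa using e2a)
  have f2 := key (a * a * b) (O.mul_mem (O.mul_mem ha ha) hb) (by rw [c1, e1aa]; simpa using e1b)
    (by rw [c2, e2b]; simpa using e2aa)
  have f3 : (k₁ * k₂) * a * (k₁ * k₂)⁻¹ = a := by
    calc (k₁ * k₂) * a * (k₁ * k₂)⁻¹
        = ((k₁ * k₂) * (a * a * b) * (k₁ * k₂)⁻¹) * ((k₁ * k₂) * (a * b) * (k₁ * k₂)⁻¹)⁻¹ := by group
      _ = a * a * b * (a * b)⁻¹ := by rw [f1, f2]
      _ = a := by group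
  apply e2a
  calc k₂ * a * k₂⁻¹ = k₁⁻¹ * ((k₁ * k₂) * a * (k₁ * k₂)⁻¹) * k₁ := by group
    _ = k₁⁻¹ * (k₁ * a * k₁⁻¹) * k₁ := by rw [f3, e1a]
    _ = a := by group

include h2orb hαβ in
/-- lines of size three, all other orbits of length two -/
theorem three_case (hF : (line G α β).card = 3) (ht : 2 ≤ (st2 G α β).card) :
    ((st2 G α β).card : ℚ) ≤
      ∑ h ∈ st2 G α β, ((Fintype.card Ω : ℚ) - nfix Ω h) / nfix Ω h := by
  classical
  set S := st2 G α β with hS
  set t := S.card with htdef
  set B := line G α β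
  set n := Fintype.card Ω with hn
  let I : Ω → Finset G := fun x => S.filter fun g => g • x = x
  let op : Finset G → Finset G → Finset G := fun A C => S.filter fun g => (g ∈ A ↔ g ∈ C)
  let cls : Ω → Finset Ω := fun x => (Finset.univ \ B).filter fun y => I y = I x
  have hmv : ∀ x ∉ B, ∃ g ∈ S, g • x ≠ x := by
    intro x hx
    by_contra hc
    push Not at hc
    exact hx (mem_line.2 fun g ha hb => hc g (mem_st2.2 ⟨ha, hb⟩))
  have hIcard : ∀ x ∉ B, 2 * (I x).card = t := by
    intro x hx
    have h := orbit_mul_stab (G := G) (a := α) (b := β) x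
    rwa [h2orb x hx] at h
  have hIdiff : ∀ x ∉ B, ∀ y ∉ B, I x ≠ I y → ∃ g ∈ S, g • x = x ∧ g • y ≠ y := by
    intro x hx y hy hne
    by_contra hc
    push Not at hc
    refine hne (Finset.eq_of_subset_of_card_le (fun g hg => ?_) ?_)
    · simp only [I, Finset.mem_filter] at hg ⊢
      exact ⟨hg.1, hc g hg.1 hg.2⟩
    · have := hIcard x hx; have := hIcard y hy; omega
  -- the third point of a line
  have hthird : ∀ x y : Ω, ∃ z, x ≠ y → z ∈ line G x y ∧ z ≠ x ∧ z ≠ y := by
    intro x y
    by_cases hxy : x ≠ y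
    · have hc : (line G x y).card = 3 := (card_line h2 hxy hαβ).trans hF
      obtain ⟨z, hz⟩ : (((line G x y).erase x).erase y).Nonempty := by
        rw [← Finset.card_pos, Finset.card_erase_of_mem (Finset.mem_erase.2 ⟨hxy.symm, right_mem_line x y⟩),
          Finset.card_erase_of_mem (left_mem_line x y), hc]
        norm_num
      exact ⟨z, fun _ => ⟨(Finset.mem_erase.1 (Finset.mem_erase.1 hz).2).2,
        (Finset.mem_erase.1 (Finset.mem_erase.1 hz).2).1, (Finset.mem_erase.1 hz).1⟩⟩
    · exact ⟨x, fun h => absurd h hxy⟩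
  choose third hth using hthird
  -- two points of a line determine the third
  have hfix3 : ∀ x y, x ≠ y → ∀ g : G, g • x = x → g • y = y → g • third x y = third x y := fun x y hxy g h1 h2' =>
    mem_line.1 (hth x y hxy).1 g h1 h2'
  have hfix3' : ∀ x y, x ≠ y → ∀ g : G, g • x = x → g • third x y = third x y → g • y = y := by
    intro x y hxy g h1 h3
    have e := line_eq_of_mem h2 hxy (hth x y hxy).2.1.symm (left_mem_line x y) (hth x y hxy).1
    exact mem_line.1 (e.symm ▸ right_mem_line x y) g h1 h3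
  have hfix3'' : ∀ x y, x ≠ y → ∀ g : G, g • y = y → g • third x y = third x y → g • x = x := by
    intro x y hxy g h1 h3
    have e := line_eq_of_mem h2 hxy (hth x y hxy).2.2.symm (right_mem_line x y) (hth x y hxy).1
    exact mem_line.1 (e.symm ▸ left_mem_line x y) g h1 h3
  have hop : ∀ x ∉ B, ∀ y ∉ B, I x ≠ I y → third x y ∉ B ∧ I (third x y) = op (I x) (I y) := by
    intro x hx y hy hne
    have hxy : x ≠ y := fun e => hne (e ▸ rfl)
    set z := third x y
    obtain ⟨g₁, hg₁, g₁x, g₁y⟩ := hIdiff x hx y hy hne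
    obtain ⟨g₂, hg₂, g₂y, g₂x⟩ := hIdiff y hy x hx (Ne.symm hne)
    have g₁z : g₁ • z ≠ z := fun e => g₁y (hfix3' x y hxy g₁ g₁x e)
    have g₂z : g₂ • z ≠ z := fun e => g₂x (hfix3'' x y hxy g₂ g₂y e)
    have hzB : z ∉ B := fun hz => g₁z (mem_line.1 hz g₁ (mem_st2.1 hg₁).1 (mem_st2.1 hg₁).2)
    refine ⟨hzB, ?_⟩
    have hprod : (g₁ * g₂) • z = z := by
      rw [mul_smul, ← move_eq h2orb hg₁ hg₂ g₁z g₂z, ← mul_smul, sq_one h2orb hg₁, one_smul]
    ext g
    simp only [I, op, Finset.mem_filter]
    refine ⟨fun hg => ⟨hg.1, ?_⟩, fun hg => ⟨hg.1, ?_⟩⟩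
    · refine ⟨fun h => ⟨hg.1, hfix3' x y hxy g h.2 hg.2⟩, fun h => ⟨hg.1, hfix3'' x y hxy g h.2 hg.2⟩⟩
    · by_cases hgx : g • x = x
      · exact hfix3 x y hxy g hgx (hg.2.1 ⟨hg.1, hgx⟩).2
      · have hgy : g • y ≠ y := fun e => hgx (hg.2.2 ⟨hg.1, e⟩).2
        have m1 : (g₁ * g₂) • x ≠ x := by
          intro e
          apply g₂x
          rw [mul_smul] at e
          exact MulAction.injective g₁ (e.trans g₁x.symm)
        have m2 : (g₁ * g₂) • y ≠ y := by rw [mul_smul, g₂y]; exact g₁y
        have hgg := mul_mem_st2 hg₁ hg₂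
        have a1 : ((g₁ * g₂)⁻¹ * g) • x = x := by
          rw [mul_smul, move_eq h2orb hg.1 hgg hgx m1, inv_smul_smul]
        have a2 : ((g₁ * g₂)⁻¹ * g) • y = y := by
          rw [mul_smul, move_eq h2orb hg.1 hgg hgy m2, inv_smul_smul]
        have a3 := hfix3 x y hxy _ a1 a2
        rw [mul_smul, inv_smul_eq_iff, hprod] at a3
        exact a3
  have hop_inv : ∀ A C : Finset G, A ⊆ S → op (op A C) C = A := by
    intro A C hA
    ext g
    simp only [op, Finset.mem_filter]
    constructor
    · rintro ⟨hg, h⟩; tauto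
    · intro hg; have := hA hg; tauto
  have hop_comm : ∀ A C, op A C = op C A := fun A C => Finset.filter_congr fun g _ => iff_comm
  -- all classes have one size
  have hmemcls : ∀ x y, y ∈ cls x ↔ y ∉ B ∧ I y = I x := fun x y => by simp [cls]
  have hle : ∀ x ∉ B, ∀ y ∉ B, I x ≠ I y → (cls y).card ≤ (cls (third x y)).card := by
    intro x hx y hy hne
    refine Finset.card_le_card_of_injOn (fun w => third x w) (fun w hw => ?_) (fun w hw w' hw' e => ?_)
    · obtain ⟨hwB, hwI⟩ := (hmemcls y w).1 hw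
      obtain ⟨h1, h2'⟩ := hop x hx w hwB (hwI ▸ hne)
      exact (hmemcls _ _).2 ⟨h1, by rw [h2', hwI, (hop x hx y hy hne).2]⟩
    · have hxw : x ≠ w := fun e' => hne (by rw [e', ((hmemcls y w).1 hw).2])
      have hxw' : x ≠ w' := fun e' => hne (by rw [e', ((hmemcls y w').1 hw').2])
      by_contra hww
      have e1 := line_eq_of_mem h2 hxw (hth x w hxw).2.1.symm (left_mem_line x w) (hth x w hxw).1
      have e2 := line_eq_of_mem h2 hxw' (hth x w' hxw').2.1.symm (left_mem_line x w') (hth x w' hxw').1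
      have e' : third x w = third x w' := e
      rw [e'] at e1
      have hsub : ({x, w, w', third x w'} : Finset Ω) ⊆ line G x w' := by
        intro v hv
        simp only [Finset.mem_insert, Finset.mem_singleton] at hv
        rcases hv with rfl | rfl | rfl | rfl
        · exact left_mem_line _ _
        · rw [← e2, e1]; exact right_mem_line _ _
        · exact right_mem_line _ _
        · exact (hth x w' hxw').1
      have h4 : ({x, w, w', third x w'} : Finset Ω).card = 4 := by
        rw [Finset.card_insert_of_notMem (by simp [hxw, hxw', (hth x w' hxw').2.1.symm]),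
          Finset.card_insert_of_notMem (by simp [hww, (e' ▸ (hth x w hxw).2.2.symm : w ≠ third x w')]),
          Finset.card_pair (hth x w' hxw').2.2.symm]
      have := Finset.card_le_card hsub
      rw [h4, card_line h2 hxw' hαβ, hF] at this
      omega
  have hclseq : ∀ x ∉ B, ∀ y ∉ B, (cls x).card = (cls y).card := by
    have key : ∀ x ∉ B, ∀ y ∉ B, I x ≠ I y → (cls y).card = (cls (third x y)).card := by
      intro x hx y hy hne
      obtain ⟨hzB, hzI⟩ := hop x hx y hy hne
      refine le_antisymm (hle x hx y hy hne) ?_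
      have hxz : I x ≠ I (third x y) := by
        intro e
        obtain ⟨g, hg, gx, gy⟩ := hIdiff x hx y hy hne
        have : g ∈ I (third x y) := e ▸ Finset.mem_filter.2 ⟨hg, gx⟩
        exact gy (hfix3' x y (fun e' => hne (e' ▸ rfl)) g gx (Finset.mem_filter.1 this).2)
      obtain ⟨hwB, hwI⟩ := hop x hx _ hzB hxz
      have hIy : I (third x (third x y)) = I y := by
        rw [hwI, hzI, hop_comm (I x) (I y), hop_comm (I x), hop_inv (I y) (I x) (Finset.filter_subset _ _)]
      have := hle x hx _ hzB hxz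
      rwa [show cls (third x (third x y)) = cls y by simp only [cls, hIy]] at this
    intro x hx y hy
    by_cases hne : I x = I y
    · simp only [cls, hne]
    · have h1 := key x hx y hy hne
      have h2' := key y hy x hx (Ne.symm hne)
      have e : cls (third x y) = cls (third y x) := by
        simp only [cls, (hop x hx y hy hne).2, (hop y hy x hx (Ne.symm hne)).2, hop_comm (I x) (I y)]
      rw [h1, h2', e]
  obtain ⟨x₀, hx₀⟩ : ∃ x₀, x₀ ∉ B := by
    by_contra hc
    push Not at hc
    obtain ⟨g, hg, hg1⟩ := Finset.exists_mem_ne (show 1 < S.card by omega) 1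
    exact hg1 (FaithfulSMul.eq_of_smul_eq_smul (α := Ω) fun x => by
      rw [one_smul]; exact mem_line.1 (hc x) g (mem_st2.1 hg).1 (mem_st2.1 hg).2)
  set c := (cls x₀).card
  -- a class has at least four and an even number of points
  have hc4 : 4 ≤ c := by
    have hzb : ∀ b ∈ B, third x₀ b ∈ cls x₀ ∧ third x₀ b ≠ x₀ := by
      intro b hb
      have hxb : x₀ ≠ b := fun e => hx₀ (e ▸ hb)
      have hfb : ∀ g ∈ S, g • b = b := fun g hg => mem_line.1 hb g (mem_st2.1 hg).1 (mem_st2.1 hg).2
      have hzB : third x₀ b ∉ B := by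
        intro hz
        obtain ⟨g, hg, hgx⟩ := hmv x₀ hx₀
        exact hgx (hfix3'' x₀ b hxb g (hfb g hg) (mem_line.1 hz g (mem_st2.1 hg).1 (mem_st2.1 hg).2))
      refine ⟨(hmemcls _ _).2 ⟨hzB, ?_⟩, (hth x₀ b hxb).2.1⟩
      ext g
      simp only [I, Finset.mem_filter]
      exact ⟨fun h => ⟨h.1, hfix3'' x₀ b hxb g (hfb g h.1) h.2⟩, fun h => ⟨h.1, hfix3 x₀ b hxb g h.2 (hfb g h.1)⟩⟩
    have hinj : Set.InjOn (third x₀) (B : Set Ω) := by
      intro b hb b' hb' e
      by_contra hbb
      have hxb : x₀ ≠ b := fun e' => hx₀ (e' ▸ hb)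
      have hxb' : x₀ ≠ b' := fun e' => hx₀ (e' ▸ hb')
      have e1 := line_eq_of_mem h2 hxb (hth x₀ b hxb).2.1.symm (left_mem_line x₀ b) (hth x₀ b hxb).1
      have e2 := line_eq_of_mem h2 hxb' (hth x₀ b' hxb').2.1.symm (left_mem_line x₀ b') (hth x₀ b' hxb').1
      rw [e] at e1
      have hb'L : b' ∈ line G x₀ b := by rw [← e1, e2]; exact right_mem_line _ _
      have e3 := line_eq_of_mem h2 hxb hbb (right_mem_line x₀ b) hb'L
      have e4 := line_eq_of_mem h2 hαβ hbb hb hb'
      exact hx₀ (show x₀ ∈ line G α β by rw [← e4, e3]; exact left_mem_line _ _)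
    have hsub : insert x₀ (B.image (third x₀)) ⊆ cls x₀ := by
      refine Finset.insert_subset ((hmemcls _ _).2 ⟨hx₀, rfl⟩) (Finset.image_subset_iff.2 fun b hb => (hzb b hb).1)
    have := Finset.card_le_card hsub
    rw [Finset.card_insert_of_notMem (fun hm => by
      obtain ⟨b, hb, e⟩ := Finset.mem_image.1 hm
      exact (hzb b hb).2 e), Finset.card_image_of_injOn hinj, hF] at this
    omega
  have hceven : Even c := by
    obtain ⟨g, hg, hgx⟩ := hmv x₀ hx₀
    have hsame : ∀ y ∈ cls x₀, g • y ∈ cls x₀ := by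
      intro y hy
      obtain ⟨hyB, hyI⟩ := (hmemcls _ _).1 hy
      refine (hmemcls _ _).2 ⟨fun h => hyB ?_, ?_⟩
      · have : g • g • y = g • y := mem_line.1 h g (mem_st2.1 hg).1 (mem_st2.1 hg).2
        rw [MulAction.injective g this] at h
        exact h
      · rw [← hyI]
        ext k
        simp only [I, Finset.mem_filter]
        refine and_congr_right fun hk => ?_
        rw [← mul_smul, comm_st2 h2orb hk hg, mul_smul]
        exact ⟨fun e => MulAction.injective g e, fun e => by rw [e]⟩
    refine even_card_of_swap _ (fun y => g • y) hsame (fun y hy e => hgx ?_)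
      (fun y _ => by rw [← mul_smul, sq_one h2orb hg, one_smul])
    have : g ∈ I y := Finset.mem_filter.2 ⟨hg, e⟩
    rw [((hmemcls _ _).1 hy).2] at this
    exact (Finset.mem_filter.1 this).2
  -- moved minus fixed outside the line is c
  have hB3 : B.card = 3 := hF
  have hout : (Finset.univ \ B).card + 3 = n := by
    rw [← hB3, Finset.card_sdiff_add_card_eq_card (Finset.subset_univ B), Finset.card_univ]
  have hcount : ∀ h ∈ S.erase 1, 2 * nfix Ω h + c = n + 3 := by
    intro h hh
    obtain ⟨hh1, hhS⟩ := Finset.mem_erase.1 hh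
    set Λ := (Finset.univ \ B).image I
    have hfiber : ∀ (p : Finset G → Prop) [DecidablePred p],
        ((Finset.univ \ B).filter fun x => p (I x)).card = c * (Λ.filter p).card := by
      intro p _
      rw [Finset.card_eq_sum_card_image I, Finset.sum_congr rfl (g := fun _ => c)]
      · rw [Finset.sum_const, smul_eq_mul, mul_comm]
        congr 1
        congr 1
        ext A
        simp only [Λ, Finset.mem_image, Finset.mem_filter]
        constructor
        · rintro ⟨x, ⟨hx, hp⟩, rfl⟩; exact ⟨⟨x, hx, rfl⟩, hp⟩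
        · rintro ⟨⟨x, hx, rfl⟩, hp⟩; exact ⟨x, ⟨hx, hp⟩, rfl⟩
      · intro A hA
        obtain ⟨x, hx, rfl⟩ := Finset.mem_image.1 hA
        obtain ⟨hx, hp⟩ := Finset.mem_filter.1 hx
        rw [show ((Finset.univ \ B).filter fun y => p (I y)).filter (fun y => I y = I x) = cls x by
          ext y
          simp only [cls, Finset.mem_filter]
          exact ⟨fun h => ⟨h.1.1, h.2⟩, fun h => ⟨⟨h.1, h.2.symm ▸ hp⟩, h.2⟩⟩]
        exact hclseq x (Finset.mem_sdiff.1 hx).2 x₀ hx₀
    obtain ⟨u, hu⟩ : ∃ u, h • u ≠ u := by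
      by_contra hc
      push Not at hc
      exact hh1 (FaithfulSMul.eq_of_smul_eq_smul (α := Ω) fun x => by rw [hc, one_smul])
    have huB : u ∉ B := fun hb => hu (mem_line.1 hb h (mem_st2.1 hhS).1 (mem_st2.1 hhS).2)
    have hSnot : S ∉ Λ := by
      intro hm
      obtain ⟨x, hx, e⟩ := Finset.mem_image.1 hm
      obtain ⟨g, hg, hgx⟩ := hmv x (Finset.mem_sdiff.1 hx).2
      exact hgx (Finset.mem_filter.1 (e.symm ▸ hg : g ∈ I x)).2
    set M := insert S Λ
    have hhu : h ∉ I u := fun e => hu (Finset.mem_filter.1 e).2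
    have hMsub : ∀ A ∈ M, A ⊆ S := by
      intro A hA
      rcases Finset.mem_insert.1 hA with rfl | hA
      · exact subset_rfl
      · obtain ⟨x, -, rfl⟩ := Finset.mem_image.1 hA; exact Finset.filter_subset _ _
    have hMclosed : ∀ A ∈ M, op A (I u) ∈ M := by
      intro A hA
      rcases Finset.mem_insert.1 hA with rfl | hA
      · refine Finset.mem_insert.2 (Or.inr (Finset.mem_image.2 ⟨u, Finset.mem_sdiff.2 ⟨Finset.mem_univ u, huB⟩, ?_⟩))
        ext g
        simp only [op, I, Finset.mem_filter]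
        tauto
      · obtain ⟨x, hx, rfl⟩ := Finset.mem_image.1 hA
        by_cases e : I x = I u
        · refine Finset.mem_insert.2 (Or.inl ?_)
          ext g; simp [op, e]
        · obtain ⟨hzB, hzI⟩ := hop x (Finset.mem_sdiff.1 hx).2 u huB e
          exact Finset.mem_insert.2 (Or.inr (Finset.mem_image.2 ⟨_, Finset.mem_sdiff.2 ⟨Finset.mem_univ _, hzB⟩, hzI⟩))
    have hflip : ∀ A, h ∈ op A (I u) ↔ h ∉ A := fun A => by simp [op, hhS, hhu]
    have hbal : (M.filter fun A => h ∈ A).card = (M.filter fun A => h ∉ A).card := by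
      refine Finset.card_nbij' (fun A => op A (I u)) (fun A => op A (I u)) ?_ ?_ ?_ ?_
      · intro A hA
        simp only [Finset.coe_filter, Set.mem_setOf_eq] at hA ⊢
        exact ⟨hMclosed A hA.1, by rw [hflip]; simpa using hA.2⟩
      · intro A hA
        simp only [Finset.coe_filter, Set.mem_setOf_eq] at hA ⊢
        exact ⟨hMclosed A hA.1, by rw [hflip]; exact hA.2⟩
      · intro A hA; exact hop_inv A _ (hMsub A (Finset.mem_filter.1 hA).1)
      · intro A hA; exact hop_inv A _ (hMsub A (Finset.mem_filter.1 hA).1)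
    rw [Finset.filter_insert, Finset.filter_insert, if_pos hhS, if_neg (by simp [hhS]),
      Finset.card_insert_of_notMem (fun hm => hSnot (Finset.mem_filter.1 hm).1)] at hbal
    have hfx := hfiber (fun A => h ∈ A)
    have hmx := hfiber (fun A => h ∉ A)
    have hsplit := Finset.card_filter_add_card_filter_not (s := Finset.univ \ B) (fun x => h ∈ I x)
    have hnf : nfix Ω h = 3 + ((Finset.univ \ B).filter fun x => h ∈ I x).card := by
      rw [nfix, ← hB3, ← Finset.card_union_of_disjoint (by
        rw [Finset.disjoint_left]; intro x hxB hx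
        exact (Finset.mem_sdiff.1 (Finset.mem_filter.1 hx).1).2 hxB)]
      congr 1
      ext x
      simp only [Finset.mem_filter, Finset.mem_univ, true_and, Finset.mem_union, Finset.mem_sdiff, I]
      constructor
      · intro e
        by_cases hxB : x ∈ B
        · exact Or.inl hxB
        · exact Or.inr ⟨hxB, hhS, e⟩
      · rintro (hxB | ⟨-, -, e⟩)
        · exact mem_line.1 hxB h (mem_st2.1 hhS).1 (mem_st2.1 hhS).2
        · exact e
    rw [← hbal, mul_add, mul_one] at hmx
    omega
  have htE : (S.erase 1).card = t - 1 := Finset.card_erase_of_mem (one_mem_st2 _ _)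
  -- n - 3 = (t - 1) c
  have hn3 : n = 3 + (t - 1) * c := by
    have h1 : ∀ x ∉ B, 2 * ((S.erase 1).filter fun g => g • x = x).card + 2 = t := by
      intro x hx
      rw [Finset.filter_erase, Finset.card_erase_of_mem
        (show (1 : G) ∈ S.filter (fun g => g • x = x) from Finset.mem_filter.2 ⟨one_mem_st2 _ _, one_smul _ _⟩)]
      have := hIcard x hx
      have : 1 ≤ (I x).card := Finset.card_pos.2 ⟨1, Finset.mem_filter.2 ⟨one_mem_st2 _ _, one_smul _ _⟩⟩
      show 2 * ((I x).card - 1) + 2 = t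
      omega
    have h2' : ∑ h ∈ S.erase 1, nfix Ω h = ∑ x : Ω, ((S.erase 1).filter fun g => g • x = x).card := by
      simp only [nfix]
      have := Finset.sum_card_bipartiteAbove_eq_sum_card_bipartiteBelow
        (fun (g : G) (x : Ω) => g • x = x) (s := S.erase 1) (t := Finset.univ)
      simpa [Finset.bipartiteAbove, Finset.bipartiteBelow] using this
    rw [← Finset.sum_sdiff (Finset.subset_univ B)] at h2'
    have h3 : ∑ x ∈ Finset.univ \ B, (2 * ((S.erase 1).filter fun g => g • x = x).card + 2) = (n - 3) * t := by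
      rw [Finset.sum_congr rfl (fun x hx => h1 x (Finset.mem_sdiff.1 hx).2), Finset.sum_const, smul_eq_mul]
      congr 1; omega
    have h4 : ∑ x ∈ B, ((S.erase 1).filter fun g => g • x = x).card = 3 * (t - 1) := by
      rw [Finset.sum_congr rfl (g := fun _ => t - 1), Finset.sum_const, smul_eq_mul, hB3]
      intro x hx
      rw [Finset.filter_true_of_mem fun g hg => mem_line.1 hx g (mem_st2.1 (Finset.mem_erase.1 hg).2).1
        (mem_st2.1 (Finset.mem_erase.1 hg).2).2, htE]
    have h5 : ∑ h ∈ S.erase 1, (2 * nfix Ω h + c) = (t - 1) * (n + 3) := by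
      rw [Finset.sum_congr rfl hcount, Finset.sum_const, smul_eq_mul, htE]
    rw [Finset.sum_add_distrib, ← Finset.mul_sum, Finset.sum_const, smul_eq_mul] at h3
    rw [Finset.sum_add_distrib, ← Finset.mul_sum, Finset.sum_const, smul_eq_mul, htE, h2', h4] at h5
    obtain ⟨s, hs⟩ : ∃ s, n = s + 3 := ⟨n - 3, by omega⟩
    obtain ⟨u, hu⟩ : ∃ u, t = u + 1 := ⟨t - 1, by omega⟩
    simp only [hs, Nat.add_sub_cancel, hu, show s + 3 - 3 = s by omega, show (Finset.univ \ B).card = s by omega] at h3 h5 ⊢
    nlinarith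
  have hval : ∀ h ∈ S.erase 1, (nfix Ω h : ℚ) = (6 + ((t : ℚ) - 2) * c) / 2 := by
    intro h hh
    have := hcount h hh
    have hq : (2 : ℚ) * nfix Ω h + c = n + 3 := by exact_mod_cast this
    have hq' : (n : ℚ) = 3 + ((t : ℚ) - 1) * c := by
      rw [hn3]; push_cast [Nat.cast_sub (show 1 ≤ t by omega)]; ring
    linarith [hq, hq']
  by_cases hc6 : 6 ≤ c
  · have hterm : ∀ h ∈ S.erase 1, (t : ℚ) / ((t : ℚ) - 1) ≤ ((n : ℚ) - nfix Ω h) / nfix Ω h := by
      intro h hh
      rw [hval h hh]
      have hq' : (n : ℚ) = 3 + ((t : ℚ) - 1) * c := by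
        rw [hn3]; push_cast [Nat.cast_sub (show 1 ≤ t by omega)]; ring
      have ht' : (2 : ℚ) ≤ t := by exact_mod_cast ht
      have hc' : (6 : ℚ) ≤ c := by exact_mod_cast hc6
      have hpos : (0 : ℚ) < (6 + ((t : ℚ) - 2) * c) / 2 := by
        have : (0 : ℚ) ≤ ((t : ℚ) - 2) * c := mul_nonneg (by linarith) (by linarith)
        linarith
      rw [hq', le_div_iff₀ hpos, div_mul_eq_mul_div, div_le_iff₀ (by linarith)]
      nlinarith [mul_le_mul_of_nonneg_left hc' (show (0:ℚ) ≤ t by linarith)]
    calc (t : ℚ) = ∑ _h ∈ S.erase 1, (t : ℚ) / ((t : ℚ) - 1) := by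
          rw [Finset.sum_const, htE, nsmul_eq_mul, Nat.cast_sub (show 1 ≤ t by omega), Nat.cast_one]
          have : (2 : ℚ) ≤ t := by exact_mod_cast ht
          rw [mul_div_cancel₀ _ (show (t : ℚ) - 1 ≠ 0 by linarith)]
      _ ≤ ∑ h ∈ S.erase 1, ((n : ℚ) - nfix Ω h) / nfix Ω h := Finset.sum_le_sum hterm
      _ ≤ _ := by
          rw [← Finset.add_sum_erase S _ (one_mem_st2 α β), nfix_one, sub_self, zero_div, zero_add]
  · -- c = 4 is impossible by counting moved pairs
    exfalso
    have hc : c = 4 := by obtain ⟨e, he⟩ := hceven; omega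
    set P2 := Finset.univ.filter fun g : G => g ≠ 1 ∧ 2 ≤ nfix Ω g
    have hP2 : ∀ g ∈ P2, nfix Ω g = 2 * t - 1 := by
      intro g hg
      obtain ⟨-, hg1, hg2⟩ := Finset.mem_filter.1 hg
      obtain ⟨x, hx, y, hy, hxy⟩ := Finset.one_lt_card.1 (show 1 < nfix Ω g by omega)
      obtain ⟨k, hkx, hky⟩ := h2 x y α β hxy hαβ
      have hm : k * g * k⁻¹ ∈ S.erase 1 := by
        refine Finset.mem_erase.2 ⟨fun e => hg1 (conj_eq_one_iff.1 e), mem_st2.2 ⟨?_, ?_⟩⟩
        · rw [mul_smul, mul_smul, inv_smul_eq_iff.2 hkx.symm, (Finset.mem_filter.1 hx).2, hkx]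
        · rw [mul_smul, mul_smul, inv_smul_eq_iff.2 hky.symm, (Finset.mem_filter.1 hy).2, hky]
      have := hcount _ hm
      rw [nfix_conj, hc, hn3, hc] at this
      omega
    have hmom := moment h2 hαβ (fun g => if g ≠ 1 ∧ 2 ≤ nfix Ω g then (1 : ℚ) else 0) (fun k g => by
      simp only [nfix_conj, ne_eq, conj_eq_one_iff])
    have hrhs : ∑ h ∈ S, (if h ≠ 1 ∧ 2 ≤ nfix Ω h then (1 : ℚ) else 0) = (t : ℚ) - 1 := by
      rw [Finset.sum_boole]
      have : (S.filter fun h => h ≠ 1 ∧ 2 ≤ nfix Ω h) = S.erase 1 := by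
        ext g
        simp only [Finset.mem_filter, Finset.mem_erase]
        refine ⟨fun h => ⟨h.2.1, h.1⟩, fun h => ⟨h.2, h.1, ?_⟩⟩
        refine Finset.one_lt_card.2 ⟨α, ?_, β, ?_, hαβ⟩
        · simp [(mem_st2.1 h.2).1]
        · simp [(mem_st2.1 h.2).2]
      rw [this, htE, Nat.cast_sub (show 1 ≤ t by omega), Nat.cast_one]
    have hlhs : ∑ g : G, ((nfix Ω g : ℚ) * ((nfix Ω g : ℚ) - 1)) * (if g ≠ 1 ∧ 2 ≤ nfix Ω g then (1 : ℚ) else 0)
        = P2.card * ((2 * (t : ℚ) - 1) * (2 * (t : ℚ) - 2)) := by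
      simp only [mul_ite, mul_one, mul_zero, ← Finset.sum_filter]
      rw [Finset.sum_congr rfl (g := fun _ => (2 * (t : ℚ) - 1) * (2 * (t : ℚ) - 2)), Finset.sum_const, nsmul_eq_mul]
      intro g hg
      rw [hP2 g hg, Nat.cast_sub (by omega), Nat.cast_mul, Nat.cast_one, Nat.cast_ofNat]
      ring
    rw [← hS] at hmom
    rw [hlhs, hrhs] at hmom
    have hnq : (n : ℚ) = 4 * t - 1 := by
      rw [hn3, hc]; push_cast [Nat.cast_sub (show 1 ≤ t by omega)]; ring
    have htq : (2 : ℚ) ≤ t := by exact_mod_cast ht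
    rw [show (Fintype.card Ω : ℚ) = n from rfl, hnq] at hmom
    have hP2n : (P2.card : ℚ) = 4 * t - 1 := by
      have h0 : ((2 * (t : ℚ) - 1) * (2 * (t : ℚ) - 2)) ≠ 0 := mul_ne_zero (by linarith) (by linarith)
      apply mul_right_cancel₀ h0
      rw [hmom]; ring
    have hP2n' : P2.card = n := by exact_mod_cast hP2n.trans hnq.symm
    -- count (g, x, g x) with x moved
    set b := (P2.filter fun g => g • α = β).card
    have hb : ∀ p ∈ (Finset.univ : Finset Ω).offDiag, (P2.filter fun g => g • p.1 = p.2).card = b := by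
      intro p hp
      obtain ⟨k, hk1, hk2⟩ := h2 α β p.1 p.2 hαβ (Finset.mem_offDiag.1 hp).2.2
      refine Finset.card_nbij' (fun g => k⁻¹ * g * k) (fun g => k * g * k⁻¹) ?_ ?_ ?_ ?_
      · intro g hg
        simp only [Finset.coe_filter, Set.mem_setOf_eq, P2, Finset.mem_filter, Finset.mem_univ, true_and] at hg ⊢
        refine ⟨⟨fun e => hg.1.1 ?_, ?_⟩, ?_⟩
        · have := congrArg (fun z => k * z * k⁻¹) e; simpa [mul_assoc] using this
        · have := nfix_conj (Ω := Ω) k⁻¹ g; rw [inv_inv] at this; rw [this]; exact hg.1.2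
        · rw [mul_smul, mul_smul, hk1, hg.2]; exact inv_smul_eq_iff.2 hk2.symm
      · intro g hg
        simp only [Finset.coe_filter, Set.mem_setOf_eq, P2, Finset.mem_filter, Finset.mem_univ, true_and] at hg ⊢
        exact ⟨⟨fun e => hg.1.1 (conj_eq_one_iff.1 e), by rw [nfix_conj]; exact hg.1.2⟩,
          by rw [mul_smul, mul_smul, inv_smul_eq_iff.2 hk1.symm, hg.2, hk2]⟩
      · intro g _; simp [mul_assoc]
      · intro g _; simp [mul_assoc]
    have hdc := Finset.sum_card_bipartiteAbove_eq_sum_card_bipartiteBelow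
      (fun (p : Ω × Ω) (g : G) => g • p.1 = p.2) (s := (Finset.univ : Finset Ω).offDiag) (t := P2)
    simp only [Finset.bipartiteAbove, Finset.bipartiteBelow] at hdc
    rw [Finset.sum_congr rfl hb, Finset.sum_congr (s₁ := P2) rfl (g := fun _ => 2 * t) ?_] at hdc
    · simp only [Finset.sum_const, smul_eq_mul, Finset.offDiag_card, Finset.card_univ, hP2n', ← hn] at hdc
      have hnN : n = 4 * t - 1 := by rw [hn3, hc]; omega
      rcases Nat.eq_zero_or_pos b with hb0 | hb0
      · rw [hb0, mul_zero] at hdc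
        have := Nat.mul_pos (show 0 < n by omega) (show 0 < 2 * t by omega)
        omega
      · have h1 : n * n - n ≤ n * (2 * t) := by
          rw [← hdc]; exact Nat.le_mul_of_pos_right _ hb0
        have h2' : n * n ≤ n * (2 * t + 1) := by rw [mul_add, mul_one]; omega
        have := Nat.le_of_mul_le_mul_left h2' (show 0 < n by omega)
        omega
    · intro g hg
      have hf := hP2 g hg
      have : ((Finset.univ : Finset Ω).offDiag.filter fun p => g • p.1 = p.2).card
          = (Finset.univ.filter fun x : Ω => ¬ g • x = x).card := by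
        refine Finset.card_nbij' (fun p => p.1) (fun x => (x, g • x)) ?_ ?_ ?_ ?_
        · intro p hp
          simp only [Finset.coe_filter, Set.mem_setOf_eq, Finset.mem_offDiag, Finset.mem_univ, true_and] at hp ⊢
          rw [hp.2]; exact fun e => hp.1 e.symm
        · intro x hx
          simp only [Finset.coe_filter, Set.mem_setOf_eq, Finset.mem_offDiag, Finset.mem_univ, true_and] at hx ⊢
          exact ⟨fun e => hx e.symm, by trivial⟩
        · intro p hp
          simp only [Finset.coe_filter, Set.mem_setOf_eq] at hp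
          exact Prod.ext rfl hp.2
        · intro x _; rfl
      rw [this]
      have := Finset.card_filter_add_card_filter_not (s := (Finset.univ : Finset Ω)) (fun x => g • x = x)
      rw [Finset.card_univ, ← hn] at this
      simp only [nfix] at hf
      rw [hn3, hc] at this
      omega

end PureTwo

set_option maxHeartbeats 1600000 in
theorem key_bound {α β : Ω} (hαβ : α ≠ β) (hn : 7 ≤ Fintype.card Ω) (ht : 2 ≤ (st2 G α β).card) :
    ((st2 G α β).card : ℚ) ≤ ∑ h ∈ st2 G α β, ((Fintype.card Ω : ℚ) - nfix Ω h) / nfix Ω h := by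
  classical
  set S := st2 G α β with hS
  set t := S.card with htdef
  set B := line G α β with hBdef
  set F := B.card with hFdef
  set n := Fintype.card Ω with hndef
  set E := S.erase 1
  have hE : E.card = t - 1 := Finset.card_erase_of_mem (one_mem_st2 _ _)
  have h1t : (1 : ℚ) ≤ t := by exact_mod_cast (show 1 ≤ t by omega)
  have hEq : (E.card : ℚ) = (t : ℚ) - 1 := by rw [hE, Nat.cast_sub (by omega), Nat.cast_one]
  have hsumE : ∀ φ : G → ℚ, φ 1 = 0 → ∑ h ∈ S, φ h = ∑ h ∈ E, φ h := fun φ h0 => by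
    rw [← Finset.add_sum_erase S φ (one_mem_st2 α β), h0, zero_add]
  rw [hsumE _ (by rw [nfix_one, sub_self, zero_div])]
  have hF2 : 2 ≤ F := Finset.one_lt_card.2 ⟨α, left_mem_line _ _, β, right_mem_line _ _, hαβ⟩
  have hfF : ∀ h ∈ E, F ≤ nfix Ω h := fun h hh => Finset.card_le_card fun x hx => by
    rw [Finset.mem_filter]
    exact ⟨Finset.mem_univ x, mem_line.1 hx h (mem_st2.1 (Finset.mem_erase.1 hh).2).1
      (mem_st2.1 (Finset.mem_erase.1 hh).2).2⟩
  have hfb : ∀ h ∈ E, nfix Ω h * (F - 1) ≤ n - 1 := by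
    intro h hh
    obtain ⟨u, hu⟩ : ∃ u : Ω, h • u ≠ u := by
      by_contra hc
      push Not at hc
      exact (Finset.mem_erase.1 hh).1 (FaithfulSMul.eq_of_smul_eq_smul (α := Ω) fun x => by rw [hc, one_smul])
    exact line_bound h2 hαβ hu
  have hfq : ∀ h ∈ E, (0 : ℚ) < nfix Ω h := fun h hh => by
    have := hfF h hh
    exact_mod_cast (show 0 < nfix Ω h by omega)
  -- long lines
  by_cases hF4 : 4 ≤ F
  · have hterm : ∀ h ∈ E, (2 : ℚ) ≤ ((n : ℚ) - nfix Ω h) / nfix Ω h := by
      intro h hh
      rw [le_div_iff₀ (hfq h hh)]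
      have h1 : nfix Ω h * 3 ≤ n :=
        le_trans (Nat.mul_le_mul_left _ (by omega)) ((hfb h hh).trans (Nat.sub_le _ _))
      have : (nfix Ω h : ℚ) * 3 ≤ n := by exact_mod_cast h1
      linarith
    calc (t : ℚ) ≤ ∑ _h ∈ E, (2 : ℚ) := by
          rw [Finset.sum_const, nsmul_eq_mul, hEq]
          have : (2 : ℚ) ≤ t := by exact_mod_cast ht
          linarith
      _ ≤ _ := Finset.sum_le_sum hterm
  -- many elements
  by_cases hbig : F = 3 ∧ n + 1 ≤ 2 * t
  · obtain ⟨hF3, hnt⟩ := hbig
    have hn1 : (0 : ℚ) < (n : ℚ) - 1 := by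
      have : (7 : ℚ) ≤ n := by exact_mod_cast hn
      linarith
    have hterm : ∀ h ∈ E, ((n : ℚ) + 1) / ((n : ℚ) - 1) ≤ ((n : ℚ) - nfix Ω h) / nfix Ω h := by
      intro h hh
      have := hfb h hh
      rw [hF3] at this
      have hq : (nfix Ω h : ℚ) * 2 ≤ (n : ℚ) - 1 := by
        have : nfix Ω h * 2 + 1 ≤ n := by omega
        have : (nfix Ω h : ℚ) * 2 + 1 ≤ n := by exact_mod_cast this
        linarith
      rw [div_le_div_iff₀ hn1 (hfq h hh)]
      nlinarith [mul_le_mul_of_nonneg_left hq (show (0 : ℚ) ≤ n by linarith)]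
    calc (t : ℚ) ≤ ∑ _h ∈ E, ((n : ℚ) + 1) / ((n : ℚ) - 1) := by
          rw [Finset.sum_const, nsmul_eq_mul, hEq, mul_div_assoc', le_div_iff₀ hn1]
          have : (n : ℚ) + 1 ≤ 2 * t := by exact_mod_cast hnt
          nlinarith
      _ ≤ _ := Finset.sum_le_sum hterm
  -- convexity
  set σ := ∑ h ∈ E, (nfix Ω h : ℚ)
  by_cases hJ : (2 * (t : ℚ) - 1) * σ ≤ n * ((t : ℚ) - 1) ^ 2
  · have hpos : 0 < σ := Finset.sum_pos hfq (Finset.card_pos.1 (by omega))
    have hc := Finset.sq_sum_div_le_sum_sq_div E (fun _ => (1 : ℚ)) hfq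
    simp only [Finset.sum_const, nsmul_eq_mul, mul_one, one_pow, hEq] at hc
    have hterm : ∀ h ∈ E, ((n : ℚ) - nfix Ω h) / nfix Ω h = n * (1 / nfix Ω h) - 1 := fun h hh => by
      rw [sub_div, div_self (ne_of_gt (hfq h hh))]; ring
    rw [Finset.sum_congr rfl hterm, Finset.sum_sub_distrib, Finset.sum_const, nsmul_eq_mul, mul_one, hEq,
      ← Finset.mul_sum]
    have h1 : 2 * (t : ℚ) - 1 ≤ n * (((t : ℚ) - 1) ^ 2 / σ) := by
      rw [mul_div_assoc', le_div_iff₀ hpos]; exact hJ
    have := mul_le_mul_of_nonneg_left hc (show (0 : ℚ) ≤ n by positivity)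
    linarith
  -- the bad configuration
  push Not at hJ
  let s : Ω → ℕ := fun x => (S.filter fun g => g • x = x).card
  let v : Ω → ℤ := fun x => (t : ℤ) ^ 2 - (2 * (t : ℤ) - 1) * s x
  have hσ : σ + n = ∑ x : Ω, (s x : ℚ) := by
    have h := Finset.sum_card_bipartiteAbove_eq_sum_card_bipartiteBelow
      (fun (g : G) (x : Ω) => g • x = x) (s := S) (t := Finset.univ)
    simp only [Finset.bipartiteAbove, Finset.bipartiteBelow] at h
    rw [← Finset.add_sum_erase S _ (one_mem_st2 α β)] at h
    have h1 : (Finset.univ.filter fun x : Ω => (1 : G) • x = x).card = n := nfix_one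
    rw [h1] at h
    have hq := congrArg (fun k : ℕ => (k : ℚ)) h
    simp only [Nat.cast_add, Nat.cast_sum] at hq
    rw [← hq]; simp only [σ, nfix, E]; ring
  have hneg : ∑ x : Ω, v x < 0 := by
    have h1 : ((∑ x : Ω, v x : ℤ) : ℚ) < 0 := by
      push_cast [v]
      rw [Finset.sum_sub_distrib, Finset.sum_const, nsmul_eq_mul, ← Finset.mul_sum, Finset.card_univ, ← hσ]
      have e : (n : ℚ) = (Fintype.card Ω : ℚ) := rfl
      rw [← e]
      nlinarith
    exact_mod_cast h1
  have hvB : ∀ x ∈ B, v x = -((t : ℤ) * ((t : ℤ) - 1)) := by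
    intro x hx
    have : s x = t := congrArg Finset.card (Finset.filter_true_of_mem fun g hg =>
      mem_line.1 hx g (mem_st2.1 hg).1 (mem_st2.1 hg).2)
    simp only [v, this]; ring
  let orb : Ω → Finset Ω := fun x => S.image fun g => g • x
  have hks : ∀ x, (orb x).card * s x = t := fun x => orbit_mul_stab (G := G) (a := α) (b := β) x
  have hk2 : ∀ x ∉ B, 2 ≤ (orb x).card := by
    intro x hx
    by_contra hc
    push Not at hc
    refine hx (mem_line.2 fun g ha hb => ?_)
    exact Finset.card_le_one.1 (show (orb x).card ≤ 1 by omega) _ (Finset.mem_image_of_mem _ (mem_st2.2 ⟨ha, hb⟩)) _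
      (Finset.mem_image.2 ⟨1, one_mem_st2 _ _, one_smul _ _⟩)
  have horb_out : ∀ x ∉ B, ∀ y ∈ orb x, y ∉ B := by
    intro x hx y hy hyB
    obtain ⟨g, hg, rfl⟩ := Finset.mem_image.1 hy
    have h1 := mem_line.1 hyB g⁻¹ (mem_st2.1 (inv_mem_st2 hg)).1 (mem_st2.1 (inv_mem_st2 hg)).2
    rw [inv_smul_smul] at h1
    exact hx (h1 ▸ hyB)
  have horb_eq : ∀ x, ∀ y ∈ orb x, orb y = orb x := by
    intro x y hy
    obtain ⟨g, hg, rfl⟩ := Finset.mem_image.1 hy
    ext z
    simp only [orb, Finset.mem_image]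
    constructor
    · rintro ⟨k, hk, rfl⟩; exact ⟨k * g, mul_mem_st2 hk hg, mul_smul _ _ _⟩
    · rintro ⟨k, hk, rfl⟩
      exact ⟨k * g⁻¹, mul_mem_st2 hk (inv_mem_st2 hg), by rw [mul_smul, inv_smul_smul]⟩
  have hvlow : ∀ x ∉ B, (t : ℤ) ≤ 2 * v x := by
    intro x hx
    have h1 : 2 * s x ≤ t := by
      have := Nat.mul_le_mul_right (s x) (hk2 x hx)
      rw [hks x] at this; exact this
    simp only [v]
    have h1' : 2 * (s x : ℤ) ≤ t := by exact_mod_cast h1
    nlinarith
  have hvorb : ∀ x, ∑ y ∈ orb x, v y = (t : ℤ) * ((((orb x).card : ℤ) - 2) * t + 1) := by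
    intro x
    have h1 : ∀ y ∈ orb x, s y = s x := by
      intro y hy
      have h := hks y
      rw [horb_eq x y hy, ← hks x] at h
      exact Nat.eq_of_mul_eq_mul_left (Finset.card_pos.2 ⟨y, hy⟩) h
    rw [Finset.sum_congr rfl (fun y hy => show v y = v x by simp only [v, h1 y hy]), Finset.sum_const,
      nsmul_eq_mul]
    simp only [v]
    have h2' : ((orb x).card : ℤ) * s x = t := by exact_mod_cast hks x
    linear_combination (-(2 * (t : ℤ) - 1)) * h2'
  have hbound : ∀ W : Finset Ω, W ⊆ Finset.univ \ B →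
      2 * ∑ y ∈ W, v y + (t : ℤ) * (((n - F : ℕ) : ℤ) - W.card) < 2 * (F : ℤ) * t * ((t : ℤ) - 1) := by
    intro W hW
    have h1 : ∑ x ∈ B, v x = -((F : ℤ) * ((t : ℤ) * ((t : ℤ) - 1))) := by
      rw [Finset.sum_congr rfl hvB, Finset.sum_const, nsmul_eq_mul]; ring
    rw [← Finset.sum_sdiff (Finset.subset_univ B), h1, ← Finset.sum_sdiff hW] at hneg
    have h2' : (t : ℤ) * (((n - F : ℕ) : ℤ) - W.card) ≤ 2 * ∑ y ∈ (Finset.univ \ B) \ W, v y := by
      have hc : ((Finset.univ \ B) \ W).card + W.card = n - F := by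
        rw [Finset.card_sdiff_add_card_eq_card hW, Finset.card_sdiff_of_subset (Finset.subset_univ B),
          Finset.card_univ]
      rw [← hc, Finset.mul_sum]
      refine le_trans (le_of_eq ?_) (Finset.sum_le_sum fun y hy =>
        hvlow y (Finset.mem_sdiff.1 (Finset.mem_sdiff.1 hy).1).2)
      simp; ring
    linarith
  -- one orbit
  have hone : ∀ x ∉ B, 2 * ((((orb x).card : ℤ) - 2) * t + 1) + ((n - F : ℕ) : ℤ) - (orb x).card
      < 2 * (F : ℤ) * ((t : ℤ) - 1) := by
    intro x hx
    have h := hbound (orb x) fun y hy => Finset.mem_sdiff.2 ⟨Finset.mem_univ y, horb_out x hx y hy⟩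
    rw [hvorb x] at h
    have htp : (0 : ℤ) < t := by exact_mod_cast (show 0 < t by omega)
    refine lt_of_mul_lt_mul_left ?_ htp.le
    linear_combination h
  have hcardout : ((Finset.univ \ B).card) = n - F := by
    rw [Finset.card_sdiff_of_subset (Finset.subset_univ B), Finset.card_univ]
  have hWle : ∀ x ∉ B, (orb x).card ≤ n - F := fun x hx => hcardout ▸
    Finset.card_le_card fun y hy => Finset.mem_sdiff.2 ⟨Finset.mem_univ y, horb_out x hx y hy⟩
  -- all outside orbits have length two
  have hpure : ∀ x, x ∉ line G α β → ((st2 G α β).image fun g => g • x).card = 2 := by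
    intro x hx
    show (orb x).card = 2
    have h1 := hone x hx
    have h2' := hk2 x hx
    have h3 := hWle x hx
    by_contra hk
    have hk3 : (orb x).card = 3 := by
      by_contra hk3
      have h4 : (4 : ℤ) ≤ (orb x).card := by exact_mod_cast (show 4 ≤ (orb x).card by omega)
      have htq : (2 : ℤ) ≤ t := by exact_mod_cast ht
      have h3' : ((orb x).card : ℤ) ≤ ((n - F : ℕ) : ℤ) := by exact_mod_cast h3
      rcases (show F = 2 ∨ F = 3 by omega) with hF | hF
      · rw [hF] at h1 h3'
        push_cast at h1 h3'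
        nlinarith
      · have hnt : 2 * (t : ℤ) ≤ n := by exact_mod_cast (show 2 * t ≤ n by omega)
        have hn3' : (((n - 3 : ℕ)) : ℤ) = (n : ℤ) - 3 := by rw [Nat.cast_sub (by omega)]; rfl
        rw [hF, hn3'] at h1
        push_cast at h1
        nlinarith [mul_nonneg (show (0 : ℤ) ≤ ((orb x).card : ℤ) - 4 by linarith)
          (show (0 : ℤ) ≤ 2 * (t : ℤ) - 1 by linarith)]
    -- a triple: no second one
    have hothers : ∀ y ∉ B, y ∉ orb x → (orb y).card ≠ 3 := by
      intro y hy hyx hy3
      have hd : Disjoint (orb x) (orb y) := Finset.disjoint_left.2 fun z hz hz' => hyx (by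
        rw [← horb_eq x z hz, horb_eq y z hz']
        exact Finset.mem_image.2 ⟨1, one_mem_st2 _ _, one_smul _ _⟩)
      have h := hbound (orb x ∪ orb y) fun z hz => Finset.mem_sdiff.2 ⟨Finset.mem_univ z, by
        rcases Finset.mem_union.1 hz with h | h
        · exact horb_out x hx z h
        · exact horb_out y hy z h⟩
      rw [Finset.sum_union hd, hvorb, hvorb, hk3, hy3, Finset.card_union_of_disjoint hd, hk3, hy3] at h
      have h6 : 6 ≤ n - F := by
        rw [← hcardout]
        have := Finset.card_le_card (show orb x ∪ orb y ⊆ Finset.univ \ B from fun z hz =>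
          Finset.mem_sdiff.2 ⟨Finset.mem_univ z, by
            rcases Finset.mem_union.1 hz with h | h
            · exact horb_out x hx z h
            · exact horb_out y hy z h⟩)
        rw [Finset.card_union_of_disjoint hd, hk3, hy3] at this
        exact this
      have htp : (0 : ℤ) < t := by exact_mod_cast (show 0 < t by omega)
      have h' : 4 * ((t : ℤ) + 1) + ((n - F : ℕ) : ℤ) - 6 < 2 * (F : ℤ) * ((t : ℤ) - 1) := by
        refine lt_of_mul_lt_mul_left ?_ htp.le
        push_cast at h ⊢
        linear_combination h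
      have h6' : (6 : ℤ) ≤ ((n - F : ℕ) : ℤ) := by exact_mod_cast h6
      rcases (show F = 2 ∨ F = 3 by omega) with hF | hF
      · rw [hF] at h' h6'; push_cast at h'; linarith
      · rw [hF] at h'
        have hn3' : (((n - 3 : ℕ)) : ℤ) = (n : ℤ) - 3 := by rw [Nat.cast_sub (by omega)]; rfl
        rw [hn3'] at h'
        push_cast at h'
        exact hbig ⟨hF, by omega⟩
    have hothers4 : ∀ y ∉ B, y ∉ orb x → (orb y).card = 2 := by
      intro y hy hyx
      have g1 := hone y hy
      have g2 := hk2 y hy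
      have g3 := hWle y hy
      by_contra hy2
      have hy4 : 4 ≤ (orb y).card := by have := hothers y hy hyx; omega
      have hd : Disjoint (orb x) (orb y) := Finset.disjoint_left.2 fun z hz hz' => hyx (by
        rw [← horb_eq x z hz, horb_eq y z hz']
        exact Finset.mem_image.2 ⟨1, one_mem_st2 _ _, one_smul _ _⟩)
      have hsum : (orb x).card + (orb y).card ≤ n - F := by
        rw [← Finset.card_union_of_disjoint hd, ← hcardout]
        exact Finset.card_le_card fun z hz => Finset.mem_sdiff.2 ⟨Finset.mem_univ z, by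
          rcases Finset.mem_union.1 hz with h | h
          · exact horb_out x hx z h
          · exact horb_out y hy z h⟩
      rw [hk3] at hsum
      have htq : (2 : ℤ) ≤ t := by exact_mod_cast ht
      have g4 : ((orb y).card : ℤ) + 3 ≤ ((n - F : ℕ) : ℤ) := by exact_mod_cast (show (orb y).card + 3 ≤ n - F by omega)
      have g5 : (4 : ℤ) ≤ (orb y).card := by exact_mod_cast hy4
      rcases (show F = 2 ∨ F = 3 by omega) with hF | hF
      · rw [hF] at g1 g4; push_cast at g1 g4; nlinarith
      · have hnt : 2 * (t : ℤ) ≤ n := by exact_mod_cast (show 2 * t ≤ n by omega)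
        have hn3' : (((n - 3 : ℕ)) : ℤ) = (n : ℤ) - 3 := by rw [Nat.cast_sub (by omega)]; rfl
        rw [hF, hn3'] at g1
        push_cast at g1
        nlinarith [mul_nonneg (show (0 : ℤ) ≤ ((orb y).card : ℤ) - 4 by linarith)
          (show (0 : ℤ) ≤ 2 * (t : ℤ) - 1 by linarith)]
    -- an element of order three moves just the triple
    have h3t : 3 ∣ t := ⟨s x, by rw [← hks x, hk3]⟩
    let Hsub : Subgroup G := stabilizer G α ⊓ stabilizer G β
    have hcardH : Nat.card Hsub = t := by
      rw [htdef, ← Nat.card_eq_finsetCard]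
      exact Nat.card_congr (Equiv.subtypeEquivRight fun g => by
        simp only [hS, mem_st2]; exact ⟨fun h => ⟨h.1, h.2⟩, fun h => ⟨h.1, h.2⟩⟩)
    have := Fact.mk Nat.prime_three
    obtain ⟨g, hg⟩ := exists_prime_orderOf_dvd_card' (G := Hsub) 3 (hcardH ▸ h3t)
    have hgS : (g : G) ∈ S := mem_st2.2 ⟨g.2.1, g.2.2⟩
    have hg3 : (g : G) ^ 3 = 1 := by
      have := congrArg (fun z : Hsub => (z : G)) (pow_orderOf_eq_one g)
      rw [hg] at this; simpa using this
    have hgne : (g : G) ≠ 1 := fun e => by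
      have : g = 1 := Subtype.ext e
      rw [this, orderOf_one] at hg; norm_num at hg
    have hgfix : ∀ y, y ∉ orb x → (g : G) • y = y := by
      intro y hyx
      by_cases hy : y ∈ B
      · exact mem_line.1 hy _ g.2.1 g.2.2
      · by_contra hgy
        have h2c := hothers4 y hy hyx
        have hm : ∀ k : ℕ, (g : G) ^ k • y ∈ orb y := fun k => by
          refine Finset.mem_image.2 ⟨(g : G) ^ k, ?_, rfl⟩
          induction k with
          | zero => rw [pow_zero]; exact one_mem_st2 _ _
          | succ k ih => rw [pow_succ]; exact mul_mem_st2 ih hgS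
        obtain ⟨p, q, hpq, heq⟩ := Finset.card_eq_two.1 h2c
        have m0 := hm 0; have m1 := hm 1; have m2 := hm 2
        rw [heq, Finset.mem_insert, Finset.mem_singleton] at m0 m1 m2
        rw [pow_zero, one_smul] at m0
        rw [pow_one] at m1
        have d1 : (g : G) ^ 2 • y ≠ (g : G) • y := by
          rw [pow_two, mul_smul]; exact fun e => hgy (MulAction.injective _ e)
        have d2 : (g : G) ^ 2 • y ≠ y := fun e => hgy (by
          calc (g : G) • y = (g : G) • ((g : G) ^ 2 • y) := by rw [e]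
            _ = y := by rw [← mul_smul, ← pow_succ', hg3, one_smul])
        rcases m0 with a | a <;> rcases m1 with b | b <;> rcases m2 with c | c <;>
          first | exact hgy (b.trans a.symm) | exact d1 (c.trans b.symm) | exact d2 (c.trans a.symm)
    have hgE : (g : G) ∈ E := Finset.mem_erase.2 ⟨hgne, hgS⟩
    have hgf : n ≤ nfix Ω (g : G) + 3 := by
      have hsub : Finset.univ \ orb x ⊆ Finset.univ.filter fun y : Ω => (g : G) • y = y := fun y hy =>
        Finset.mem_filter.2 ⟨Finset.mem_univ y, hgfix y (Finset.mem_sdiff.1 hy).2⟩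
      have := Finset.card_le_card hsub
      rw [Finset.card_sdiff_of_subset (Finset.subset_univ _), Finset.card_univ, hk3] at this
      simp only [nfix]; omega
    rcases (show F = 2 ∨ F = 3 by omega) with hF | hF
    · -- the lines give nothing: g is a 3-cycle, conjugate it to move x outside its orbit
      obtain ⟨y, hy, hyx⟩ : ∃ y, y ∉ B ∧ y ∉ orb x := by
        by_contra hc
        push Not at hc
        have : Finset.univ \ B ⊆ orb x := fun y hy => hc y (Finset.mem_sdiff.1 hy).2
        have := Finset.card_le_card this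
        rw [hcardout, hk3] at this
        omega
      -- carry the support {x, gx, g²x} to {x, y, z}
      obtain ⟨u, hu⟩ : ∃ u : Ω, (g : G) • u ≠ u := by
        by_contra hc
        push Not at hc
        exact hgne (FaithfulSMul.eq_of_smul_eq_smul (α := Ω) fun w => by rw [hc, one_smul])
      have huY : u ∈ orb x := by_contra fun h => hu (hgfix u h)
      have hgu : (g : G) • u ∈ orb x := by_contra fun h => hu (MulAction.injective _ (hgfix _ h))
      obtain ⟨k, hk1, hk2'⟩ := h2 u ((g : G) • u) x y (Ne.symm hu) (fun e => hyx (e ▸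
        Finset.mem_image.2 ⟨1, one_mem_st2 _ _, one_smul _ _⟩))
      set g' := k * (g : G) * k⁻¹
      have hg'x : g' • x = y := by
        simp only [g', mul_smul, inv_smul_eq_iff.2 hk1.symm, hk2']
      have hfix' : ∀ w, k⁻¹ • w ∉ orb x → g' • w = w := by
        intro w hw
        simp only [g', mul_smul, hgfix _ hw, smul_inv_smul]
      have hgg : (g : G) ^ 2 • u ≠ u := fun e => hu (by
        calc (g : G) • u = (g : G) • ((g : G) ^ 2 • u) := by rw [e]
          _ = u := by rw [← mul_smul, ← pow_succ', hg3, one_smul])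
      -- if g' moves α or β replace it by a commutator fixing both
      by_cases hab : g' • α = α ∧ g' • β = β
      · exact hyx (Finset.mem_image.2 ⟨g', mem_st2.2 hab, hg'x⟩)
      · set w := (g : G) ^ 2 • u
        have hor : orb x = {u, (g : G) • u, w} := by
          refine (Finset.eq_of_subset_of_card_le ?_ ?_).symm
          · intro z hz
            simp only [Finset.mem_insert, Finset.mem_singleton] at hz
            rcases hz with rfl | rfl | rfl
            · exact huY
            · exact hgu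
            · by_contra hh
              exact hgg (by
                have h1 := hgfix _ hh
                simp only [w] at h1
                rw [← mul_smul, ← pow_succ', hg3, one_smul] at h1
                exact h1.symm)
          · have d3 : (g : G) • u ≠ w := fun e => hu (MulAction.injective (g : G) (show (g : G) • (g : G) • u = (g : G) • u by
              rw [← mul_smul, ← pow_two]; exact e.symm))
            rw [hk3, Finset.card_eq_three.2 ⟨u, (g : G) • u, w, Ne.symm hu, Ne.symm hgg, d3, rfl⟩]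
        -- the third point of g' is α or β
        have hz : k • w = α ∨ k • w = β := by
          by_contra hc
          push Not at hc
          refine hab ⟨hfix' α ?_, hfix' β ?_⟩ <;> intro hm <;> rw [hor] at hm <;>
            simp only [Finset.mem_insert, Finset.mem_singleton, inv_smul_eq_iff, hk1, hk2'] at hm
          · rcases hm with e | e | e
            · exact hx (e ▸ left_mem_line α β)
            · exact hy (e ▸ left_mem_line α β)
            · exact hc.1 e.symm
          · rcases hm with e | e | e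
            · exact hx (e ▸ right_mem_line α β)
            · exact hy (e ▸ right_mem_line α β)
            · exact hc.2 e.symm
        -- the commutator of g and g' fixes α and β and leaves the orbit
        set cm := g' * (g : G) * g'⁻¹
        have hginv : ∀ z, z ∉ orb x → (g : G) • z = z := hgfix
        have hαO : α ∉ orb x := fun h => horb_out x hx α h (left_mem_line α β)
        have hβO : β ∉ orb x := fun h => horb_out x hx β h (right_mem_line α β)
        have hg'3 : g' ^ 3 = 1 := by simp only [g', conj_pow, hg3, mul_one, mul_inv_cancel]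
        have hg'y : g' • y = k • w := by
          simp only [g', mul_smul, inv_smul_eq_iff.2 hk2'.symm, w]
          rw [← mul_smul (g : G) (g : G) u, ← pow_two]
        have hg'w : g' • (k • w) = x := by
          simp only [g', mul_smul, inv_smul_smul, w]
          rw [← mul_smul (g : G), ← pow_succ', hg3, one_smul, hk1]
        have hfixg' : ∀ z, z ≠ x → z ≠ y → z ≠ k • w → g'⁻¹ • z = z := by
          intro z h1 h2 h3
          refine inv_smul_eq_iff.2 (hfix' z ?_).symm
          rw [hor]
          simp only [Finset.mem_insert, Finset.mem_singleton, inv_smul_eq_iff, hk1, hk2']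
          push Not
          exact ⟨h1, h2, h3⟩
        have hyinv : g'⁻¹ • y = x := inv_smul_eq_iff.2 hg'x.symm
        have hwinv : g'⁻¹ • (k • w) = y := inv_smul_eq_iff.2 hg'y.symm
        have hcmfix : ∀ z, z = α ∨ z = β → cm • z = z := by
          intro z hz'
          have hzx : z ≠ x := by rintro rfl; rcases hz' with rfl | rfl <;> [exact hx (left_mem_line _ _); exact hx (right_mem_line _ _)]
          have hzy : z ≠ y := by rintro rfl; rcases hz' with rfl | rfl <;> [exact hy (left_mem_line _ _); exact hy (right_mem_line _ _)]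
          show (g' * (g : G) * g'⁻¹) • z = z
          rw [mul_smul, mul_smul]
          by_cases hzw : z = k • w
          · rw [hzw, hwinv, hgfix y hyx, hg'y]
          · have e := hfixg' z hzx hzy hzw
            rw [e, hgfix z (by rcases hz' with rfl | rfl <;> assumption)]
            have := congrArg (fun q => g' • q) e
            simp only [smul_inv_smul] at this
            exact this.symm
        -- it moves x to a point outside the orbit or y into it
        have hcmS : cm ∈ S := mem_st2.2 ⟨hcmfix α (Or.inl rfl), hcmfix β (Or.inr rfl)⟩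
        have hcy : cm • y = g' • ((g : G) • x) := by
          show (g' * (g : G) * g'⁻¹) • y = _
          rw [mul_smul, mul_smul, hyinv]
        have hgx : (g : G) • x ≠ x := by
          intro e
          apply hgne
          refine FaithfulSMul.eq_of_smul_eq_smul (α := Ω) fun z => ?_
          rw [one_smul]
          by_cases hz' : z ∈ orb x
          · -- g permutes the three points and fixes one, and has order three
            by_contra hgz
            have hx' : x ∈ orb x := Finset.mem_image.2 ⟨1, one_mem_st2 _ _, one_smul _ _⟩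
            rw [hor] at hx'
            simp only [Finset.mem_insert, Finset.mem_singleton] at hx'
            rcases hx' with rfl | rfl | rfl
            · exact hu e
            · exact hu (MulAction.injective _ e)
            · exact hgg (by
                simp only [w] at e
                rw [← mul_smul, ← pow_succ', hg3, one_smul] at e
                exact e.symm)
          · exact hgfix z hz'
        have hgxO : (g : G) • x ∈ orb x := Finset.mem_image.2 ⟨_, hgS, rfl⟩
        have hgxy : (g : G) • x ≠ y := fun e => hyx (e ▸ hgxO)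
        have hgxw : (g : G) • x ≠ k • w := fun e => by
          rcases hz with h | h
          · exact hαO (h ▸ e ▸ hgxO)
          · exact hβO (h ▸ e ▸ hgxO)
        have : g' • ((g : G) • x) = (g : G) • x := by
          have := congrArg (fun q => g' • q) (hfixg' _ hgx hgxy hgxw)
          simp only [smul_inv_smul] at this
          exact this.symm
        rw [this] at hcy
        have hyO : y ∈ orb x := by
          have hm : cm • y ∈ orb y := Finset.mem_image.2 ⟨cm, hcmS, rfl⟩
          rw [hcy] at hm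
          rw [← horb_eq x _ hgxO, horb_eq y _ hm]
          exact Finset.mem_image.2 ⟨1, one_mem_st2 _ _, one_smul _ _⟩
        exact hyx hyO
    · have := hfb _ hgE
      rw [hF] at this
      omega
  rcases (show F = 2 ∨ F = 3 by omega) with hF | hF
  · -- F = 2
    have hB : line G α β = {α, β} := by
      refine (Finset.eq_of_subset_of_card_le ?_ ?_).symm
      · intro z hz
        simp only [Finset.mem_insert, Finset.mem_singleton] at hz
        rcases hz with rfl | rfl
        · exact left_mem_line _ _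
        · exact right_mem_line _ _
      · rw [Finset.card_pair hαβ]; exact hF.le
    by_cases hsame : ∀ x ∉ B, ∀ y ∉ B, (S.filter fun g => g • x = x) = (S.filter fun g => g • y = y)
    · exfalso
      obtain ⟨x, hx⟩ : ∃ x, x ∉ B := by
        by_contra hc
        push Not at hc
        have : (Finset.univ : Finset Ω) ⊆ B := fun z _ => hc z
        have := Finset.card_le_card this
        rw [Finset.card_univ] at this
        omega
      have hone' : S.filter (fun g => g • x = x) = {1} := by
        refine Finset.eq_singleton_iff_unique_mem.2 ⟨Finset.mem_filter.2 ⟨one_mem_st2 _ _, one_smul _ _⟩, fun g hg => ?_⟩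
        refine FaithfulSMul.eq_of_smul_eq_smul (α := Ω) fun z => ?_
        rw [one_smul]
        by_cases hz : z ∈ B
        · exact mem_line.1 hz g (mem_st2.1 (Finset.mem_filter.1 hg).1).1 (mem_st2.1 (Finset.mem_filter.1 hg).1).2
        · rw [hsame x hx z hz] at hg
          exact (Finset.mem_filter.1 hg).2
      have ht2 : t = 2 := by
        have h := hks x
        rw [show s x = 1 by simp [s, hone'], mul_one] at h
        rw [← h]; exact hpure x hx
      have h := hbound ∅ (Finset.empty_subset _)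
      rw [Finset.sum_empty, Finset.card_empty, ht2, hF] at h
      have hn2' : (((n - 2 : ℕ)) : ℤ) = (n : ℤ) - 2 := by rw [Nat.cast_sub (by omega)]; rfl
      rw [hn2'] at h
      norm_num at h
      omega
    · exfalso
      push Not at hsame
      obtain ⟨x, hx, y, hy, hne⟩ := hsame
      have hsx : ∀ z ∉ B, 2 * s z = t := fun z hz => by rw [← hks z]; rw [show (orb z).card = 2 from hpure z hz]
      obtain ⟨g₁, hg₁, g₁x, g₁y⟩ : ∃ g ∈ S, g • x = x ∧ g • y ≠ y := by
        by_contra hc
        push Not at hc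
        exact hne (Finset.eq_of_subset_of_card_le (fun g hg => Finset.mem_filter.2
          ⟨(Finset.mem_filter.1 hg).1, hc g (Finset.mem_filter.1 hg).1 (Finset.mem_filter.1 hg).2⟩)
          (by have := hsx x hx; have := hsx y hy; simp only [s] at *; omega))
      obtain ⟨g₂, hg₂, g₂y, g₂x⟩ : ∃ g ∈ S, g • y = y ∧ g • x ≠ x := by
        by_contra hc
        push Not at hc
        exact hne (Finset.eq_of_subset_of_card_le (fun g hg => Finset.mem_filter.2
          ⟨(Finset.mem_filter.1 hg).1, hc g (Finset.mem_filter.1 hg).1 (Finset.mem_filter.1 hg).2⟩)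
          (by have := hsx x hx; have := hsx y hy; simp only [s] at *; omega)).symm
      exact no_two_types h2 hαβ hpure hB (x₀ := x) (y₀ := y) hx hg₁ hg₂ g₁x g₁y g₂y g₂x
  · have h3 := three_case h2 hαβ hpure hF ht
    rw [← hS, hsumE _ (by rw [nfix_one, sub_self, zero_div])] at h3
    exact h3

theorem derangements_identity (hn : 2 ≤ Fintype.card Ω) {α β : Ω} (hαβ : α ≠ β) :
    (Fintype.card G : ℚ) = (Fintype.card Ω : ℚ) * ((Fintype.card Ω : ℚ) - 1) * (st2 G α β).card ∧
    (Fintype.card Ω : ℚ) * (Finset.univ.filter fun g : G => nfix Ω g = 0).card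
      = (Fintype.card G : ℚ) + (Fintype.card Ω : ℚ) * ((Fintype.card Ω : ℚ) - 1) *
        ∑ h ∈ st2 G α β, ((Fintype.card Ω : ℚ) - nfix Ω h) / nfix Ω h := by
  set n := Fintype.card Ω with hndef
  set t := (st2 G α β).card with htdef
  -- fibres of the action on a pair
  have hG : Fintype.card G = (n * n - n) * t := by
    have hmaps : Set.MapsTo (fun g : G => (g • α, g • β)) (Finset.univ : Finset G)
        ((Finset.univ : Finset Ω).offDiag : Set (Ω × Ω)) := fun g _ => by
      simp only [Finset.coe_offDiag, Set.mem_offDiag, Finset.coe_univ, Set.mem_univ, true_and]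
      exact fun e => hαβ (MulAction.injective g e)
    rw [← Finset.card_univ, Finset.card_eq_sum_card_fiberwise hmaps,
      Finset.sum_congr rfl (g := fun _ => t), Finset.sum_const, smul_eq_mul, Finset.offDiag_card, Finset.card_univ]
    intro p hp
    obtain ⟨k, hk1, hk2⟩ := h2 α β p.1 p.2 hαβ (Finset.mem_offDiag.1 hp).2.2
    refine Finset.card_nbij' (fun g => k⁻¹ * g) (fun g => k * g) ?_ ?_ ?_ ?_
    · intro g hg
      simp only [Finset.coe_filter, Set.mem_setOf_eq, Finset.mem_univ, true_and, Prod.ext_iff] at hg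
      rw [Finset.mem_coe, mem_st2]
      exact ⟨by rw [mul_smul, hg.1]; exact inv_smul_eq_iff.2 hk1.symm,
        by rw [mul_smul, hg.2]; exact inv_smul_eq_iff.2 hk2.symm⟩
    · intro g hg
      rw [Finset.mem_coe, mem_st2] at hg
      simp only [Finset.coe_filter, Set.mem_setOf_eq, Finset.mem_univ, true_and, Prod.ext_iff]
      exact ⟨by rw [mul_smul, hg.1, hk1], by rw [mul_smul, hg.2, hk2]⟩
    · intro g _; simp
    · intro g _; simp
  have hGq : (Fintype.card G : ℚ) = (n : ℚ) * ((n : ℚ) - 1) * t := by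
    rw [hG, Nat.cast_mul, Nat.cast_sub (Nat.le_mul_self _), Nat.cast_mul]; ring
  -- one-point stabilisers
  have hstab : ∀ x : Ω, (Finset.univ.filter fun g : G => g • x = x).card = (n - 1) * t := by
    intro x
    obtain ⟨y, hyx⟩ := Fintype.exists_ne_of_one_lt_card (show 1 < Fintype.card Ω by omega) x
    have hmaps : Set.MapsTo (fun g : G => g • y) (Finset.univ.filter fun g : G => g • x = x : Finset G)
        ((Finset.univ.erase x : Finset Ω) : Set Ω) := fun g hg => by
      simp only [Finset.coe_erase, Finset.coe_univ, Set.mem_sdiff, Set.mem_univ, true_and, Set.mem_singleton_iff]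
      exact fun e => hyx (MulAction.injective g (e.trans (Finset.mem_filter.1 hg).2.symm))
    rw [Finset.card_eq_sum_card_fiberwise hmaps, Finset.sum_congr rfl (g := fun _ => t), Finset.sum_const,
      smul_eq_mul, Finset.card_erase_of_mem (Finset.mem_univ x), Finset.card_univ]
    intro z hz
    obtain ⟨k, hk1, hk2⟩ := h2 x y x z hyx.symm (Ne.symm (Finset.mem_erase.1 hz).1)
    rw [htdef, card_st2 h2 hαβ hyx.symm]
    refine Finset.card_nbij' (fun g => k⁻¹ * g) (fun g => k * g) ?_ ?_ ?_ ?_
    · intro g hg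
      simp only [Finset.coe_filter, Set.mem_setOf_eq, Finset.mem_filter, Finset.mem_univ, true_and] at hg
      rw [Finset.mem_coe, mem_st2]
      exact ⟨by rw [mul_smul, hg.1]; exact inv_smul_eq_iff.2 hk1.symm,
        by rw [mul_smul, hg.2]; exact inv_smul_eq_iff.2 hk2.symm⟩
    · intro g hg
      rw [Finset.mem_coe, mem_st2] at hg
      simp only [Finset.coe_filter, Set.mem_setOf_eq, Finset.mem_filter, Finset.mem_univ, true_and]
      exact ⟨by rw [mul_smul, hg.1, hk1], by rw [mul_smul, hg.2, hk2]⟩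
    · intro g _; simp
    · intro g _; simp
  have e1 : ∑ g : G, (nfix Ω g : ℚ) = Fintype.card G := by
    have h := Finset.sum_card_bipartiteAbove_eq_sum_card_bipartiteBelow
      (fun (g : G) (x : Ω) => g • x = x) (s := Finset.univ) (t := Finset.univ)
    simp only [Finset.bipartiteAbove, Finset.bipartiteBelow] at h
    rw [Finset.sum_congr rfl (fun x _ => hstab x), Finset.sum_const, smul_eq_mul, Finset.card_univ] at h
    rw [hGq, ← Nat.cast_sum]
    show ((∑ g : G, nfix Ω g : ℕ) : ℚ) = _
    simp only [nfix]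
    rw [h, Nat.cast_mul, Nat.cast_mul, Nat.cast_sub (show 1 ≤ Fintype.card Ω by omega), Nat.cast_one]
    ring
  have e2 : ∑ g : G, (nfix Ω g : ℚ) * ((nfix Ω g : ℚ) - 1) = Fintype.card G := by
    have h := moment h2 hαβ (fun _ => (1 : ℚ)) (fun _ _ => rfl)
    simp only [mul_one, Finset.sum_const, nsmul_eq_mul] at h
    rw [h, hGq]
  have e3 := moment h2 hαβ (fun g => ((n : ℚ) - nfix Ω g) / nfix Ω g) (fun k g => by rw [nfix_conj])
  have hid : ∀ g : G, (n : ℚ) * (if nfix Ω g = 0 then 1 else 0)
      = ((nfix Ω g : ℚ) * ((nfix Ω g : ℚ) - 1) - (n : ℚ) * nfix Ω g + n)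
        + ((nfix Ω g : ℚ) * ((nfix Ω g : ℚ) - 1)) * (((n : ℚ) - nfix Ω g) / nfix Ω g) := by
    intro g
    by_cases h : nfix Ω g = 0
    · simp [h]
    · rw [if_neg h]
      field_simp
      ring
  have hsum := Finset.sum_congr (rfl : (Finset.univ : Finset G) = Finset.univ) (fun g _ => hid g)
  rw [← Finset.mul_sum, Finset.sum_boole, Finset.sum_add_distrib, Finset.sum_add_distrib,
    Finset.sum_sub_distrib, ← Finset.mul_sum, e1, e2, Finset.sum_const, nsmul_eq_mul, Finset.card_univ] at hsum
  refine ⟨hGq, ?_⟩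
  rw [hsum, e3]; ring

theorem derangements_two (hn : 7 ≤ Fintype.card Ω) {α β : Ω} (hαβ : α ≠ β) (ht : 2 ≤ (st2 G α β).card) :
    2 * Fintype.card G ≤ Fintype.card Ω * (Finset.univ.filter fun g : G => nfix Ω g = 0).card := by
  obtain ⟨hG, hD⟩ := derangements_identity h2 (by omega) hαβ
  have hn1 : (0 : ℚ) ≤ (Fintype.card Ω : ℚ) * ((Fintype.card Ω : ℚ) - 1) := by
    have : (7 : ℚ) ≤ Fintype.card Ω := by exact_mod_cast hn
    nlinarith
  have hlow := mul_le_mul_of_nonneg_left (key_bound h2 hαβ hn ht) hn1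
  have : (2 * Fintype.card G : ℚ) ≤ (Fintype.card Ω : ℚ) * (Finset.univ.filter fun g : G => nfix Ω g = 0).card := by
    rw [hD]; linarith
  exact_mod_cast this

theorem derangements_sharp (hn : 2 ≤ Fintype.card Ω) {α β : Ω} (hαβ : α ≠ β) (ht : (st2 G α β).card ≤ 1) :
    Fintype.card Ω * (Finset.univ.filter fun g : G => nfix Ω g = 0).card = Fintype.card G := by
  obtain ⟨-, hD⟩ := derangements_identity h2 hn hαβ
  have h0 : ∑ h ∈ st2 G α β, ((Fintype.card Ω : ℚ) - nfix Ω h) / nfix Ω h = 0 :=
    Finset.sum_eq_zero fun h hh => by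
      rw [Finset.card_le_one.1 ht h hh 1 (one_mem_st2 α β), nfix_one, sub_self, zero_div]
  rw [h0, mul_zero, add_zero] at hD
  exact_mod_cast hD

end CfsgLib.DerangementTwo
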