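import Mathlib
import Cfsg.Agent.Perm.CentralizerMaximal
import Cfsg.Agent.MinNormal.Primitive

/-!
# Extremely primitive groups are affine or almost simple
-/

set_option autoImplicit false

namespace CfsgLib.Perm.ExtPrim

open MulAction CfsgLib.MinNormal CfsgLib.Perm

variable {G : Type*} [Group G] [Finite G] {X : Type*} [MulAction G X]

omit [Finite G] in
/-- Nothing lies strictly between a two-point stabiliser and a point stabiliser. -/
theorem eq_of_between {a x : X}
    (hep : IsPreprimitive (stabilizer G a) (orbit (stabilizer G a) x))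
    (hmove : ¬ stabilizer G a ≤ stabilizer G x) {K : Subgroup G}
    (h1 : stabilizer G a ⊓ stabilizer G x ≤ K) (h2 : K ≤ stabilizer G a) :
    K ≤ stabilizer G x ∨ K = stabilizer G a := by
  haveI : Nontrivial (orbit (stabilizer G a) x) := by
    obtain ⟨h, hh, hhx⟩ := SetLike.not_le_iff_exists.1 hmove
    exact ⟨⟨⟨(⟨h, hh⟩ : stabilizer G a) • x, mem_orbit x _⟩, ⟨x, mem_orbit_self x⟩,
      fun e => hhx (congrArg Subtype.val e)⟩⟩
  haveI := hep
  have hco := IsPreprimitive.isCoatom_stabilizer_of_isPreprimitive (stabilizer G a)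
    (⟨x, mem_orbit_self x⟩ : orbit (stabilizer G a) x)
  have hle : stabilizer (stabilizer G a) (⟨x, mem_orbit_self x⟩ : orbit (stabilizer G a) x) ≤
      K.subgroupOf (stabilizer G a) := fun h hh => h1 ⟨h.2, congrArg Subtype.val hh⟩
  rcases (hco.le_iff).1 hle with e | e
  · exact Or.inr (le_antisymm h2 (Subgroup.subgroupOf_eq_top.1 e))
  · refine Or.inl fun k hk => ?_
    have : (⟨k, h2 hk⟩ : stabilizer G a) ∈ K.subgroupOf (stabilizer G a) := hk
    rw [e] at this
    exact congrArg Subtype.val (mem_stabilizer_iff.1 this)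

variable [FaithfulSMul G X] [IsPreprimitive G X]

omit [Finite G] in
theorem eq_of_stabilizer_le [Nontrivial X] {a x : X} (hne : stabilizer G a ≠ ⊥)
    (hle : stabilizer G a ≤ stabilizer G x) : x = a := by
  by_contra hxa
  have hca : IsCoatom (stabilizer G a) := IsPreprimitive.isCoatom_stabilizer_of_isPreprimitive G a
  have hcx : IsCoatom (stabilizer G x) := IsPreprimitive.isCoatom_stabilizer_of_isPreprimitive G x
  have e : stabilizer G x = stabilizer G a := (hca.le_iff.1 hle).resolve_left hcx.1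
  obtain ⟨g, hg⟩ := exists_smul_eq G a x
  have hgn : g ∈ Subgroup.normalizer ((stabilizer G a : Subgroup G) : Set G) := by
    rw [Subgroup.mem_normalizer_iff]
    intro h
    have key : g * h * g⁻¹ ∈ stabilizer G x ↔ h ∈ stabilizer G a := by
      rw [mem_stabilizer_iff, mem_stabilizer_iff, ← hg, mul_smul, mul_smul, inv_smul_smul,
        smul_left_cancel_iff]
    rw [← key, e]
  rcases hca.le_iff.1 (Subgroup.le_normalizer : stabilizer G a ≤ _) with e' | e'
  · apply hne
    rw [eq_bot_iff]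
    intro h hh
    rw [Subgroup.mem_bot]
    apply FaithfulSMul.eq_of_smul_eq_smul (α := X)
    intro y
    obtain ⟨k, rfl⟩ := exists_smul_eq G a y
    have hn : k⁻¹ ∈ Subgroup.normalizer ((stabilizer G a : Subgroup G) : Set G) :=
      e' ▸ Subgroup.mem_top k⁻¹
    have := (Subgroup.mem_normalizer_iff.1 hn h).1 hh
    rw [inv_inv, mem_stabilizer_iff, mul_smul, mul_smul, inv_smul_eq_iff] at this
    rw [one_smul, this]
  · rw [e', mem_stabilizer_iff, hg] at hgn
    exact hxa hgn

section Regular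

variable [Nontrivial X]
  (hep : ∀ a x : X, IsPreprimitive (stabilizer G a) (orbit (stabilizer G a) x))

include hep

/-- Two commuting transitive simple subgroups permuted by a point stabiliser cannot occur. -/
theorem false_of_two_transitive {a : X} {S T : Subgroup G} [IsPretransitive S X]
    [IsPretransitive T X] (hsimple : IsSimpleGroup S) (hna : ¬ IsMulCommutative S)
    (hcomm : ∀ x ∈ S, ∀ y ∈ T, Commute x y) (hreg : ∀ x ∈ S, x • a = a → x = 1)
    (hH : ∀ h ∈ stabilizer G a, (∀ x ∈ S, h * x * h⁻¹ ∈ S) ∨ (∀ x ∈ S, h * x * h⁻¹ ∈ T)) :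
    False := by
  have hinner : ∀ x ∈ S, ∃ m ∈ T, x * m ∈ stabilizer G a := by
    intro x hx
    obtain ⟨m, hm⟩ := exists_smul_eq T a (x⁻¹ • a)
    refine ⟨m, m.2, ?_⟩
    show (x * (m : G)) • a = a
    rw [mul_smul, show (m : G) • a = x⁻¹ • a from hm, smul_inv_smul]
  have hne : stabilizer G a ≠ ⊥ := by
    intro e
    refine hna ⟨⟨fun x y => Subtype.ext ?_⟩⟩
    obtain ⟨m, hm, hxm⟩ := hinner x x.2
    rw [e, Subgroup.mem_bot] at hxm
    have hx : (x : G) ∈ T := eq_inv_of_mul_eq_one_left hxm ▸ T.inv_mem hm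
    exact (hcomm y y.2 x hx).eq.symm
  let f : stabilizer G a → S → S := fun h t => (exists_smul_eq S a ((h : G) • (t : G) • a)).choose
  have hf : ∀ h t, ((f h t : S) : G) • a = (h : G) • (t : G) • a := fun h t =>
    (exists_smul_eq S a ((h : G) • (t : G) • a)).choose_spec
  have hinj : ∀ x y : S, (x : G) • a = (y : G) • a → x = y := fun x y e => by
    have h1 : ((y : G)⁻¹ * x) • a = a := by rw [mul_smul, inv_smul_eq_iff]; exact e
    exact Subtype.ext (inv_mul_eq_one.1 (hreg _ (S.mul_mem (S.inv_mem y.2) x.2) h1)).symm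
  letI act : MulAction (stabilizer G a) S :=
    { smul := f
      one_smul := fun t => hinj _ _ ((hf 1 t).trans (one_smul _ _))
      mul_smul := fun g h t => hinj _ _ (by
        show ((f (g * h) t : S) : G) • a = ((f g (f h t) : S) : G) • a
        rw [hf, hf, hf, Subgroup.coe_mul, mul_smul]) }
  have hf' : ∀ (h : stabilizer G a) (t : S), ((h • t : S) : G) • a = (h : G) • (t : G) • a := hf
  have hconj : ∀ (h : stabilizer G a) (t : S),
      ((h • t : S) : G) • a = ((h : G) * t * (h : G)⁻¹) • a := fun h t => by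
    rw [hf', mul_smul, mul_smul, inv_smul_eq_iff.2 h.2.symm]
  have hdata : CentMax.IsOperatorData (stabilizer G a) S := by
    refine ⟨fun h x y hxy => ?_, fun x => ?_, fun t ht => ?_⟩
    · rcases hH h h.2 with hs | hs
      · have e : ∀ t : S, ((h • t : S) : G) = (h : G) * t * (h : G)⁻¹ := fun t =>
          congrArg Subtype.val (hinj _ ⟨_, hs t t.2⟩ (hconj h t))
        have hxy' : (x : G) * y = y * x := congrArg Subtype.val hxy.eq
        refine ⟨Subtype.ext ?_, Subtype.ext ?_⟩
        · rw [Subgroup.coe_mul, e, e, e, Subgroup.coe_mul]; group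
        · rw [Subgroup.coe_mul, Subgroup.coe_mul, e, e]
          calc (h : G) * x * (h : G)⁻¹ * ((h : G) * y * (h : G)⁻¹)
              = h * ((x : G) * y) * (h : G)⁻¹ := by group
            _ = h * ((y : G) * x) * (h : G)⁻¹ := by rw [hxy']
            _ = (h : G) * y * (h : G)⁻¹ * ((h : G) * x * (h : G)⁻¹) := by group
      · have anti : ∀ u v : S, h • (u * v) = (h • v) * (h • u) := by
          intro u v
          apply hinj
          rw [hconj, Subgroup.coe_mul,
            show (h : G) * ((u : G) * v) * (h : G)⁻¹ = (h * u * (h : G)⁻¹) * (h * v * (h : G)⁻¹) by group,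
            Subgroup.coe_mul, mul_smul, ← hconj h v, ← mul_smul,
            ← (hcomm _ (h • v).2 _ (hs u u.2)).eq, mul_smul, ← hconj h u, ← mul_smul]
        have e1 := anti x y
        have e2 := anti y x
        rw [← hxy.eq, e1] at e2
        exact ⟨e1.trans e2, e2.symm⟩
    · obtain ⟨m, hm, hxm⟩ := hinner x x.2
      refine ⟨⟨_, hxm⟩, fun y => ?_⟩
      apply hinj
      rw [hconj]
      congr 1
      simp only [Subgroup.coe_mul, Subgroup.coe_inv]
      calc (x : G) * m * y * ((x : G) * m)⁻¹ = x * ((m : G) * y) * m⁻¹ * (x : G)⁻¹ := by group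
        _ = x * ((y : G) * m) * m⁻¹ * (x : G)⁻¹ := by rw [(hcomm y y.2 m hm).eq]
        _ = x * y * (x : G)⁻¹ := by group
    · have hmove : ¬ stabilizer G a ≤ stabilizer G ((t : G) • a) := fun hle =>
        ht (Subtype.ext (hreg _ t.2 (eq_of_stabilizer_le hne hle)))
      have hiff : ∀ h : stabilizer G a, h • t = t ↔ (h : G) ∈ stabilizer G ((t : G) • a) := fun h =>
        ⟨fun e => by rw [mem_stabilizer_iff, ← hf', e], fun e => hinj _ _ (by rw [hf']; exact e)⟩
      refine ⟨fun e => hmove fun h hh =>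
        (hiff ⟨h, hh⟩).1 (e ▸ Subgroup.mem_top _ : (⟨h, hh⟩ : stabilizer G a) ∈ stabilizer _ t),
        fun K hK => ?_⟩
      rcases eq_of_between (K := K.map (stabilizer G a).subtype) (hep a ((t : G) • a)) hmove
        (fun h hh => ⟨⟨h, hh.1⟩, hK.le ((hiff ⟨h, hh.1⟩).2 hh.2), rfl⟩)
        (Subgroup.map_subtype_le K) with e | e
      · exact absurd hK (not_lt_of_ge fun k hk => (hiff k).2 (e ⟨k, hk, rfl⟩))
      · refine Subgroup.map_injective (stabilizer G a).subtype_injective ?_
        rw [e, ← MonoidHom.range_eq_map, Subgroup.range_subtype]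
  haveI := hsimple
  exact CentMax.false_of_operatorData hdata hna

omit [Nontrivial X] in
theorem eq_of_conj_mem_factor {N : Subgroup G} {s : Finset (Subgroup G)} (hs : IsFactors N s)
    {S U : Subgroup G} (hS : S ∈ s) (hU : U ∈ s) {x : G} (hx : x ∈ S) (hxU : x ∈ U) (hx1 : x ≠ 1) :
    U = S := by
  by_contra hne
  exact hx1 (inf_eq_bot_of_commute (hs.simple S hS) (hs.not_comm S hS)
    (fun u hu y hy => (hs.commute S hS U hU (Ne.symm hne) y hy u hu).symm) x hxU hx)

omit [Nontrivial X] in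
/-- The point stabiliser permutes the factors of a transitive minimal normal subgroup transitively. -/
theorem exists_conj_stabilizer {N : Subgroup G} [IsPretransitive N X] {s : Finset (Subgroup G)}
    (hs : IsFactors N s) (a : X) {S T : Subgroup G} (hS : S ∈ s) (hT : T ∈ s) :
    ∃ h ∈ stabilizer G a, S.map (MulAut.conj h).toMonoidHom = T := by
  obtain ⟨g, hg⟩ := hs.conj S hS T hT
  obtain ⟨n, hn, h, hh, hgh⟩ := exists_mul_of_transitive (N := N) a g
  refine ⟨h, hh, ?_⟩
  have hmap : S.map (MulAut.conj h).toMonoidHom ∈ s := hs.conj_mem S hS h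
  haveI := hs.simple S hS
  haveI : Nontrivial S := IsSimpleGroup.toNontrivial
  obtain ⟨⟨x, hx⟩, hx1⟩ := exists_ne (1 : S)
  have h1 : g * x * g⁻¹ ∈ S.map (MulAut.conj h).toMonoidHom := by
    have h2 : h * x * h⁻¹ ∈ S.map (MulAut.conj h).toMonoidHom := ⟨x, hx, rfl⟩
    have h3 := (Subgroup.mem_normalizer_iff.1 (hs.normalized _ hmap hn) _).1 h2
    rw [hgh]
    simpa [mul_assoc] using h3
  exact eq_of_conj_mem_factor hep hs hT hmap (x := g * x * g⁻¹) (hg ▸ ⟨x, hx, rfl⟩) h1
    (fun e => hx1 (Subtype.ext (conj_eq_one_iff.1 e)))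

/-- A regular minimal normal subgroup has only one factor. -/
theorem factors_subsingleton_of_regular {a : X} {N : Subgroup G} (hN : N.Normal)
    [IsPretransitive N X] {s : Finset (Subgroup G)} (hs : IsFactors N s)
    (hreg : ∀ x ∈ N, x • a = a → x = 1) : ∀ S ∈ s, ∀ T ∈ s, S = T := by
  intro S hS T hT
  by_contra hST
  classical
  set H := stabilizer G a with hH
  have hne : H ≠ ⊥ := by
    intro e
    obtain ⟨h, hh, hmap⟩ := exists_conj_stabilizer hep hs a hS hT
    rw [← hH, e, Subgroup.mem_bot] at hh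
    subst hh
    apply hST
    rw [← hmap]
    ext x
    simp
  -- `h` fixes `n • a` exactly when it commutes with `n`
  have hfix : ∀ n ∈ N, ∀ h ∈ H, (h • n • a = n • a ↔ Commute h n) := by
    intro n hn h hh
    have e : h • n • a = (h * n * h⁻¹) • a := by
      rw [mul_smul, mul_smul, inv_smul_eq_iff.2 (mem_stabilizer_iff.1 hh).symm]
    rw [e]
    constructor
    · intro e'
      have h1 : (n⁻¹ * (h * n * h⁻¹)) • a = a := by
        rw [mul_smul, inv_smul_eq_iff]; exact e'
      have h2 := inv_mul_eq_one.1 (hreg _ (N.mul_mem (N.inv_mem hn) (hN.conj_mem n hn h)) h1)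
      exact mul_inv_eq_iff_eq_mul.1 h2.symm
    · intro hc
      rw [hc.eq, mul_inv_cancel_right]
  have hmove : ∀ n ∈ N, n ≠ 1 → ¬ H ≤ stabilizer G (n • a) := fun n hn hn1 hle =>
    hn1 (hreg n hn (eq_of_stabilizer_le hne hle))
  have hmax : ∀ n ∈ N, n ≠ 1 → ∀ K : Subgroup G, K ≤ H →
      (∀ h ∈ H, Commute h n → h ∈ K) → K ≠ H → ∀ k ∈ K, Commute k n := by
    intro n hn hn1 K hKH hK hKne k hk
    rcases eq_of_between (hep a (n • a)) (hmove n hn hn1)
      (fun h hh => hK h hh.1 ((hfix n hn h hh.1).1 hh.2)) hKH with e | e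
    · exact (hfix n hn k (hKH hk)).1 (e hk)
    · exact absurd e hKne
  let K : Subgroup G → Subgroup G := fun U => H ⊓ Subgroup.normalizer (U : Set G)
  have hKne : ∀ U ∈ s, K U ≠ H := by
    intro U hU e
    obtain ⟨V, hV, hVU⟩ : ∃ V ∈ s, V ≠ U := by
      by_cases e' : S = U
      · exact ⟨T, hT, fun e'' => hST (e'.trans e''.symm)⟩
      · exact ⟨S, hS, e'⟩
    obtain ⟨h, hh, hmap⟩ := exists_conj_stabilizer hep hs a hU hV
    apply hVU
    have hn : h ∈ Subgroup.normalizer (U : Set G) := (e.symm ▸ hh : h ∈ K U).2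
    refine (hmap ▸ le_antisymm ?_ ?_ : V = U)
    · rintro _ ⟨x, hx, rfl⟩
      exact (Subgroup.mem_normalizer_iff.1 hn x).1 hx
    · intro x hx
      refine ⟨h⁻¹ * x * h, (Subgroup.mem_normalizer_iff.1 hn _).2 ?_, ?_⟩
      · simpa [mul_assoc] using hx
      · show h * (h⁻¹ * x * h) * h⁻¹ = x
        group
  have hnorm : ∀ U ∈ s, ∀ h : G, ∀ x ∈ U, x ≠ 1 → h * x * h⁻¹ ∈ U →
      h ∈ Subgroup.normalizer (U : Set G) := by
    intro U hU h x hx hx1 hxU
    have e : U.map (MulAut.conj h).toMonoidHom = U :=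
      eq_of_conj_mem_factor hep hs hU (hs.conj_mem U hU h) (x := h * x * h⁻¹) hxU ⟨x, hx, rfl⟩
        (fun e => hx1 (conj_eq_one_iff.1 e))
    rw [Subgroup.mem_normalizer_iff]
    intro y
    refine ⟨fun hy => e ▸ ⟨y, hy, rfl⟩, fun hy => ?_⟩
    rw [← e] at hy
    obtain ⟨z, hz, hzy⟩ := hy
    rwa [← (MulAut.conj h).injective (show MulAut.conj h z = MulAut.conj h y from hzy)]
  have hKcent : ∀ U ∈ s, ∀ t ∈ U, ∀ k ∈ K U, Commute k t := by
    intro U hU t ht k hk
    rcases eq_or_ne t 1 with rfl | ht1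
    · exact Commute.one_right k
    refine hmax t (hs.le U hU ht) ht1 (K U) inf_le_left (fun h hh hc => ⟨hh, ?_⟩) (hKne U hU) k hk
    exact hnorm U hU h t ht ht1 (by rw [hc.eq, mul_inv_cancel_right]; exact ht)
  have hKle : ∀ U ∈ s, ∀ V ∈ s, V ≠ U → K U ≤ K V := by
    intro U hU V hV hne' k hk
    haveI := hs.simple V hV
    obtain ⟨x, hx, -, -, p, -, hp, -, -, hxp, -⟩ :=
      exists_two_prime_orders (hs.simple U hU) (hs.not_comm U hU)
    obtain ⟨y, hy, q, hq, hqp, hyq⟩ :=
      exists_prime_order_ne p hp (not_isPGroup_of_simple (hs.simple V hV) (hs.not_comm V hV) p hp)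
    have hc : Commute x y := hs.commute U hU V hV hne'.symm x hx y hy
    have hx1 : x ≠ 1 := fun e => hp.ne_one (by rw [← hxp, e, orderOf_one])
    have hy1 : y ≠ 1 := fun e => hq.ne_one (by rw [← hyq, e, orderOf_one])
    have hxy : x * y ≠ 1 := fun e =>
      hx1 (inf_eq_bot_of_commute (hs.simple U hU) (hs.not_comm U hU)
        (fun u hu z hz => (hs.commute U hU V hV hne'.symm z hz u hu).symm) x
        (eq_inv_of_mul_eq_one_left e ▸ V.inv_mem hy) hx)
    -- commuting with `x * y` means commuting with both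
    have hsplit : ∀ h : G, Commute h (x * y) → Commute h x ∧ Commute h y := by
      intro h hh
      have hcop : Nat.Coprime q p := (Nat.coprime_primes hq hp).2 hqp
      have e : (x * y) ^ q = x ^ q := by rw [hc.mul_pow, ← hyq, pow_orderOf_eq_one, mul_one]
      have h1 : Commute h (x ^ q) := e ▸ hh.pow_right q
      obtain ⟨m, hm⟩ := exists_pow_eq_self_of_coprime (hxp.symm ▸ hcop : Nat.Coprime q (orderOf x))
      have h2 : Commute h x := hm ▸ h1.pow_right m
      refine ⟨h2, ?_⟩
      have := h2.inv_right.mul_right hh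
      rwa [inv_mul_cancel_left] at this
    have hK := hmax (x * y) (N.mul_mem (hs.le U hU hx) (hs.le V hV hy)) hxy (K U) inf_le_left
      (fun h hh hh' => ⟨hh, hnorm U hU h x hx hx1 (by
        rw [(hsplit h hh').1.eq, mul_inv_cancel_right]; exact hx)⟩) (hKne U hU) k hk
    exact ⟨hk.1, hnorm V hV k y hy hy1 (by rw [(hsplit k hK).2.eq, mul_inv_cancel_right]; exact hy)⟩
  have hKbot : K S = ⊥ := by
    rw [eq_bot_iff]
    intro k hk
    rw [Subgroup.mem_bot]
    refine eq_one_of_fixed_centralizer (N := N) ?_ (x := a) hk.1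
    have hle : s.sup id ≤ Subgroup.centralizer ({k} : Set G) := by
      refine Finset.sup_le fun U hU y hy => Subgroup.mem_centralizer_singleton_iff.2 ?_
      have hkU : k ∈ K U := by
        by_cases e : U = S
        · exact e.symm ▸ hk
        · exact hKle S hS U hU e hk
      exact (hKcent U hU y hy k hkU).eq.symm
    rw [hs.sup_eq] at hle
    exact Subgroup.mem_centralizer_iff.2 fun n hn => Subgroup.mem_centralizer_singleton_iff.1 (hle hn)
  haveI := hs.simple S hS
  haveI : Nontrivial S := IsSimpleGroup.toNontrivial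
  obtain ⟨⟨t, ht⟩, ht1'⟩ := exists_ne (1 : S)
  have ht1 : t ≠ 1 := fun e => ht1' (Subtype.ext e)
  -- so the stabiliser is cyclic of prime order, generated by some `h`
  have hatom : ∀ L : Subgroup G, L ≤ H → L ≠ H → L ≤ K S := by
    intro L hL hLne k hk
    rcases eq_of_between (K := L) (hep a (t • a)) (hmove t (hs.le S hS ht) ht1) (fun h hh => by
      have hc := (hfix t (hs.le S hS ht) h hh.1).1 hh.2
      have : h ∈ K S := ⟨hh.1, hnorm S hS h t ht ht1 (by rw [hc.eq, mul_inv_cancel_right]; exact ht)⟩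
      rw [hKbot, Subgroup.mem_bot] at this
      exact this ▸ L.one_mem) hL with e | e
    · exact ⟨hL hk, hnorm S hS k t ht ht1 (by
        rw [((hfix t (hs.le S hS ht) k (hL hk)).1 (e hk)).eq, mul_inv_cancel_right]; exact ht)⟩
    · exact absurd e hLne
  obtain ⟨⟨h, hh⟩, hh1'⟩ := (Subgroup.nontrivial_iff_exists_ne_one H).1
    ((Subgroup.nontrivial_iff_ne_bot H).2 hne) |> fun ⟨x, hx, hx1⟩ =>
      (⟨⟨x, hx⟩, hx1⟩ : ∃ x : H, (x : G) ≠ 1)
  have hgen : Subgroup.zpowers h = H := by
    by_contra e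
    have := hatom _ (Subgroup.zpowers_le.2 hh) e (Subgroup.mem_zpowers h)
    rw [hKbot, Subgroup.mem_bot] at this
    exact hh1' this
  -- the product of the conjugates of `t` under powers of `h`
  have hP : ∀ j : ℕ, j < orderOf h →
      ∃ b ∈ Subgroup.centralizer (S : Set G) ⊓ N, (t * h) ^ (j + 1) = t * b * h ^ (j + 1) := by
    intro j
    induction j with
    | zero => exact fun _ => ⟨1, Subgroup.one_mem _, by simp⟩
    | succ j ih =>
      intro hj
      obtain ⟨b, hb, e⟩ := ih (by omega)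
      refine ⟨b * (h ^ (j + 1) * t * (h ^ (j + 1))⁻¹), Subgroup.mul_mem _ hb
        ⟨?_, hN.conj_mem t (hs.le S hS ht) _⟩, ?_⟩
      · have hmem := hs.conj_mem S hS (h ^ (j + 1))
        refine Subgroup.mem_centralizer_iff.2 fun y hy =>
          (hs.commute S hS _ hmem (fun e' => ?_) y hy _ ⟨t, ht, rfl⟩).eq
        have h1 : h ^ (j + 1) * t * (h ^ (j + 1))⁻¹ ∈ S := e'.symm ▸ ⟨t, ht, rfl⟩
        have h2 : h ^ (j + 1) ∈ K S := ⟨H.pow_mem hh _, hnorm S hS _ t ht ht1 h1⟩
        rw [hKbot, Subgroup.mem_bot] at h2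
        have := Nat.le_of_dvd (by omega) (orderOf_dvd_of_pow_eq_one h2)
        omega
      · rw [pow_succ, e, pow_succ (h) (j + 1)]
        group
  have hpos : 0 < orderOf h := orderOf_pos h
  obtain ⟨b, hb, e⟩ := hP (orderOf h - 1) (by omega)
  rw [Nat.sub_add_cancel hpos, pow_orderOf_eq_one, mul_one] at e
  have htb : Commute t b := Subgroup.mem_centralizer_iff.1 hb.1 t ht
  have hcn : Commute h (t * b) := by
    have h1 : Commute (t * h) (t * b) := e ▸ (Commute.refl (t * h)).pow_right _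
    have h2 : Commute t (t * b) := (Commute.refl t).mul_right htb
    have := h2.inv_left.mul_left h1
    rwa [inv_mul_cancel_left] at this
  have hnN : t * b ∈ N := N.mul_mem (hs.le S hS ht) hb.2
  have hn1 : t * b ≠ 1 := by
    intro e'
    exact ht1 (inf_eq_bot_of_commute (hs.simple S hS) (hs.not_comm S hS)
      (U := Subgroup.centralizer (S : Set G))
      (fun u hu z hz => (Subgroup.mem_centralizer_iff.1 hu z hz).symm) t
      (eq_inv_of_mul_eq_one_left e' ▸ Subgroup.inv_mem _ hb.1) ht)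
  refine hmove (t * b) hnN hn1 ?_
  rw [← hgen, Subgroup.zpowers_le]
  exact (hfix _ hnN h hh).2 hcn

omit [Nontrivial X] in
/-- The point stabiliser inside a transitive minimal normal subgroup. -/
theorem eq_bot_of_generators_normalize {a : X} {N : Subgroup G} (hN : N.Normal)
    [IsPretransitive N X] {s : Finset (Subgroup G)} (hs : IsFactors N s) {S : Subgroup G}
    (hS : S ∈ s) (h : S ≤ Subgroup.normalizer ((N ⊓ stabilizer G a : Subgroup G) : Set G)) :
    ∀ x ∈ N, x • a = a → x = 1 := by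
  set A := N ⊓ stabilizer G a with hA
  have hHA : stabilizer G a ≤ Subgroup.normalizer (A : Set G) := by
    intro g hg
    rw [Subgroup.mem_normalizer_iff]
    intro y
    constructor
    · exact fun hy => ⟨hN.conj_mem y hy.1 g, (stabilizer G a).mul_mem
        ((stabilizer G a).mul_mem hg hy.2) ((stabilizer G a).inv_mem hg)⟩
    · intro hy
      refine ⟨?_, ?_⟩
      · have := hN.conj_mem _ hy.1 g⁻¹
        simpa [mul_assoc] using this
      · have := (stabilizer G a).mul_mem ((stabilizer G a).mul_mem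
          ((stabilizer G a).inv_mem hg) hy.2) hg
        simpa [mul_assoc] using this
  have hall : N ≤ Subgroup.normalizer (A : Set G) := by
    rw [← hs.sup_eq]
    refine Finset.sup_le fun T hT => ?_
    obtain ⟨g, hg, hmap⟩ := exists_conj_stabilizer hep hs a hS hT
    intro x hx
    rw [← hmap] at hx
    obtain ⟨y, hy, rfl⟩ := hx
    exact Subgroup.mul_mem _ (Subgroup.mul_mem _ (hHA hg) (h hy)) (Subgroup.inv_mem _ (hHA hg))
  intro x hx hxa
  apply FaithfulSMul.eq_of_smul_eq_smul (α := X)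
  intro y
  obtain ⟨n, rfl⟩ := exists_smul_eq N a y
  have h1 := (Subgroup.mem_normalizer_iff.1 (hall (N.inv_mem n.2)) x).1 ⟨hx, hxa⟩
  have h2 : ((n : G)⁻¹ * x * (n : G)⁻¹⁻¹) • a = a := h1.2
  rw [inv_inv, mul_smul, mul_smul, inv_smul_eq_iff] at h2
  rw [one_smul]
  exact h2

/-- A transitive minimal normal subgroup with at least two factors is regular. -/
theorem regular_of_two_factors {a : X} {N : Subgroup G} (hN : N.Normal) [IsPretransitive N X]
    {s : Finset (Subgroup G)} (hs : IsFactors N s) {S T₀ : Subgroup G} (hS : S ∈ s) (hT₀ : T₀ ∈ s)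
    (hne₀ : T₀ ≠ S) : ∀ x ∈ N, x • a = a → x = 1 := by
  classical
  by_contra hcon
  set H := stabilizer G a with hH
  set A := N ⊓ H with hA
  have hHne : H ≠ ⊥ := fun e => hcon fun x hx hxa =>
    Subgroup.mem_bot.1 (e ▸ (hxa : x ∈ stabilizer G a))
  have hnotnorm : ∀ U ∈ s, ¬ U ≤ Subgroup.normalizer (A : Set G) := fun U hU h =>
    hcon (eq_bot_of_generators_normalize hep hN hs hU h)
  -- if all `E`-translates have stabilisers in a proper subgroup, `E` normalises `A`
  have hkey : ∀ U ∈ s, ∀ K : Subgroup G, A ≤ K → K ≤ H → K ≠ H → ∀ t ∈ U, t ∉ H →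
      (∀ h ∈ H, h • t • a = t • a → h ∈ K) → t ∈ Subgroup.normalizer (A : Set G) := by
    intro U hU K hAK hKH hKne t ht htH hK
    have hmove : ¬ H ≤ stabilizer G (t • a) := fun hle =>
      htH (mem_stabilizer_iff.2 (eq_of_stabilizer_le hHne hle))
    have hKle : K ≤ stabilizer G (t • a) :=
      (eq_of_between (hep a (t • a)) hmove (fun h hh => hK h hh.1 hh.2) hKH).resolve_right hKne
    have hfwd : ∀ y ∈ A, t⁻¹ * y * t ∈ A := fun y hy =>
      ⟨N.mul_mem (N.mul_mem (N.inv_mem (hs.le U hU ht)) hy.1) (hs.le U hU ht), by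
        show (t⁻¹ * y * t) • a = a
        rw [mul_smul, mul_smul, inv_smul_eq_iff]
        exact hKle (hAK hy)⟩
    rw [← inv_inv t]
    refine Subgroup.inv_mem _ (Subgroup.mem_normalizer_iff.2 fun y => ⟨fun hy => ?_, fun hy => ?_⟩)
    · simpa using hfwd y hy
    · have hsurj : Function.Surjective fun y : A => (⟨t⁻¹ * y * t, hfwd y y.2⟩ : A) :=
        Finite.surjective_of_injective fun u v e => Subtype.ext (by simpa using congrArg Subtype.val e)
      obtain ⟨z, hz⟩ := hsurj ⟨_, hy⟩
      have hz' : t⁻¹ * (z : G) * t = t⁻¹ * y * t⁻¹⁻¹ := congrArg Subtype.val hz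
      rw [inv_inv, mul_left_inj, mul_right_inj] at hz'
      exact hz' ▸ z.2
  have hAN : ∀ U ∈ s, ∀ K : Subgroup G, K = H ⊓ Subgroup.normalizer (U : Set G) → A ≤ K :=
    fun U hU K hK => hK ▸ le_inf inf_le_right (inf_le_left.trans (hs.normalized U hU))
  let C : Subgroup G → Subgroup G := fun U => N ⊓ Subgroup.centralizer (U : Set G)
  have hCle : ∀ U V : Subgroup G, U ∈ s → V ∈ s → V ≠ U → V ≤ C U := fun U V hU hV hne y hy =>
    ⟨hs.le V hV hy, Subgroup.mem_centralizer_iff.2 fun x hx =>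
      (hs.commute U hU V hV hne.symm x hx y hy).eq⟩
  have hnormal_eq : ∀ U : Subgroup G, ∀ h : G, U.map (MulAut.conj h).toMonoidHom = U →
      h ∈ Subgroup.normalizer (U : Set G) := by
    intro U h e
    rw [Subgroup.mem_normalizer_iff]
    intro y
    refine ⟨fun hy => e ▸ ⟨y, hy, rfl⟩, fun hy => ?_⟩
    rw [← e] at hy
    obtain ⟨z, hz, hzy⟩ := hy
    rwa [← (MulAut.conj h).injective (show MulAut.conj h z = MulAut.conj h y from hzy)]
  have hmoved : ∀ U ∈ s, H ⊓ Subgroup.normalizer (U : Set G) ≠ H := by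
    intro U hU e
    obtain ⟨V, hV, hVU⟩ : ∃ V ∈ s, V ≠ U := by
      by_cases e' : S = U
      · exact ⟨T₀, hT₀, fun e'' => hne₀ (e''.trans e'.symm)⟩
      · exact ⟨S, hS, e'⟩
    obtain ⟨h, hh, hmap⟩ := exists_conj_stabilizer hep hs a hU hV
    have hn := (e.symm ▸ hh : h ∈ H ⊓ Subgroup.normalizer (U : Set G)).2
    haveI := hs.simple U hU
    haveI : Nontrivial U := IsSimpleGroup.toNontrivial
    obtain ⟨⟨x, hx⟩, hx1⟩ := exists_ne (1 : U)
    exact hVU (eq_of_conj_mem_factor hep hs hU hV (x := h * x * h⁻¹)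
      ((Subgroup.mem_normalizer_iff.1 hn x).1 hx) (hmap ▸ ⟨x, hx, rfl⟩)
      (fun e => hx1 (Subtype.ext (conj_eq_one_iff.1 e))))
  -- the stabiliser projects onto each factor
  have hproj : ∀ U ∈ s, U ≤ A ⊔ C U := by
    intro U hU
    by_contra hle
    apply hnotnorm U hU
    obtain ⟨t, ht, htR⟩ := SetLike.not_le_iff_exists.1 hle
    have hout : ∀ u ∈ U, u ∉ A ⊔ C U → u ∈ Subgroup.normalizer (A : Set G) := by
      intro u hu huR
      refine hkey U hU _ (hAN U hU _ rfl) inf_le_left (hmoved U hU) u hu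
        (fun huH => huR (Subgroup.mem_sup_left ⟨hs.le U hU hu, huH⟩)) (fun h hh hfix => ⟨hh, ?_⟩)
      by_contra hhn
      apply huR
      have hmap : U.map (MulAut.conj h).toMonoidHom ≠ U := fun e => hhn (hnormal_eq U h e)
      have hmem : h * u * h⁻¹ ∈ C U := hCle U _ hU (hs.conj_mem U hU h) hmap ⟨u, hu, rfl⟩
      have hw : u⁻¹ * (h * u * h⁻¹) ∈ A := ⟨N.mul_mem (N.inv_mem (hs.le U hU hu))
        (hN.conj_mem u (hs.le U hU hu) h), by
        show (u⁻¹ * (h * u * h⁻¹)) • a = a
        rw [mul_smul, mul_smul, mul_smul, inv_smul_eq_iff.2 (mem_stabilizer_iff.1 hh).symm, hfix,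
          inv_smul_smul]⟩
      have := (A ⊔ C U).mul_mem (Subgroup.mem_sup_left hw) ((A ⊔ C U).inv_mem (Subgroup.mem_sup_right hmem))
      rw [mul_inv_cancel_right] at this
      exact inv_mem_iff.1 this
    intro u hu
    by_cases huR : u ∈ A ⊔ C U
    · have : u * t ∈ Subgroup.normalizer (A : Set G) := hout _ (U.mul_mem hu ht) fun h =>
        htR (by simpa using (A ⊔ C U).mul_mem ((A ⊔ C U).inv_mem huR) h)
      simpa using Subgroup.mul_mem _ this (Subgroup.inv_mem _ (hout t ht htR))
    · exact hout u hu huR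
  -- a subgroup of a factor invariant under `A` is trivial or the whole factor
  have hinv : ∀ U ∈ s, ∀ V : Subgroup G, V ≤ U → (∀ r ∈ A, ∀ v ∈ V, r * v * r⁻¹ ∈ V) →
      V = ⊥ ∨ V = U := by
    intro U hU V hVU hV
    rcases eq_or_ne V ⊥ with e | e
    · exact Or.inl e
    refine Or.inr (hs.eq_of_normalized_le hU hVU e ((hproj U hU).trans (sup_le ?_ ?_))) <;>
      intro r hr <;> rw [Subgroup.mem_normalizer_iff] <;> intro v
    · refine ⟨hV r hr v, fun hv => ?_⟩
      have := hV r⁻¹ (A.inv_mem hr) _ hv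
      simpa [mul_assoc] using this
    · have key : ∀ y ∈ V, r * y * r⁻¹ = y := fun y hy => by
        rw [← Subgroup.mem_centralizer_iff.1 hr.2 y (hVU hy), mul_inv_cancel_right]
      refine ⟨fun hv => by rw [key v hv]; exact hv, fun hv => ?_⟩
      have h2 := key _ hv
      rw [show r * (r * v * r⁻¹) * r⁻¹ = r * v * r⁻¹ ↔ r * v * r⁻¹ = v from by
        constructor
        · intro e'; exact mul_left_cancel (mul_right_cancel e')
        · intro e'; rw [e', e']] at h2
      rwa [h2] at hv
  have hAU : ∀ U ∈ s, ∀ x ∈ U, x ∈ A → x = 1 := by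
    intro U hU x hx hxA
    rcases hinv U hU (U ⊓ A) inf_le_left (fun r hr v hv =>
      ⟨(Subgroup.mem_normalizer_iff.1 (hs.normalized U hU hr.1) v).1 hv.1,
        A.mul_mem (A.mul_mem hr hv.2) (A.inv_mem hr)⟩) with e | e
    · exact Subgroup.mem_bot.1 (e ▸ ⟨hx, hxA⟩)
    · exfalso
      exact hnotnorm U hU ((inf_eq_left.1 e).trans Subgroup.le_normalizer)
  have hmemsup : ∀ U ∈ s, ∀ V ∈ s, V ≠ U → ∀ w ∈ U ⊔ V, ∃ x ∈ U, ∃ y ∈ V, w = x * y := by
    intro U hU V hV hne w hw
    rw [← SetLike.mem_coe, Subgroup.coe_mul_of_right_le_normalizer_left U V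
      ((hs.le V hV).trans (hs.normalized U hU))] at hw
    obtain ⟨x, hx, y, hy, e⟩ := hw
    exact ⟨x, hx, y, hy, e.symm⟩
  -- projection of the two-factor part of `A`
  have hfull : ∀ U ∈ s, ∀ V ∈ s, V ≠ U → ∀ w ∈ A, w ∈ U ⊔ V → w ≠ 1 →
      ∀ x ∈ U, ∃ y ∈ V, x * y ∈ A := by
    intro U hU V hV hne w hw hwUV hw1
    let P : Subgroup G :=
      { carrier := {x | x ∈ U ∧ ∃ y ∈ V, x * y ∈ A}
        one_mem' := ⟨U.one_mem, 1, V.one_mem, by simp⟩
        mul_mem' := by
          rintro x x' ⟨hx, y, hy, hxy⟩ ⟨hx', y', hy', hxy'⟩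
          refine ⟨U.mul_mem hx hx', y * y', V.mul_mem hy hy', ?_⟩
          have e : x * x' * (y * y') = (x * y) * (x' * y') := by
            have := (hs.commute U hU V hV hne.symm x' hx' y hy).eq
            calc x * x' * (y * y') = x * (x' * y) * y' := by group
              _ = x * (y * x') * y' := by rw [this]
              _ = (x * y) * (x' * y') := by group
          rw [e]; exact A.mul_mem hxy hxy'
        inv_mem' := by
          rintro x ⟨hx, y, hy, hxy⟩
          refine ⟨U.inv_mem hx, y⁻¹, V.inv_mem hy, ?_⟩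
          have := (hs.commute U hU V hV hne.symm x⁻¹ (U.inv_mem hx) y⁻¹ (V.inv_mem hy)).eq
          rw [this, ← mul_inv_rev]; exact A.inv_mem hxy }
    have hP : P = U := by
      refine (hinv U hU P (fun x hx => hx.1) ?_).resolve_left fun e => ?_
      · rintro r hr x ⟨hx, y, hy, hxy⟩
        refine ⟨(Subgroup.mem_normalizer_iff.1 (hs.normalized U hU hr.1) x).1 hx, r * y * r⁻¹,
          (Subgroup.mem_normalizer_iff.1 (hs.normalized V hV hr.1) y).1 hy, ?_⟩
        have := A.mul_mem (A.mul_mem hr hxy) (A.inv_mem hr)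
        simpa [mul_assoc] using this
      · obtain ⟨x, hx, y, hy, rfl⟩ := hmemsup U hU V hV hne w hwUV
        have hxP : x ∈ P := ⟨hx, y, hy, hw⟩
        rw [e, Subgroup.mem_bot] at hxP
        subst hxP
        rw [one_mul] at hw hw1
        exact hw1 (hAU V hV y hy hw)
    intro x hx
    exact (hP.ge hx).2
  -- partners are unique
  have huniq : ∀ U ∈ s, ∀ V ∈ s, V ≠ U → ∀ V' ∈ s, V' ≠ U → ∀ w ∈ A, w ∈ U ⊔ V → w ≠ 1 →
      ∀ w' ∈ A, w' ∈ U ⊔ V' → w' ≠ 1 → V' = V := by
    intro U hU V hV hne V' hV' hne' w hw hwUV hw1 w' hw' hwUV' hw1'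
    by_contra hVV
    obtain ⟨x', hx', y', hy', rfl⟩ := hmemsup U hU V' hV' hne' w' hwUV'
    have hcen : ∀ x ∈ U, Commute x x' := by
      intro x hx
      obtain ⟨y, hy, hxy⟩ := hfull U hU V hV hne w hw hwUV hw1 x hx
      have c1 := (hs.commute U hU V hV hne.symm x' hx' y hy).eq
      have c2 := (hs.commute U hU V' hV' hne'.symm x hx y' hy').eq
      have c3 := (hs.commute V hV V' hV' (Ne.symm hVV) y hy y' hy').eq
      have e1 : (x * y) * (x' * y') = (x * x') * (y * y') := by
        calc (x * y) * (x' * y') = x * (y * x') * y' := by group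
          _ = x * (x' * y) * y' := by rw [c1]
          _ = (x * x') * (y * y') := by group
      have e2 : (x' * y') * (x * y) = (x' * x) * (y * y') := by
        calc (x' * y') * (x * y) = x' * (y' * x) * y := by group
          _ = x' * (x * y') * y := by rw [c2]
          _ = x' * x * (y' * y) := by group
          _ = x' * x * (y * y') := by rw [c3]
      have hd : (x * x') * (x' * x)⁻¹ ∈ A := by
        have := A.mul_mem (A.mul_mem hxy hw') (A.inv_mem (A.mul_mem hw' hxy))
        rw [e1, e2] at this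
        simpa [mul_assoc] using this
      exact mul_inv_eq_one.1 (hAU U hU _ (U.mul_mem (U.mul_mem hx hx') (U.inv_mem (U.mul_mem hx' hx))) hd)
    have hx'1 : x' = 1 := inf_eq_bot_of_commute (hs.simple U hU) (hs.not_comm U hU)
      (U := U ⊓ Subgroup.centralizer (U : Set G))
      (fun u hu z hz => (Subgroup.mem_centralizer_iff.1 hu.2 z hz).symm) x'
      ⟨hx', Subgroup.mem_centralizer_iff.2 fun z hz => (hcen z hz).eq⟩ hx'
    subst hx'1
    rw [one_mul] at hw' hw1'
    exact hw1' (hAU V' hV' y' hy' hw')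
  -- a fixing element moving `S` gives a partner
  have hpartner : ∀ h ∈ H, ∀ t ∈ S, t ≠ 1 → h • t • a = t • a →
      S.map (MulAut.conj h).toMonoidHom ≠ S →
      ∃ w ∈ A, w ∈ S ⊔ S.map (MulAut.conj h).toMonoidHom ∧ w ≠ 1 := by
    intro h hh t ht ht1 hfix hmap
    refine ⟨t⁻¹ * (h * t * h⁻¹), ⟨N.mul_mem (N.inv_mem (hs.le S hS ht))
      (hN.conj_mem t (hs.le S hS ht) h), ?_⟩, Subgroup.mul_mem _
      (Subgroup.mem_sup_left (S.inv_mem ht)) (Subgroup.mem_sup_right ⟨t, ht, rfl⟩), ?_⟩
    · show (t⁻¹ * (h * t * h⁻¹)) • a = a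
      rw [mul_smul, mul_smul, mul_smul, inv_smul_eq_iff.2 (mem_stabilizer_iff.1 hh).symm, hfix,
        inv_smul_smul]
    · intro e
      rw [inv_mul_eq_one] at e
      exact ht1 (inf_eq_bot_of_commute (hs.simple S hS) (hs.not_comm S hS)
        (fun u hu z hz => (hs.commute S hS _ (hs.conj_mem S hS h) hmap.symm z hz u hu).symm) t
        (e ▸ ⟨t, ht, rfl⟩) ht)
  have htH : ∀ t ∈ S, t ≠ 1 → t ∉ H := fun t ht ht1 h => ht1 (hAU S hS t ht ⟨hs.le S hS ht, h⟩)
  by_cases hex : ∃ T ∈ s, T ≠ S ∧ ∃ w ∈ A, w ∈ S ⊔ T ∧ w ≠ 1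
  · obtain ⟨T, hT, hTS, w, hw, hwST, hw1⟩ := hex
    by_cases hK : H ⊓ Subgroup.normalizer ((S ⊔ T : Subgroup G) : Set G) = H
    · -- exactly two factors
      have hHn : H ≤ Subgroup.normalizer ((S ⊔ T : Subgroup G) : Set G) := inf_eq_left.1 hK
      have hNn : N ≤ Subgroup.normalizer ((S ⊔ T : Subgroup G) : Set G) := by
        intro n hn
        apply hnormal_eq
        have hfix : ∀ U ∈ s, U.map (MulAut.conj n).toMonoidHom = U := by
          intro U hU
          apply Subgroup.eq_of_le_of_card_ge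
          · rintro _ ⟨u, hu, rfl⟩
            exact (Subgroup.mem_normalizer_iff.1 (hs.normalized U hU hn) u).1 hu
          · rw [Subgroup.card_map_of_injective (MulAut.conj n).injective]
        rw [Subgroup.map_sup, hfix S hS, hfix T hT]
      haveI : (S ⊔ T : Subgroup G).Normal := by
        rw [← Subgroup.normalizer_eq_top_iff, eq_top_iff, ← sup_stabilizer_eq_top (N := N) a]
        exact sup_le hNn hHn
      have htwo : ∀ U ∈ s, U = S ∨ U = T := by
        intro U hU
        by_contra hc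
        push Not at hc
        obtain ⟨g, hg⟩ := hs.conj S hS U hU
        have hUST : U ≤ S ⊔ T := by
          rintro x hx
          rw [← hg] at hx
          obtain ⟨y, hy, rfl⟩ := hx
          exact (inferInstance : (S ⊔ T : Subgroup G).Normal).conj_mem y (Subgroup.mem_sup_left hy) g
        apply hs.not_comm U hU
        have hcen : S ⊔ T ≤ Subgroup.centralizer (U : Set G) := sup_le
          (fun y hy => Subgroup.mem_centralizer_iff.2 fun x hx =>
            (hs.commute U hU S hS hc.1 x hx y hy).eq)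
          (fun y hy => Subgroup.mem_centralizer_iff.2 fun x hx =>
            (hs.commute U hU T hT hc.2 x hx y hy).eq)
        exact ⟨⟨fun x y => Subtype.ext (Subgroup.mem_centralizer_iff.1 (hcen (hUST y.2)) x x.2)⟩⟩
      have htrans : ∀ U ∈ s, ∀ V ∈ s, V ≠ U → (∀ Y ∈ s, Y = U ∨ Y = V) →
          (∀ y ∈ V, ∃ x ∈ U, x * y ∈ A) → IsPretransitive U X := by
        intro U hU V hV hne htwo' hUV
        rw [isPretransitive_iff_base a]
        intro z
        obtain ⟨n, hn⟩ := exists_smul_eq N a z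
        have hle : N ≤ U ⊔ V := hs.sup_eq ▸ Finset.sup_le fun Y hY => by
          rcases htwo' Y hY with e | e
          · exact e ▸ le_sup_left
          · exact e ▸ le_sup_right
        obtain ⟨x, hx, y, hy, hxy⟩ := hmemsup U hU V hV hne _ (hle n.2)
        obtain ⟨x', hx', hA'⟩ := hUV y hy
        refine ⟨⟨x * x'⁻¹, U.mul_mem hx (U.inv_mem hx')⟩, ?_⟩
        show (x * x'⁻¹) • a = z
        rw [← hn, Subgroup.smul_def, hxy]
        conv_rhs => rw [show x * y = x * x'⁻¹ * (x' * y) by group, mul_smul,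
          (mem_stabilizer_iff.1 hA'.2 : (x' * y) • a = a)]
      haveI : IsPretransitive S X := htrans S hS T hT hTS htwo fun y hy => by
        obtain ⟨x, hx, h⟩ := hfull T hT S hS hTS.symm w hw (sup_comm S T ▸ hwST) hw1 y hy
        exact ⟨x, hx, by rw [(hs.commute T hT S hS hTS y hy x hx).eq] at h; exact h⟩
      haveI : IsPretransitive T X := htrans T hT S hS hTS.symm (fun Y hY => (htwo Y hY).symm)
        fun y hy => by
        obtain ⟨x, hx, h⟩ := hfull S hS T hT hTS w hw hwST hw1 y hy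
        exact ⟨x, hx, by rw [(hs.commute S hS T hT hTS.symm y hy x hx).eq] at h; exact h⟩
      refine false_of_two_transitive hep (hs.simple S hS) (hs.not_comm S hS)
        (hs.commute S hS T hT hTS.symm) (fun x hx hxa => hAU S hS x hx ⟨hs.le S hS hx, hxa⟩)
        fun h _ => ?_
      rcases htwo _ (hs.conj_mem S hS h) with e | e
      · exact Or.inl fun x hx => e ▸ ⟨x, hx, rfl⟩
      · exact Or.inr fun x hx => e ▸ ⟨x, hx, rfl⟩
    · apply hnotnorm S hS
      intro t ht
      rcases eq_or_ne t 1 with rfl | ht1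
      · exact Subgroup.one_mem _
      refine hkey S hS _ (le_inf inf_le_right ?_) inf_le_left hK t ht (htH t ht ht1)
        (fun h hh hfix => ⟨hh, ?_⟩)
      · intro r hr
        apply hnormal_eq
        have hfix : ∀ U ∈ s, U.map (MulAut.conj r).toMonoidHom = U := by
          intro U hU
          apply Subgroup.eq_of_le_of_card_ge
          · rintro _ ⟨u, hu, rfl⟩
            exact (Subgroup.mem_normalizer_iff.1 (hs.normalized U hU hr.1) u).1 hu
          · rw [Subgroup.card_map_of_injective (MulAut.conj r).injective]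
        rw [Subgroup.map_sup, hfix S hS, hfix T hT]
      apply hnormal_eq
      rw [Subgroup.map_sup]
      have hwmap : h * w * h⁻¹ ∈ A ∧ h * w * h⁻¹ ≠ 1 := ⟨⟨hN.conj_mem w hw.1 h,
        (stabilizer G a).mul_mem ((stabilizer G a).mul_mem hh hw.2) ((stabilizer G a).inv_mem hh)⟩,
        fun e => hw1 (conj_eq_one_iff.1 e)⟩
      have hwmem : h * w * h⁻¹ ∈ S.map (MulAut.conj h).toMonoidHom ⊔ T.map (MulAut.conj h).toMonoidHom := by
        rw [← Subgroup.map_sup]; exact ⟨w, hwST, rfl⟩
      have hne' : T.map (MulAut.conj h).toMonoidHom ≠ S.map (MulAut.conj h).toMonoidHom := fun e =>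
        hTS (Subgroup.map_injective (MulAut.conj h).injective e)
      by_cases hSh : S.map (MulAut.conj h).toMonoidHom = S
      · rw [hSh] at hwmem hne' ⊢
        rw [huniq S hS T hT hTS _ (hs.conj_mem T hT h) hne' w hw hwST hw1 _ hwmap.1 hwmem hwmap.2]
      · obtain ⟨v, hv, hvmem, hv1⟩ := hpartner h hh t ht ht1 hfix hSh
        have e := huniq S hS T hT hTS _ (hs.conj_mem S hS h) hSh w hw hwST hw1 v hv hvmem hv1
        rw [e] at hwmem hne' ⊢
        rw [huniq T hT S hS hTS.symm _ (hs.conj_mem T hT h) hne' w hw (sup_comm S T ▸ hwST) hw1 _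
          hwmap.1 hwmem hwmap.2, sup_comm]
  · apply hnotnorm S hS
    intro t ht
    rcases eq_or_ne t 1 with rfl | ht1
    · exact Subgroup.one_mem _
    refine hkey S hS _ (hAN S hS _ rfl) inf_le_left (hmoved S hS) t ht (htH t ht ht1)
      (fun h hh hfix => ⟨hh, ?_⟩)
    apply hnormal_eq
    by_contra hSh
    exact hex ⟨_, hs.conj_mem S hS h, hSh, hpartner h hh t ht ht1 hfix hSh⟩

/-- An extremely primitive group is affine or almost simple. -/
theorem affine_or_almostSimple :
    (∃ N : Subgroup G, N.Normal ∧ N ≠ ⊥ ∧ IsMulCommutative N ∧ ∀ x : X, stabilizer N x = ⊥) ∨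
    (∃ T : Subgroup G, T.Normal ∧ IsSimpleGroup T ∧ ¬ IsMulCommutative T ∧
      Subgroup.centralizer (T : Set G) = ⊥) := by
  classical
  obtain ⟨x₀, y₀, hxy⟩ := exists_pair_ne X
  haveI : Nontrivial G := by
    obtain ⟨g, hg⟩ := exists_smul_eq G x₀ y₀
    exact ⟨⟨g, 1, fun e => hxy (by rw [← hg, e, one_smul])⟩⟩
  obtain ⟨N, hN⟩ := exists_isMinNormal (G := G)
  haveI hNt : IsPretransitive N X := isPretransitive_of_normal hN.normal hN.ne_bot
  haveI := hN.normal
  haveI : Nonempty X := ⟨x₀⟩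
  obtain ⟨a⟩ := (inferInstance : Nonempty X)
  rcases hN.primitive_cases (X := X) with ⟨hab, -, hreg, -⟩ | ⟨hna, hC, -⟩ |
    ⟨hna, hreg, M, hM, hMN, -, -, -, huniq⟩
  · exact Or.inl ⟨N, hN.normal, hN.ne_bot, hab, hreg⟩
  · obtain ⟨s, hs⟩ := hN.exists_isFactors hna
    obtain ⟨S, hS⟩ := hs.nonempty
    by_cases hone : ∃ T ∈ s, T ≠ S
    · exfalso
      obtain ⟨T, hT, hne⟩ := hone
      exact hne (factors_subsingleton_of_regular hep hN.normal hs
        (regular_of_two_factors hep hN.normal hs hS hT hne (a := a)) T hT S hS)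
    · push Not at hone
      have hNS : N = S := le_antisymm (hs.sup_eq ▸ Finset.sup_le fun T hT => (hone T hT).le) (hs.le S hS)
      subst hNS
      exact Or.inr ⟨N, hN.normal, hs.simple N hS, hna, hC⟩
  · exfalso
    obtain ⟨s, hs⟩ := hN.exists_isFactors hna
    obtain ⟨S, hS⟩ := hs.nonempty
    have hregN : ∀ x ∈ N, x • a = a → x = 1 := fun x hx hxa => by
      have : (⟨x, hx⟩ : N) ∈ stabilizer N a := hxa
      rw [hreg a, Subgroup.mem_bot] at this
      exact congrArg Subtype.val this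
    have hsub := factors_subsingleton_of_regular hep hN.normal hs hregN
    have hNS : N = S := le_antisymm
      (hs.sup_eq ▸ Finset.sup_le fun T hT => (hsub T hT S hS).le) (hs.le S hS)
    subst hNS
    haveI : IsPretransitive M X := isPretransitive_of_normal hM.normal hM.ne_bot
    exact false_of_two_transitive hep (hs.simple N hS) hna
      (fun x hx y hy => hN.commute_of_ne hM hMN.symm hx hy) hregN
      (fun h _ => Or.inl fun x hx => hN.normal.conj_mem x hx h)

end Regular

end CfsgLib.Perm.ExtPrim
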