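import Mathlib
import Cfsg.Agent.Perm57.Bochert

/-!
# The elementary square-root bound for the minimal degree of a primitive group
-/

set_option autoImplicit false

namespace CfsgLib.PermMinDeg

open MulAction

variable {G Ω : Type*} [Group G] [Finite G] [MulAction G Ω] [FaithfulSMul G Ω] [Fintype Ω] [DecidableEq Ω]

/-- In a doubly transitive group without 3-cycle an element moves many points. -/
theorem moved_of_two_transitive
    (h2 : ∀ a b b' : Ω, b ≠ a → b' ≠ a → ∃ h : G, h • a = a ∧ h • b = b')
    [IsPreprimitive G Ω] (hA : ¬ alternatingGroup Ω ≤ (toPermHom G Ω).range) (g : G) (hg : g ≠ 1) :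
    Fintype.card Ω ≤ (2 * (Finset.univ.filter fun x : Ω => g • x ≠ x).card + 1) ^ 2 := by
  classical
  set D := Finset.univ.filter fun x : Ω => g • x ≠ x with hD
  obtain ⟨a, ha⟩ : ∃ a, g • a ≠ a := by
    by_contra hc
    push Not at hc
    exact hg (FaithfulSMul.eq_of_smul_eq_smul (α := Ω) fun x => by rw [hc, one_smul])
  have haD : a ∈ D := by simp [hD, ha]
  by_contra hlt
  push Not at hlt
  have := Fintype.ofFinite G
  set H := stabilizer G a
  have := Fintype.ofFinite H
  set E := D.erase a
  -- the fibres of an orbit map have a common size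
  have hfib : ∀ x y : Ω, x ≠ a → y ≠ a →
      (Fintype.card Ω - 1) * (Finset.univ.filter fun h : H => (h : G) • x = y).card = Fintype.card H := by
    intro x y hx hy
    have hmaps : Set.MapsTo (fun h : H => (h : G) • x) (Finset.univ : Finset H)
        ((Finset.univ.erase a : Finset Ω) : Set Ω) := by
      intro h _
      simp only [Finset.coe_erase, Finset.coe_univ, Set.mem_sdiff, Set.mem_univ, true_and,
        Set.mem_singleton_iff]
      intro e
      exact hx ((MulAction.injective (h : G)) (e.trans h.2.symm))
    have hcnt := Finset.card_eq_sum_card_fiberwise hmaps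
    rw [Finset.card_univ] at hcnt
    rw [hcnt, Finset.sum_congr rfl (g := fun _ => (Finset.univ.filter fun h : H => (h : G) • x = y).card),
      Finset.sum_const, Finset.card_erase_of_mem (Finset.mem_univ a), Finset.card_univ, smul_eq_mul]
    intro z hz
    obtain ⟨k, hka, hky⟩ := h2 a y z hy (Finset.mem_erase.1 hz).1
    refine (Finset.card_nbij' (fun h => (⟨k, hka⟩ : H) * h) (fun h => (⟨k, hka⟩ : H)⁻¹ * h) ?_ ?_ ?_ ?_).symm
    · intro h hh
      simp only [Finset.coe_filter, Set.mem_setOf_eq, Finset.mem_univ, true_and] at hh ⊢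
      rw [Subgroup.coe_mul, mul_smul, hh, hky]
    · intro h hh
      simp only [Finset.coe_filter, Set.mem_setOf_eq, Finset.mem_univ, true_and] at hh ⊢
      rw [Subgroup.coe_mul, mul_smul, hh, InvMemClass.coe_inv, inv_smul_eq_iff, hky]
    · intro h _; simp
    · intro h _; simp
  -- some conjugate meets the support in one point only
  obtain ⟨h, hh⟩ : ∃ h : H, ∀ x ∈ E, (h : G) • x ∉ E := by
    by_contra hc
    push Not at hc
    have h1 : Fintype.card H ≤ ∑ x ∈ E, ∑ y ∈ E, (Finset.univ.filter fun h : H => (h : G) • x = y).card := by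
      rw [← Finset.card_univ]
      refine le_trans ?_ (Finset.sum_le_sum fun x _ => Finset.card_biUnion_le)
      refine le_trans (Finset.card_le_card (t := E.biUnion fun x => E.biUnion fun y =>
        Finset.univ.filter fun h : H => (h : G) • x = y) fun h _ => ?_) Finset.card_biUnion_le
      obtain ⟨x, hx, hx'⟩ := hc h
      exact Finset.mem_biUnion.2 ⟨x, hx, Finset.mem_biUnion.2 ⟨_, hx', by simp⟩⟩
    have h2' : (Fintype.card Ω - 1) * ∑ x ∈ E, ∑ y ∈ E, (Finset.univ.filter fun h : H => (h : G) • x = y).card
        = E.card * E.card * Fintype.card H := by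
      rw [Finset.mul_sum, Finset.sum_congr rfl (g := fun _ => E.card * Fintype.card H)]
      · rw [Finset.sum_const, smul_eq_mul]; ring
      · intro x hx
        rw [Finset.mul_sum, Finset.sum_congr rfl (fun y hy =>
          hfib x y (Finset.mem_erase.1 hx).1 (Finset.mem_erase.1 hy).1), Finset.sum_const, smul_eq_mul]
    have h3 := Nat.mul_le_mul_left (Fintype.card Ω - 1) h1
    rw [h2'] at h3
    have hpos : 0 < Fintype.card H := Fintype.card_pos
    have h4 := Nat.le_of_mul_le_mul_right h3 hpos
    have h5 : E.card + 1 = D.card := Finset.card_erase_add_one haD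
    have h6 : (2 * D.card + 1) ^ 2 ≤ Fintype.card Ω - 1 := by omega
    nlinarith
  set σ := toPermHom G Ω g
  set τ := toPermHom G Ω ((h : G) * g * (h : G)⁻¹)
  have hha : (h : G) • a = a := h.2
  have hha' : (h : G)⁻¹ • a = a := inv_smul_eq_iff.2 hha.symm
  have h3 : Equiv.Perm.IsThreeCycle (σ * τ * σ⁻¹ * τ⁻¹) := by
    refine CfsgLib.Perm57.isThreeCycle_comm_of_meet_one σ τ D a haD ?_ ?_ ha ?_
    · intro z hz
      show g • z = z
      simpa [hD] using hz
    · intro z hz
      show ((h : G) * g * (h : G)⁻¹) • z = z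
      by_contra hne
      have hmem : (h : G)⁻¹ • z ∈ E := by
        refine Finset.mem_erase.2 ⟨fun e => (Finset.mem_erase.1 hz).1 ?_, ?_⟩
        · rw [inv_smul_eq_iff.1 e, hha]
        · simp only [hD, Finset.mem_filter, Finset.mem_univ, true_and]
          intro e
          apply hne
          rw [mul_smul, mul_smul, e, smul_inv_smul]
      have := hh _ hmem
      rw [smul_inv_smul] at this
      exact this hz
    · show ((h : G) * g * (h : G)⁻¹) • a ≠ a
      rw [mul_smul, mul_smul, hha']
      intro e
      exact ha ((MulAction.injective (h : G)) (e.trans hha.symm))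
  have hprim : IsPreprimitive (toPermHom G Ω).range Ω :=
    IsPreprimitive.of_surjective (f := ({ toFun := id, map_smul' := fun _ _ => rfl } :
      Ω →ₑ[(toPermHom G Ω).rangeRestrict] Ω)) Function.surjective_id
  exact hA (Equiv.Perm.alternatingGroup_le_of_isPreprimitive_of_isThreeCycle_mem hprim h3
    ⟨g * ((h : G) * g * (h : G)⁻¹) * g⁻¹ * ((h : G) * g * (h : G)⁻¹)⁻¹, by simp only [σ, τ, map_mul, map_inv]⟩)

/-- the orbital of a pair -/
def col (G : Type*) [Group G] {Ω : Type*} [MulAction G Ω] (x y : Ω) : orbitRel.Quotient G (Ω × Ω) :=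
  Quotient.mk'' (x, y)

omit [Finite G] [FaithfulSMul G Ω] [Fintype Ω] [DecidableEq Ω] in
theorem col_smul (g : G) (x y : Ω) : col G (g • x) (g • y) = col G x y :=
  Quotient.sound' ⟨g, rfl⟩

omit [Finite G] [FaithfulSMul G Ω] [Fintype Ω] [DecidableEq Ω] in
theorem exists_of_col_eq {x y x' y' : Ω} (h : col G x y = col G x' y') : ∃ g : G, g • x' = x ∧ g • y' = y := by
  obtain ⟨g, hg⟩ := mem_orbit_iff.1 (Quotient.exact' h)
  exact ⟨g, congrArg Prod.fst hg, congrArg Prod.snd hg⟩

omit [Finite G] [FaithfulSMul G Ω] [Fintype Ω] [DecidableEq Ω] in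
theorem col_diag [IsPretransitive G Ω] {x y z : Ω} : col G x y = col G z z ↔ x = y := by
  constructor
  · intro h
    obtain ⟨g, h1, h2⟩ := exists_of_col_eq h
    rw [← h1, ← h2]
  · rintro rfl
    obtain ⟨g, hg⟩ := MulAction.exists_smul_eq G z x
    rw [← hg, col_smul]

open Classical in
/-- out-neighbours in an orbital -/
noncomputable def out (c : orbitRel.Quotient G (Ω × Ω)) (x : Ω) : Finset Ω :=
  Finset.univ.filter fun y => col G x y = c

open Classical in
/-- points distinguishing two points -/
noncomputable def dist' (G : Type*) [Group G] {Ω : Type*} [MulAction G Ω] [Fintype Ω] (x y : Ω) : Finset Ω :=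
  Finset.univ.filter fun z => col G x z ≠ col G y z

/-- `i`-step walks along an orbital -/
def Walk (S : orbitRel.Quotient G (Ω × Ω)) : ℕ → Ω → Ω → Prop
  | 0, x, y => x = y
  | (i + 1), x, y => ∃ z, Walk S i x z ∧ col G z y = S

omit [Finite G] [FaithfulSMul G Ω] [Fintype Ω] [DecidableEq Ω] in
theorem Walk.trans {S : orbitRel.Quotient G (Ω × Ω)} {i j : ℕ} {x y z : Ω} (h : Walk S i x y)
    (h' : Walk S j y z) : Walk S (i + j) x z := by
  induction j generalizing z with
  | zero => cases h'; exact h
  | succ j ih =>
    obtain ⟨w, hw, hS⟩ := h'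
    exact ⟨w, ih hw, hS⟩

omit [Finite G] [FaithfulSMul G Ω] [Fintype Ω] [DecidableEq Ω] in
theorem Walk.split {S : orbitRel.Quotient G (Ω × Ω)} {i j : ℕ} {x z : Ω} (h : Walk S (i + j) x z) :
    ∃ y, Walk S i x y ∧ Walk S j y z := by
  induction j generalizing z with
  | zero => exact ⟨z, h, rfl⟩
  | succ j ih =>
    obtain ⟨w, hw, hS⟩ := h
    obtain ⟨y, hy, hy'⟩ := ih hw
    exact ⟨y, hy, w, hy', hS⟩

omit [Finite G] [FaithfulSMul G Ω] [Fintype Ω] [DecidableEq Ω] in
theorem Walk.smul {S : orbitRel.Quotient G (Ω × Ω)} {i : ℕ} {x y : Ω} (g : G) (h : Walk S i x y) :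
    Walk S i (g • x) (g • y) := by
  induction i generalizing y with
  | zero => cases h; rfl
  | succ i ih =>
    obtain ⟨w, hw, hS⟩ := h
    exact ⟨g • w, ih hw, by rw [col_smul, hS]⟩

omit [Finite G] [FaithfulSMul G Ω] in
theorem card_out_eq [IsPretransitive G Ω] (c : orbitRel.Quotient G (Ω × Ω)) (x x' : Ω) :
    (out c x).card = (out c x').card := by
  obtain ⟨g, rfl⟩ := MulAction.exists_smul_eq G x x'
  refine Finset.card_nbij' (fun y => g • y) (fun y => g⁻¹ • y) ?_ ?_ ?_ ?_
  · intro y hy; simp only [out, Finset.coe_filter, Set.mem_setOf_eq, Finset.mem_univ, true_and] at hy ⊢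
    rw [col_smul, hy]
  · intro y hy; simp only [out, Finset.coe_filter, Set.mem_setOf_eq, Finset.mem_univ, true_and] at hy ⊢
    rw [← col_smul g, smul_inv_smul, hy]
  · intro y _; simp
  · intro y _; simp

omit [Finite G] [FaithfulSMul G Ω] in
open Classical in
/-- in-degree equals out-degree -/
theorem card_in_eq [IsPretransitive G Ω] (c : orbitRel.Quotient G (Ω × Ω)) (x : Ω) :
    (Finset.univ.filter fun y => col G y x = c).card = (out c x).card := by
  have hconst : ∀ x', (Finset.univ.filter fun y => col G y x' = c).card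
      = (Finset.univ.filter fun y => col G y x = c).card := by
    intro x'
    obtain ⟨g, rfl⟩ := MulAction.exists_smul_eq G x x'
    refine Finset.card_nbij' (fun y => g⁻¹ • y) (fun y => g • y) ?_ ?_ ?_ ?_
    · intro y hy; simp only [Finset.coe_filter, Set.mem_setOf_eq, Finset.mem_univ, true_and] at hy ⊢
      rw [← col_smul g, smul_inv_smul, hy]
    · intro y hy; simp only [Finset.coe_filter, Set.mem_setOf_eq, Finset.mem_univ, true_and] at hy ⊢
      rw [col_smul, hy]
    · intro y _; simp
    · intro y _; simp
  have h := Finset.sum_card_bipartiteAbove_eq_sum_card_bipartiteBelow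
    (fun a b : Ω => col G a b = c) (s := Finset.univ) (t := Finset.univ)
  simp only [Finset.bipartiteAbove, Finset.bipartiteBelow] at h
  have e1 : ∀ a, (Finset.univ.filter fun b => col G a b = c).card = (out c x).card := fun a => by
    rw [← card_out_eq c a x]; rfl
  rw [Finset.sum_congr rfl (fun a _ => e1 a), Finset.sum_congr rfl (fun b _ => hconst b)] at h
  simp only [Finset.sum_const, smul_eq_mul] at h
  exact (Nat.eq_of_mul_eq_mul_left (Finset.card_pos.2 ⟨x, Finset.mem_univ x⟩) h).symm

omit [Finite G] [FaithfulSMul G Ω] [DecidableEq Ω] in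
theorem dist'_smul (g : G) (x y : Ω) : (dist' G (g • x) (g • y)).card = (dist' G x y).card := by
  refine Finset.card_nbij' (fun z => g⁻¹ • z) (fun z => g • z) ?_ ?_ ?_ ?_
  · intro z hz; simp only [dist', Finset.coe_filter, Set.mem_setOf_eq, Finset.mem_univ, true_and] at hz ⊢
    rwa [← col_smul g x, ← col_smul g y, smul_inv_smul]
  · intro z hz; simp only [dist', Finset.coe_filter, Set.mem_setOf_eq, Finset.mem_univ, true_and] at hz ⊢
    rwa [col_smul, col_smul]
  · intro z _; simp
  · intro z _; simp

omit [Finite G] [FaithfulSMul G Ω] in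
theorem dist'_walk {S : orbitRel.Quotient G (Ω × Ω)} {a b : Ω} (hS : col G a b = S) :
    ∀ (i : ℕ) (x y : Ω), Walk S i x y → (dist' G x y).card ≤ i * (dist' G a b).card := by
  intro i
  induction i with
  | zero => rintro x y rfl; simp [dist']
  | succ i ih =>
    rintro x y ⟨z, hz, hzS⟩
    obtain ⟨g, hga, hgb⟩ := exists_of_col_eq (hzS.trans hS.symm)
    have h1 : (dist' G z y).card = (dist' G a b).card := by rw [← hga, ← hgb, dist'_smul]
    have hsub : dist' G x y ⊆ dist' G x z ∪ dist' G z y := by
      intro w hw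
      simp only [dist', Finset.mem_filter, Finset.mem_univ, true_and, Finset.mem_union] at hw ⊢
      by_contra hc
      push Not at hc
      exact hw (hc.1.trans hc.2)
    have := (Finset.card_le_card hsub).trans (Finset.card_union_le _ _)
    have := ih x z hz
    rw [Nat.succ_mul]; omega

omit [Finite G] [FaithfulSMul G Ω] in
theorem stabilizer_set_univ [IsPreprimitive G Ω] [Nontrivial Ω] (A : Finset Ω) (x : Ω) (hA : A.Nonempty)
    (hfix : ∀ g : G, g • x = x → ∀ w ∈ A, g • w ∈ A) (h : G) (hx : h • x ≠ x) (hh : ∀ w ∈ A, h • w ∈ A) :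
    A = Finset.univ := by
  let H : Subgroup G :=
    { carrier := {g | A.image (fun w => g • w) = A}
      one_mem' := by simp
      mul_mem' := fun {u v} hu hv => by
        show A.image (fun w => (u * v) • w) = A
        conv_rhs => rw [← (hu : A.image (fun w => u • w) = A), ← (hv : A.image (fun w => v • w) = A),
          Finset.image_image]
        exact Finset.image_congr fun w _ => mul_smul u v w
      inv_mem' := fun {u} hu => by
        show A.image (fun w => u⁻¹ • w) = A
        conv_lhs => rw [← (hu : A.image (fun w => u • w) = A), Finset.image_image]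
        simp [Function.comp_def] }
  have himg : ∀ g : G, (∀ w ∈ A, g • w ∈ A) → g ∈ H := fun g hg =>
    Finset.eq_of_subset_of_card_le (Finset.image_subset_iff.2 hg)
      (by rw [Finset.card_image_of_injective _ (MulAction.injective g)])
  have htop : H = ⊤ := ((isCoatom_stabilizer_iff_preprimitive G x).2 inferInstance).2 H
    (lt_of_le_of_ne (fun g hg => himg g (hfix g hg)) fun e => hx (e ▸ himg h hh : h ∈ stabilizer G x))
  refine Finset.eq_univ_of_forall fun z => ?_
  obtain ⟨w, hw⟩ := hA
  obtain ⟨g, rfl⟩ := MulAction.exists_smul_eq G w z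
  have hg : g ∈ H := htop ▸ Subgroup.mem_top g
  exact (hg : A.image (fun w => g • w) = A) ▸ Finset.mem_image_of_mem _ hw

/-- The combinatorial bound when there are at least three orbitals. -/
theorem moved_of_uniprimitive [IsPreprimitive G Ω] (x₀ : Ω)
    (h3 : ∃ y y', y ≠ x₀ ∧ y' ≠ x₀ ∧ col G x₀ y ≠ col G x₀ y') (a b : Ω) (hab : a ≠ b) :
    Fintype.card Ω ≤ (2 * (dist' G a b).card + 1) ^ 2 := by
  classical
  have : Nontrivial Ω := ⟨⟨a, b, hab⟩⟩
  set n := Fintype.card Ω with hn
  set S := col G a b
  set d := (dist' G a b).card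
  set colours : Finset (orbitRel.Quotient G (Ω × Ω)) := Finset.univ.image (col G a)
  -- every pair of different points distinguishes itself in every orbital
  have hall : ∀ c ∈ colours, ∃ z, col G a z = c ∧ col G b z ≠ c := by
    intro c hc
    obtain ⟨z₀, -, hz₀⟩ := Finset.mem_image.1 hc
    by_contra hcon
    push Not at hcon
    have hsub : out c a ⊆ out c b := fun z hz => by
      simp only [out, Finset.mem_filter, Finset.mem_univ, true_and] at hz ⊢
      exact hcon z hz
    have heq : out c a = out c b := Finset.eq_of_subset_of_card_le hsub (card_out_eq c b a).le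
    obtain ⟨h, hh⟩ := MulAction.exists_smul_eq G a b
    have hu := stabilizer_set_univ (out c a) a ⟨z₀, by simp [out, hz₀]⟩
      (fun g hg w hw => by
        simp only [out, Finset.mem_filter, Finset.mem_univ, true_and] at hw ⊢
        rw [← hw, ← col_smul g a w, hg]) h (by rw [hh]; exact hab.symm)
      (fun w hw => by
        rw [heq]
        simp only [out, Finset.mem_filter, Finset.mem_univ, true_and] at hw ⊢
        rw [← hw, ← col_smul h a w, hh])
    have h1 : col G a a = c := by simpa [out] using (hu ▸ Finset.mem_univ a : a ∈ out c a)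
    have h2 : col G a b = c := by simpa [out] using (hu ▸ Finset.mem_univ b : b ∈ out c a)
    exact hab (col_diag.1 (h2.trans h1.symm))
  have hrank : colours.card ≤ d := by
    choose w hw1 hw2 using hall
    refine Finset.card_le_card_of_injOn (fun c => if hc : c ∈ colours then w c hc else a) ?_ ?_
    · intro c hc
      have hc' : c ∈ colours := hc
      simp only [dif_pos hc', Finset.mem_coe, dist', Finset.mem_filter, Finset.mem_univ, true_and]
      rw [hw1]; exact Ne.symm (hw2 c hc')
    · intro c hc c' hc' e
      have h1 : c ∈ colours := hc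
      have h2 : c' ∈ colours := hc'
      simp only [dif_pos h1, dif_pos h2] at e
      rw [← hw1 c h1, e, hw1 c' h2]
  -- connectedness
  have hconn : ∀ (S : orbitRel.Quotient G (Ω × Ω)) (u v : Ω), col G u v = S → u ≠ v →
      ∀ x y : Ω, ∃ i, Walk S i x y := by
    intro S u v hS huv x y
    obtain ⟨g, hg⟩ := MulAction.exists_smul_eq G u x
    set A := Finset.univ.filter fun w => ∃ i, Walk S i x w
    have h1 : Walk S 1 x (g • v) := ⟨x, rfl, by rw [← hS, ← hg, col_smul]⟩
    obtain ⟨h, hh⟩ := MulAction.exists_smul_eq G x (g • v)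
    have hu := stabilizer_set_univ A x ⟨x, by simp only [A, Finset.mem_filter, Finset.mem_univ, true_and]; exact ⟨0, rfl⟩⟩
      (fun k hk w hw => by
        simp only [A, Finset.mem_filter, Finset.mem_univ, true_and] at hw ⊢
        obtain ⟨i, hi⟩ := hw
        exact ⟨i, hk ▸ hi.smul k⟩) h
      (by rw [hh, ← hg]; exact fun e => huv ((MulAction.injective g) e).symm)
      (fun w hw => by
        simp only [A, Finset.mem_filter, Finset.mem_univ, true_and] at hw ⊢
        obtain ⟨i, hi⟩ := hw
        exact ⟨1 + i, h1.trans (hh ▸ hi.smul h)⟩)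
    simpa [A] using (hu ▸ Finset.mem_univ y : y ∈ A)
  -- distance
  have hex : ∀ y, ∃ i, Walk S i a y := fun y => hconn S a b rfl hab a y
  let L : Ω → ℕ := fun y => Nat.find (hex y)
  have hLspec : ∀ y, Walk S (L y) a y := fun y => Nat.find_spec (hex y)
  have hLmin : ∀ y i, Walk S i a y → L y ≤ i := fun y i h => Nat.find_min' (hex y) h
  have hLcol : ∀ y y', col G a y = col G a y' → L y = L y' := by
    intro y y' h
    obtain ⟨g, hga, hgy⟩ := exists_of_col_eq h
    refine le_antisymm (hLmin _ _ ?_) (hLmin _ _ ?_)
    · have := (hLspec y').smul g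
      rwa [hga, hgy] at this
    · have := (hLspec y).smul g⁻¹
      rwa [inv_smul_eq_iff.2 hga.symm, inv_smul_eq_iff.2 hgy.symm] at this
  have hlayer : ∀ y, ∀ j ≤ L y, ∃ w, L w = j ∧ Walk S (L y - j) w y := by
    intro y j hj
    obtain ⟨w, hw1, hw2⟩ := Walk.split (i := j) (j := L y - j)
      (by rw [Nat.add_sub_cancel' hj]; exact hLspec y)
    refine ⟨w, ?_, hw2⟩
    have h1 := hLmin w j hw1
    have h2 := hLmin y _ ((hLspec w).trans hw2)
    omega
  have hLd : ∀ y, L y + 1 ≤ d := by
    intro y
    refine le_trans ?_ hrank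
    have hw : ∀ j : Fin (L y + 1), ∃ w, L w = j.1 := fun j =>
      let ⟨w, hw, _⟩ := hlayer y j.1 (by omega); ⟨w, hw⟩
    choose w hw using hw
    rw [← Fintype.card_fin (L y + 1), ← Finset.card_univ]
    refine Finset.card_le_card_of_injOn (fun j => col G a (w j)) (fun j _ => Finset.mem_image_of_mem _ (Finset.mem_univ _)) ?_
    intro i _ j _ e
    have := hLcol _ _ e
    rw [hw, hw] at this
    exact Fin.ext this
  -- largest orbital
  obtain ⟨t, ht, hmax⟩ := Finset.exists_max_image (Finset.univ.erase a) (fun y => (out (col G a y) a).card)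
    ⟨b, Finset.mem_erase.2 ⟨hab.symm, Finset.mem_univ b⟩⟩
  have hta : t ≠ a := (Finset.mem_erase.1 ht).1
  set T := col G a t
  set nT := (out T a).card
  set X : Ω → Finset Ω := fun u => Finset.univ.filter fun w => w ≠ u ∧ col G u w ≠ T
  have hk : ∀ u, (X u).card + nT + 1 = n := by
    intro u
    have h1 : X u = (Finset.univ.erase u) \ out T u := by ext w; simp [X, out]
    have h2 : out T u ⊆ Finset.univ.erase u := fun w hw => by
      simp only [out, Finset.mem_filter, Finset.mem_univ, true_and] at hw
      refine Finset.mem_erase.2 ⟨fun e => ?_, Finset.mem_univ w⟩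
      subst e
      exact hta (col_diag.1 hw.symm).symm
    have h3 : (out T u).card = nT := card_out_eq T u a
    have h4 := Finset.card_le_card h2
    rw [h1, Finset.card_sdiff_of_subset h2, Finset.card_erase_of_mem (Finset.mem_univ u),
      Finset.card_univ] at *
    have : 0 < n := Fintype.card_pos
    omega
  set k := (X a).card
  have hka : k + nT + 1 = n := hk a
  have hnT : 1 ≤ nT := Finset.card_pos.2 ⟨t, by simp [out, T]⟩
  -- some pair is distinguished by more than k points
  obtain ⟨y₁, hy₁⟩ : ∃ y, k + 1 ≤ (dist' G a y).card := by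
    by_contra hc
    push Not at hc
    have h1 : ∑ y, (dist' G a y).card = ∑ z, (Finset.univ.filter fun y => col G a z ≠ col G y z).card := by
      have := Finset.sum_card_bipartiteAbove_eq_sum_card_bipartiteBelow
        (fun y z : Ω => col G a z ≠ col G y z) (s := Finset.univ) (t := Finset.univ)
      simpa [Finset.bipartiteAbove, Finset.bipartiteBelow, dist'] using this
    have h2 : ∀ z, k + 1 ≤ (Finset.univ.filter fun y => col G a z ≠ col G y z).card := by
      intro z
      have h3 : (Finset.univ.filter fun y => col G a z ≠ col G y z)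
          = Finset.univ \ (Finset.univ.filter fun y => col G y z = col G a z) := by
        ext y; simp [eq_comm]
      rw [h3, Finset.card_sdiff_of_subset (Finset.subset_univ _), Finset.card_univ, card_in_eq,
        card_out_eq _ z a]
      by_cases hz : z = a
      · subst hz
        have : out (col G z z) z = {z} := by
          ext w; simp only [out, Finset.mem_filter, Finset.mem_univ, true_and, Finset.mem_singleton]
          exact col_diag.trans eq_comm
        rw [this, Finset.card_singleton]; omega
      · have := hmax z (Finset.mem_erase.2 ⟨hz, Finset.mem_univ z⟩)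
        omega
    have h4 : n * (k + 1) ≤ ∑ y, (dist' G a y).card := by
      rw [h1]
      refine le_trans (le_of_eq ?_) (Finset.sum_le_sum fun z _ => h2 z)
      simp [hn]
    have h5 : ∑ y, (dist' G a y).card < ∑ _y : Ω, (k + 1) :=
      Finset.sum_lt_sum_of_nonempty Finset.univ_nonempty fun y _ => hc y
    rw [Finset.sum_const, Finset.card_univ, smul_eq_mul, ← hn] at h5
    omega
  have hsq : k + 1 ≤ d * d := by
    refine hy₁.trans ((dist'_walk (a := a) (b := b) rfl _ _ _ (hLspec y₁)).trans ?_)
    have := hLd y₁
    exact Nat.mul_le_mul_right d (by omega)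
  by_cases hbig : n < 4 * (k + 1)
  · nlinarith
  push Not at hbig
  have hnT' : 3 * n ≤ 4 * nT := by omega
  -- common neighbours
  set μ := (X a ∩ X t).card
  have hμconst : ∀ y ∈ out T a, (X a ∩ X y).card = μ := by
    intro y hy
    simp only [out, Finset.mem_filter, Finset.mem_univ, true_and] at hy
    obtain ⟨g, hga, hgy⟩ := exists_of_col_eq hy
    have hX : ∀ u w, w ∈ X u → g • w ∈ X (g • u) := by
      intro u w hw
      simp only [X, Finset.mem_filter, Finset.mem_univ, true_and] at hw ⊢
      exact ⟨fun e => hw.1 (MulAction.injective g e), by rw [col_smul]; exact hw.2⟩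
    have hX' : ∀ u w, w ∈ X (g • u) → g⁻¹ • w ∈ X u := by
      intro u w hw
      simp only [X, Finset.mem_filter, Finset.mem_univ, true_and] at hw ⊢
      exact ⟨fun e => hw.1 (by rw [← e, smul_inv_smul]), by rw [← col_smul g, smul_inv_smul]; exact hw.2⟩
    refine Finset.card_nbij' (fun w => g⁻¹ • w) (fun w => g • w) ?_ ?_ ?_ ?_
    · intro w hw
      obtain ⟨h1, h2⟩ := Finset.mem_inter.1 hw
      exact Finset.mem_inter.2 ⟨hX' a w (hga.symm ▸ h1), hX' t w (hgy.symm ▸ h2)⟩
    · intro w hw
      obtain ⟨h1, h2⟩ := Finset.mem_inter.1 hw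
      exact Finset.mem_inter.2 ⟨hga ▸ hX a w h1, hgy ▸ hX t w h2⟩
    · intro w _; simp
    · intro w _; simp
  have hμ : nT * μ ≤ k * k := by
    calc nT * μ = ∑ y ∈ out T a, (X a ∩ X y).card := by
          rw [Finset.sum_congr rfl hμconst, Finset.sum_const, smul_eq_mul]
      _ = ∑ w ∈ X a, ((out T a).filter fun y => w ∈ X y).card := by
          have := Finset.sum_card_bipartiteAbove_eq_sum_card_bipartiteBelow
            (fun (y w : Ω) => w ∈ X y) (s := out T a) (t := X a)
          simp only [Finset.bipartiteAbove, Finset.bipartiteBelow] at this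
          rw [← this]
          exact Finset.sum_congr rfl fun y _ => by rw [Finset.filter_mem_eq_inter]
      _ ≤ ∑ w ∈ X a, k := by
          refine Finset.sum_le_sum fun w _ => ?_
          refine le_trans (Finset.card_le_card (Finset.filter_subset_filter _ (Finset.subset_univ _))) ?_
          have h1 : (Finset.univ.filter fun y => w ∈ X y)
              = (Finset.univ.erase w) \ (Finset.univ.filter fun y => col G y w = T) := by
            ext y; simp [X, ne_comm]
          have h2 : (Finset.univ.filter fun y => col G y w = T) ⊆ Finset.univ.erase w := fun y hy => by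
            refine Finset.mem_erase.2 ⟨fun e => ?_, Finset.mem_univ y⟩
            subst e
            exact hta (col_diag.1 (Finset.mem_filter.1 hy).2.symm).symm
          rw [h1, Finset.card_sdiff_of_subset h2, card_in_eq, Finset.card_erase_of_mem (Finset.mem_univ w),
            Finset.card_univ, card_out_eq T w a]
          omega
      _ = k * k := by rw [Finset.sum_const, smul_eq_mul]
  have hdT : 2 * k ≤ (dist' G a t).card + 2 * μ := by
    have hsub : (X a \ X t) ∪ (X t \ X a) ⊆ dist' G a t := by
      intro w hw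
      simp only [X, dist', Finset.mem_union, Finset.mem_sdiff, Finset.mem_filter, Finset.mem_univ, true_and,
        not_and, not_not] at hw ⊢
      intro e
      rcases hw with ⟨⟨h1, h2⟩, h3⟩ | ⟨⟨h1, h2⟩, h3⟩
      · by_cases hwt : w = t
        · subst hwt; exact h2 rfl
        · exact h2 (e.trans (h3 hwt))
      · by_cases hwa : w = a
        · subst hwa
          exact h1 (col_diag.1 e.symm).symm
        · exact h2 (e.symm.trans (h3 hwa))
    have hd := Finset.card_le_card hsub
    rw [Finset.card_union_of_disjoint (by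
      rw [Finset.disjoint_left]
      intro w hw hw'
      exact (Finset.mem_sdiff.1 hw).2 (Finset.mem_sdiff.1 hw').1)] at hd
    have h1 := Finset.card_sdiff_add_card_inter (X a) (X t)
    have h2 := Finset.card_sdiff_add_card_inter (X t) (X a)
    rw [Finset.inter_comm (X t) (X a)] at h2
    have h3 := hk t
    omega
  have hdTk : 4 * k ≤ 3 * (dist' G a t).card := by nlinarith
  -- the layers
  have hlayers : ∀ (S' : orbitRel.Quotient G (Ω × Ω)) (M : Ω → ℕ),
      (∀ y, Walk S' (M y) a y) → (∀ y i, Walk S' i a y → M y ≤ i) →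
      (∀ y y', col G a y = col G a y' → M y = M y') →
      (M t - 1) * (M t - 1) * nT ≤ k * k := by
    intro S' M hM hMmin hMcol
    set Lt := M t
    let lay : ℕ → Finset Ω := fun j => Finset.univ.filter fun w => M w = j
    have hprod : ∀ j ∈ Finset.Icc 1 (Lt - 1), nT ≤ (lay j).card * (lay (Lt - j)).card := by
      intro j hj
      have hj' := Finset.mem_Icc.1 hj
      choose gm hgm using fun u : Ω => MulAction.exists_smul_eq G a u
      have hcover : out T a ⊆ (lay j).biUnion fun u => (lay (Lt - j)).image fun v => gm u • v := by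
        intro z hz
        simp only [out, Finset.mem_filter, Finset.mem_univ, true_and] at hz
        have hLz : M z = Lt := hMcol z t hz
        obtain ⟨w, hw1, hw2⟩ := Walk.split (S := S') (i := j) (j := Lt - j)
          (by rw [Nat.add_sub_cancel' (by omega), ← hLz]; exact hM z)
        have e1 : M w ≤ j := hMmin w j hw1
        have e2 := hMmin z _ ((hM w).trans hw2)
        have hw2' : Walk S' (Lt - j) a ((gm w)⁻¹ • z) := by
          have := hw2.smul (gm w)⁻¹
          rwa [inv_smul_eq_iff.2 (hgm w).symm] at this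
        have e3 := hMmin _ _ hw2'
        have e4 := hMmin z _ ((hM w).trans (show Walk S' (M ((gm w)⁻¹ • z)) w z by
          have := (hM ((gm w)⁻¹ • z)).smul (gm w)
          rwa [hgm, smul_inv_smul] at this))
        refine Finset.mem_biUnion.2 ⟨w, ?_, Finset.mem_image.2 ⟨(gm w)⁻¹ • z, ?_, smul_inv_smul _ _⟩⟩
        · simp only [lay, Finset.mem_filter, Finset.mem_univ, true_and]; omega
        · simp only [lay, Finset.mem_filter, Finset.mem_univ, true_and]; omega
      refine le_trans (Finset.card_le_card hcover) (le_trans Finset.card_biUnion_le ?_)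
      exact le_trans (Finset.sum_le_sum fun u _ => Finset.card_image_le) (by simp)
    have hsum : ∑ j ∈ Finset.Icc 1 (Lt - 1), (lay j).card ≤ k := by
      rw [← Finset.card_biUnion (fun i _ j _ hij => by
        rw [Function.onFun, Finset.disjoint_left]
        intro w hw hw'
        simp only [lay, Finset.mem_filter, Finset.mem_univ, true_and] at hw hw'
        omega)]
      refine Finset.card_le_card fun w hw => ?_
      obtain ⟨j, hj, hwj⟩ := Finset.mem_biUnion.1 hw
      simp only [lay, X, Finset.mem_filter, Finset.mem_univ, true_and] at hwj ⊢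
      have hj' := Finset.mem_Icc.1 hj
      refine ⟨fun e => ?_, fun e => ?_⟩
      · subst e
        have := hMmin w 0 rfl
        omega
      · have := hMcol w t e
        omega
    have hrefl : ∑ j ∈ Finset.Icc 1 (Lt - 1), (lay (Lt - j)).card = ∑ j ∈ Finset.Icc 1 (Lt - 1), (lay j).card := by
      refine Finset.sum_nbij' (fun j => Lt - j) (fun j => Lt - j) ?_ ?_ ?_ ?_ ?_
      all_goals intro j hj
      all_goals simp only [Finset.coe_Icc, Set.mem_Icc, Finset.mem_Icc] at hj ⊢
      all_goals omega
    set s := fun j => (lay j).card + (lay (Lt - j)).card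
    have hs : ∑ j ∈ Finset.Icc 1 (Lt - 1), s j ≤ 2 * k := by
      simp only [s, Finset.sum_add_distrib, hrefl]; omega
    have hsq2 : (Lt - 1) * (Lt - 1) * (4 * nT) ≤ (∑ j ∈ Finset.Icc 1 (Lt - 1), s j) * (∑ j ∈ Finset.Icc 1 (Lt - 1), s j) := by
      rw [Finset.sum_mul_sum]
      refine le_trans (le_of_eq ?_) (Finset.sum_le_sum fun i hi => Finset.sum_le_sum fun j hj =>
        (?_ : 4 * nT ≤ s i * s j))
      · simp [Finset.sum_const, mul_assoc]
      · have hi' := hprod i hi
        have hj' := hprod j hj
        have h1 : 4 * nT ≤ s i * s i := by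
          simp only [s]
          nlinarith [four_mul_le_sq_add (lay i).card (lay (Lt - i)).card]
        have h2 : 4 * nT ≤ s j * s j := by
          simp only [s]
          nlinarith [four_mul_le_sq_add (lay j).card (lay (Lt - j)).card]
        by_contra hc
        push Not at hc
        have := Nat.mul_lt_mul'' hc hc
        have h3 := Nat.mul_le_mul h1 h2
        nlinarith
    have := hsq2.trans (Nat.mul_le_mul hs hs)
    nlinarith
  have hwalk : (dist' G a t).card ≤ L t * d := dist'_walk (a := a) (b := b) rfl _ _ _ (hLspec t)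
  by_cases hL2 : 2 ≤ L t
  · have hl := hlayers S L hLspec hLmin hLcol
    obtain ⟨l, hl'⟩ : ∃ l, L t = l + 2 := ⟨L t - 2, by omega⟩
    rw [hl'] at hl hwalk
    simp only [show l + 2 - 1 = l + 1 by omega] at hl
    have h1 : (4 * k) * (4 * k) ≤ (3 * ((l + 2) * d)) * (3 * ((l + 2) * d)) :=
      Nat.mul_le_mul (by omega) (by omega)
    have h2 : (l + 2) * (l + 2) ≤ 4 * ((l + 1) * (l + 1)) := by nlinarith
    have h3 : (l + 1) * (l + 1) * (12 * n) ≤ 9 * ((l + 2) * (l + 2) * (d * d)) := by nlinarith
    have h4 : (l + 1) * (l + 1) * (12 * n) ≤ (l + 1) * (l + 1) * (36 * (d * d)) := by nlinarith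
    have h5 := Nat.le_of_mul_le_mul_left h4 (Nat.mul_pos (Nat.succ_pos l) (Nat.succ_pos l))
    nlinarith
  · -- S is the largest orbital
    have hd : 4 * k ≤ 3 * d := by
      have : L t * d ≤ 1 * d := Nat.mul_le_mul_right d (by omega)
      omega
    obtain ⟨y', hy'a, hy'T⟩ : ∃ y', y' ≠ a ∧ col G a y' ≠ T := by
      by_contra hc
      push Not at hc
      obtain ⟨u, u', hu, hu', hne⟩ := h3
      obtain ⟨g, hg⟩ := MulAction.exists_smul_eq G x₀ a
      apply hne
      rw [← col_smul g x₀ u, ← col_smul g x₀ u', hg,
        hc _ (fun e => hu (MulAction.injective g (e.trans hg.symm))),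
        hc _ (fun e => hu' (MulAction.injective g (e.trans hg.symm)))]
    have hex' : ∀ y, ∃ i, Walk (col G a y') i a y := fun y => hconn _ a y' rfl hy'a.symm a y
    have hl := hlayers (col G a y') (fun y => Nat.find (hex' y)) (fun y => Nat.find_spec (hex' y))
      (fun y i h => Nat.find_min' (hex' y) h) (by
        intro y y'' h
        obtain ⟨g, hga, hgy⟩ := exists_of_col_eq h
        refine le_antisymm (Nat.find_min' _ ?_) (Nat.find_min' _ ?_)
        · have := (Nat.find_spec (hex' y'')).smul g
          rwa [hga, hgy] at this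
        · have := (Nat.find_spec (hex' y)).smul g⁻¹
          rwa [inv_smul_eq_iff.2 hga.symm, inv_smul_eq_iff.2 hgy.symm] at this)
    have hM2 : 2 ≤ Nat.find (hex' t) := by
      by_contra hc
      push Not at hc
      have hs := Nat.find_spec (hex' t)
      interval_cases hh : Nat.find (hex' t)
      · exact hta (hs : a = t).symm
      · obtain ⟨z, hz, hzt⟩ := hs
        cases hz
        exact hy'T hzt.symm
    have h1 : nT ≤ k * k := le_trans (Nat.le_mul_of_pos_left _ (Nat.mul_pos (by omega) (by omega))) hl
    nlinarith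

/-- The minimal degree bound. -/
theorem moved_bound [IsPreprimitive G Ω] (hA : ¬ alternatingGroup Ω ≤ (toPermHom G Ω).range)
    (g : G) (hg : g ≠ 1) : Fintype.card Ω ≤ (2 * (Finset.univ.filter fun x : Ω => g • x ≠ x).card + 1) ^ 2 := by
  classical
  obtain ⟨a, ha⟩ : ∃ a, g • a ≠ a := by
    by_contra hc
    push Not at hc
    exact hg (FaithfulSMul.eq_of_smul_eq_smul (α := Ω) fun x => by rw [hc, one_smul])
  by_cases h3 : ∃ y y', y ≠ a ∧ y' ≠ a ∧ col G a y ≠ col G a y'
  · refine (moved_of_uniprimitive (G := G) a h3 a (g • a) (Ne.symm ha)).trans ?_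
    refine Nat.pow_le_pow_left (Nat.succ_le_succ (Nat.mul_le_mul_left 2 (Finset.card_le_card fun z hz => ?_))) 2
    simp only [dist', Finset.mem_filter, Finset.mem_univ, true_and] at hz ⊢
    intro e
    apply hz
    rw [← col_smul g a z, e]
  · push Not at h3
    refine moved_of_two_transitive (fun u v v' hv hv' => ?_) hA g hg
    obtain ⟨k, hk⟩ := MulAction.exists_smul_eq G u a
    have e := h3 (k • v) (k • v') (fun e => hv (MulAction.injective k (e.trans hk.symm)))
      (fun e => hv' (MulAction.injective k (e.trans hk.symm)))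
    rw [← hk, col_smul, col_smul] at e
    obtain ⟨h, h1, h2⟩ := exists_of_col_eq e.symm
    exact ⟨h, h1, h2⟩

end CfsgLib.PermMinDeg
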