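import Cfsg.Agent.Perm57.Bochert
import Mathlib.GroupTheory.SpecificGroups.Alternating

/-!
The classes of points linked by the 3-cycles of a permutation group: two linked classes are equal or
disjoint, and the group contains the alternating group on each of them.
-/

set_option autoImplicit false

namespace CfsgLib.ThreeCycleClasses

open Equiv Equiv.Perm

variable {α : Type*} [Fintype α] [DecidableEq α] {H : Subgroup (Perm α)}

/-- The set `u` is the support of a 3-cycle lying in `H`. -/
def Has3 (H : Subgroup (Perm α)) (u : Finset α) : Prop :=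
  ∃ c ∈ H, c.IsThreeCycle ∧ c.support = u

/-- All the 3-element subsets of `s` are supports of 3-cycles in `H`. -/
def Full (H : Subgroup (Perm α)) (s : Finset α) : Prop :=
  3 ≤ s.card ∧ ∀ u ⊆ s, u.card = 3 → Has3 H u

/-- A maximal full set. -/
def IsClass (H : Subgroup (Perm α)) (s : Finset α) : Prop :=
  Full H s ∧ ∀ t, Full H t → s ⊆ t → t = s

theorem Has3.card {u : Finset α} (h : Has3 H u) : u.card = 3 := by
  obtain ⟨c, -, hc, rfl⟩ := h
  exact hc.card_support

theorem eq_or_eq_inv {c d : Perm α} (hc : c.IsThreeCycle) (hd : d.IsThreeCycle)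
    (h : d.support = c.support) : d = c ∨ d = c⁻¹ := by
  obtain ⟨a, ha⟩ := Finset.card_pos.mp (show 0 < c.support.card by rw [hc.card_support]; omega)
  have hs := hc.support_eq_iff_mem_support.mpr ha
  have hnd := hc.nodup_iff_mem_support.mpr ha
  have hnd' := hd.nodup_iff_mem_support.mpr (h ▸ ha)
  have had : d a ∈ c.support := h ▸ apply_mem_support.mpr (h ▸ ha)
  have hdd : d (d a) ∈ c.support := h ▸ apply_mem_support.mpr (apply_mem_support.mpr (h ▸ ha))
  rw [hs] at had hdd
  simp only [Finset.mem_insert, Finset.mem_singleton] at had hdd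
  simp only [List.nodup_cons, List.mem_cons, List.not_mem_nil, List.nodup_nil, not_or,
    or_false, and_true, not_false_eq_true] at hnd hnd'
  have e1 := hd.eq_swap_mul_swap_iff_mem_support.mpr (h ▸ ha)
  have hic : c⁻¹ a = c (c a) := by
    rw [inv_eq_iff_eq]
    have : (c ^ 3) a = a := by simp [← hc.orderOf]
    simpa [pow_succ] using this.symm
  have hiic : c⁻¹ (c⁻¹ a) = c a := by
    rw [hic, inv_eq_iff_eq]
  have ha' : a ∈ c⁻¹.support := by rwa [support_inv]
  have e3 := hc.inv.eq_swap_mul_swap_iff_mem_support.mpr ha'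
  rcases had with h1 | h1 | h1
  · exact absurd h1.symm hnd'.1.1
  · left
    have h2 : d (d a) = c (c a) := by
      rcases hdd with h2 | h2 | h2
      · exact absurd h2.symm hnd'.1.2
      · exact absurd (h2.trans h1.symm).symm hnd'.2
      · exact h2
    rw [h1] at h2 e1
    rw [e1, h2, ← hc.eq_swap_mul_swap_iff_mem_support.mpr ha]
  · right
    have h2 : d (d a) = c a := by
      rcases hdd with h2 | h2 | h2
      · exact absurd h2.symm hnd'.1.2
      · exact h2
      · exact absurd (h2.trans h1.symm).symm hnd'.2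
    rw [e1, h2, h1, e3, hic, ← hic, hiic]

theorem Has3.mem {u : Finset α} (h : Has3 H u) {d : Perm α} (hd : d.IsThreeCycle)
    (hu : d.support = u) : d ∈ H := by
  obtain ⟨c, hcH, hc, hcu⟩ := h
  rcases eq_or_eq_inv hc hd (hu.trans hcu.symm) with rfl | rfl
  exacts [hcH, inv_mem hcH]

theorem Has3.exists_apply_eq {u : Finset α} (h : Has3 H u) {a x : α} (ha : a ∈ u) (hx : x ∈ u)
    (hne : x ≠ a) : ∃ c ∈ H, c.IsThreeCycle ∧ c.support = u ∧ c a = x := by
  obtain ⟨c, hcH, hc, rfl⟩ := h
  have hs := hc.support_eq_iff_mem_support.mpr ha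
  rw [hs] at hx
  simp only [Finset.mem_insert, Finset.mem_singleton] at hx
  rcases hx with rfl | rfl | rfl
  · exact absurd rfl hne
  · exact ⟨c, hcH, hc, rfl, rfl⟩
  · refine ⟨c⁻¹, inv_mem hcH, hc.inv, support_inv c, ?_⟩
    rw [inv_eq_iff_eq]
    have : (c ^ 3) a = a := by simp [← hc.orderOf]
    simpa [pow_succ] using this.symm

theorem Has3.image {u : Finset α} (h : Has3 H u) {g : Perm α} (hg : g ∈ H) :
    Has3 H (u.image g) := by
  obtain ⟨c, hcH, hc, rfl⟩ := h
  refine ⟨g * c * g⁻¹, mul_mem (mul_mem hg hcH) (inv_mem hg), ?_, ?_⟩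
  · show (g * c * g⁻¹).cycleType = {3}
    rw [cycleType_conj]; exact hc
  · rw [support_conj, Finset.map_eq_image]; rfl

/-- Two 3-cycles whose supports meet in one point. -/
theorem Has3.meet {u v : Finset α} (hu : Has3 H u) (hv : Has3 H v) {a x y : α} (ha : a ∈ u)
    (ha' : a ∈ v) (hinter : ∀ z, z ∈ u → z ∈ v → z = a) (hx : x ∈ u) (hxa : x ≠ a) (hy : y ∈ v)
    (hya : y ≠ a) : Has3 H {a, x, y} := by
  obtain ⟨c, hcH, hc, rfl, hca⟩ := hu.exists_apply_eq ha hx hxa
  obtain ⟨d, hdH, hd, rfl, hda⟩ := hv.exists_apply_eq ha' hy hya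
  have hfixd : ∀ z, z ∈ c.support → z ≠ a → d z = z := fun z h1 h2 =>
    notMem_support.mp fun h3 => h2 (hinter z h1 h3)
  have hfixc : ∀ z, z ∈ d.support → z ≠ a → c z = z := fun z h1 h2 =>
    notMem_support.mp fun h3 => h2 (hinter z h3 h1)
  have h3 := Perm57.isThreeCycle_comm_of_meet_one c d c.support a ha
    (fun z hz => notMem_support.mp hz)
    (fun z hz => hfixd z (Finset.mem_of_mem_erase hz) (Finset.ne_of_mem_erase hz))
    (by rw [hca]; exact hxa) (by rw [hda]; exact hya)
  refine ⟨_, mul_mem (mul_mem (mul_mem hcH hdH) (inv_mem hcH)) (inv_mem hdH), h3, ?_⟩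
  symm
  refine Finset.eq_of_subset_of_card_le ?_ ?_
  · have hxy : x ≠ y := fun h => hxa (hinter x hx (h ▸ hy))
    have e1 : d⁻¹ a ∈ d.support := by rw [← support_inv]; exact apply_mem_support.mpr (by rwa [support_inv])
    have e1' : d⁻¹ a ≠ a := by
      rw [Ne, inv_eq_iff_eq, hda]; exact hya.symm
    have f1 : c⁻¹ (d⁻¹ a) = d⁻¹ a := inv_eq_iff_eq.mpr (hfixc _ e1 e1').symm
    have e2 : c⁻¹ a ∈ c.support := by rw [← support_inv]; exact apply_mem_support.mpr (by rwa [support_inv])
    have e2' : c⁻¹ a ≠ a := by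
      rw [Ne, inv_eq_iff_eq, hca]; exact hxa.symm
    have f2 : d (c⁻¹ a) = c⁻¹ a := hfixd _ e2 e2'
    have f3 : d⁻¹ x = x := inv_eq_iff_eq.mpr (hfixd x hx hxa).symm
    have f4 : c⁻¹ x = a := inv_eq_iff_eq.mpr hca.symm
    have f5 : d⁻¹ y = a := inv_eq_iff_eq.mpr hda.symm
    simp only [Finset.insert_subset_iff, Finset.singleton_subset_iff, mem_support, Perm.mul_apply,
      f1, f3, f4, f5, hda, hfixc y hy hya, f2]
    refine ⟨?_, Ne.symm hxy, ?_⟩
    · simpa [hca] using hxa
    · simpa using Ne.symm hya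
  · rw [h3.card_support, Finset.card_insert_of_notMem, Finset.card_pair]
    · exact fun h => hxa (hinter x hx (h ▸ hy))
    · simp [hxa.symm, hya.symm]

theorem Full.has3 {s : Finset α} (h : Full H s) {a b c : α} (ha : a ∈ s) (hb : b ∈ s) (hc : c ∈ s)
    (hab : a ≠ b) (hac : a ≠ c) (hbc : b ≠ c) : Has3 H {a, b, c} :=
  h.2 _ (by simp [Finset.insert_subset_iff, ha, hb, hc])
    (Finset.card_eq_three.mpr ⟨a, b, c, hab, hac, hbc, rfl⟩)

theorem full_of_has3 {u : Finset α} (h : Has3 H u) : Full H u :=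
  ⟨h.card.ge, fun w hw hc => (Finset.eq_of_subset_of_card_le hw (by rw [h.card, hc])).symm ▸ h⟩

theorem Full.extend {s v : Finset α} (hs : Full H s) (hv : Has3 H v) {a y : α} (ha : a ∈ v)
    (has : a ∈ s) (hy : y ∈ v) (hys : y ∉ s) : Full H (insert y s) := by
  have hay : a ≠ y := fun h => hys (h ▸ has)
  have hP0 : ∃ p q, p ∈ s ∧ q ∈ s ∧ p ≠ q ∧ Has3 H {p, q, y} := by
    obtain ⟨z, hz, hza, hzy⟩ : ∃ z ∈ v, z ≠ a ∧ z ≠ y := by
      obtain ⟨z, hz⟩ := Finset.card_pos.mp (show 0 < (v \ {a, y}).card by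
        have := Finset.le_card_sdiff {a, y} v
        rw [hv.card, Finset.card_pair hay] at this
        omega)
      simp only [Finset.mem_sdiff, Finset.mem_insert, Finset.mem_singleton, not_or] at hz
      exact ⟨z, hz.1, hz.2.1, hz.2.2⟩
    have hveq : v = {a, z, y} := (Finset.eq_of_subset_of_card_le
      (by simp [Finset.insert_subset_iff, ha, hy, hz])
      (by rw [hv.card, Finset.card_eq_three.mpr ⟨a, z, y, hza.symm, hay, hzy, rfl⟩])).symm
    by_cases hzs : z ∈ s
    · exact ⟨a, z, has, hzs, hza.symm, hveq ▸ hv⟩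
    obtain ⟨x, hx, x', hx', hxx'⟩ := Finset.one_lt_card.mp
      (show 1 < (s.erase a).card by rw [Finset.card_erase_of_mem has]; have := hs.1; omega)
    rw [Finset.mem_erase] at hx hx'
    refine ⟨a, x, has, hx.2, hx.1.symm,
      (hs.has3 has hx.2 hx'.2 hx.1.symm hx'.1.symm hxx').meet hv (by simp) ha ?_ (by simp) hx.1 hy
        hay.symm⟩
    intro w hw hw'
    simp only [hveq, Finset.mem_insert, Finset.mem_singleton] at hw hw'
    rcases hw' with rfl | rfl | rfl
    · rfl
    · rcases hw with h | h | h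
      exacts [h, absurd (h ▸ hx.2) hzs, absurd (h ▸ hx'.2) hzs]
    · rcases hw with h | h | h
      exacts [h, absurd (h ▸ hx.2) hys, absurd (h ▸ hx'.2) hys]
  have step : ∀ p q r, p ∈ s → q ∈ s → r ∈ s → p ≠ q → r ≠ p → r ≠ q →
      Has3 H {p, q, y} → Has3 H {p, r, y} := by
    intro p q r hp hq hr hpq hrp hrq h
    obtain ⟨g, hgH, hg, hgs, hgp⟩ :=
      (hs.has3 hp hq hr hpq hrp.symm hrq.symm).exists_apply_eq (a := p) (x := r) (by simp) (by simp) hrp
    have hgy : g y = y := notMem_support.mp fun hmem => by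
      rw [hgs] at hmem
      simp only [Finset.mem_insert, Finset.mem_singleton] at hmem
      rcases hmem with e | e | e
      exacts [hys (e ▸ hp), hys (e ▸ hq), hys (e ▸ hr)]
    have hgs' := hg.support_eq_iff_mem_support.mpr (show p ∈ g.support by simp [hgs])
    have hnd := hg.nodup_iff_mem_support.mpr (show p ∈ g.support by simp [hgs])
    have hcube : g (g (g p)) = p := by
      have : (g ^ 3) p = p := by simp [← hg.orderOf]
      simpa [pow_succ] using this
    have hgr : g r = q := by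
      have h1 : g r ∈ ({p, q, r} : Finset α) := by
        rw [← hgs]; exact apply_mem_support.mpr (by simp [hgs])
      simp only [Finset.mem_insert, Finset.mem_singleton] at h1
      rcases h1 with h1 | h1 | h1
      · rw [hgp, h1] at hcube
        simp [hgp, hrp] at hcube
      · exact h1
      · exact absurd h1 (fun h1 => mem_support.mp (show r ∈ g.support by simp [hgs]) h1)
    have hgq : g q = p := by
      rw [hgp, hgr] at hcube
      exact hcube
    have h2 := h.image hgH
    simp only [Finset.image_insert, Finset.image_singleton, hgp, hgq, hgy] at h2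
    rwa [Finset.insert_comm p r]
  have hall : ∀ p q, p ∈ s → q ∈ s → p ≠ q → Has3 H {p, q, y} := by
    obtain ⟨p₀, q₀, hp₀, hq₀, hne, h₀⟩ := hP0
    intro p q hp hq hpq
    obtain ⟨t, ht, htp, h1⟩ : ∃ t, t ∈ s ∧ t ≠ p ∧ Has3 H {p, t, y} := by
      by_cases e1 : p = p₀
      · subst e1; exact ⟨q₀, hq₀, hne.symm, h₀⟩
      by_cases e2 : p = q₀
      · subst e2; exact ⟨p₀, hp₀, hne, by rwa [Finset.insert_comm]⟩
      exact ⟨p₀, hp₀, Ne.symm e1, by
        rw [Finset.insert_comm]
        exact step p₀ q₀ p hp₀ hq₀ hp hne e1 e2 h₀⟩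
    by_cases e : q = t
    · subst e; exact h1
    exact step p t q hp ht hq htp.symm hpq.symm e h1
  refine ⟨hs.1.trans (Finset.card_le_card (Finset.subset_insert _ _)), fun u hu hu3 => ?_⟩
  by_cases hyu : y ∈ u
  · obtain ⟨p, q, hpq, hpq'⟩ := Finset.card_eq_two.mp
      (show (u.erase y).card = 2 by rw [Finset.card_erase_of_mem hyu, hu3])
    have hmem : ∀ w ∈ u.erase y, w ∈ s := fun w hw =>
      Finset.mem_of_mem_insert_of_ne (hu (Finset.mem_of_mem_erase hw)) (Finset.ne_of_mem_erase hw)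
    have hp : p ∈ s := hmem p (by simp [hpq'])
    have hq : q ∈ s := hmem q (by simp [hpq'])
    have : u = {p, q, y} := by
      rw [← Finset.insert_erase hyu, hpq']
      ext; simp; tauto
    rw [this]
    exact hall p q hp hq hpq
  · exact hs.2 u ((Finset.subset_insert_iff_of_notMem hyu).mp hu) hu3

theorem exists_class {u : Finset α} (h : Has3 H u) : ∃ C, IsClass H C ∧ u ⊆ C := by
  classical
  obtain ⟨C, hC, hmax⟩ := Finset.exists_max_image
    (Finset.univ.filter fun t : Finset α => Full H t ∧ u ⊆ t) Finset.card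
    ⟨u, by simp [full_of_has3 h]⟩
  simp only [Finset.mem_filter, Finset.mem_univ, true_and] at hC hmax
  exact ⟨C, ⟨hC.1, fun t ht hCt => (Finset.eq_of_subset_of_card_le hCt
    (hmax t ⟨ht, hC.2.trans hCt⟩)).symm⟩, hC.2⟩

theorem IsClass.subset_of_meet {C v : Finset α} (hC : IsClass H C) (hv : Has3 H v) {a : α}
    (ha : a ∈ v) (haC : a ∈ C) : v ⊆ C := by
  intro y hy
  by_contra hyC
  exact hyC (hC.2 _ (hC.1.extend hv ha haC hy hyC) (Finset.subset_insert _ _) ▸ Finset.mem_insert_self y C)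

theorem IsClass.eq_of_meet {C D : Finset α} (hC : IsClass H C) (hD : IsClass H D) {a : α}
    (haC : a ∈ C) (haD : a ∈ D) : D = C := by
  symm
  refine hD.2 C hC.1 fun z hz => ?_
  by_cases hza : z = a
  · exact hza ▸ haC
  obtain ⟨w, hw, hwa, hwz⟩ : ∃ w ∈ D, w ≠ a ∧ w ≠ z := by
    obtain ⟨w, hw⟩ := Finset.card_pos.mp (show 0 < (D \ {a, z}).card by
      have := Finset.le_card_sdiff {a, z} D
      have := hD.1.1
      rw [Finset.card_pair (Ne.symm hza)] at *
      omega)
    simp only [Finset.mem_sdiff, Finset.mem_insert, Finset.mem_singleton, not_or] at hw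
    exact ⟨w, hw.1, hw.2.1, hw.2.2⟩
  exact hC.subset_of_meet (hD.1.has3 haD hz hw (Ne.symm hza) hwa.symm hwz.symm) (by simp) haC
    (by simp)

/-- The alternating group on the subset `C`. -/
noncomputable def altOn (C : Finset α) : Subgroup (Perm α) :=
  (alternatingGroup C).map (ofSubtype : Perm C →* Perm α)

theorem mem_altOn {C : Finset α} {g : Perm α} :
    g ∈ altOn C ↔ g.support ⊆ C ∧ g ∈ alternatingGroup α := by
  rw [altOn, alternatingGroup.map_ofSubtype, Subgroup.mem_inf]
  exact and_congr_left' (by rw [mem_range_ofSubtype_iff]; simp)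

theorem altOn_le {C : Finset α} (hC : Full H C) : altOn C ≤ H := by
  rw [altOn, ← closure_three_cycles_eq_alternating, MonoidHom.map_closure, Subgroup.closure_le]
  rintro _ ⟨c, hc, rfl⟩
  have h3 : (ofSubtype c : Perm α).IsThreeCycle := by
    show (ofSubtype c : Perm α).cycleType = {3}
    rw [cycleType_ofSubtype]; exact hc
  refine (hC.2 _ ?_ h3.card_support).mem h3 rfl
  intro z hz
  by_contra hzC
  exact mem_support.mp hz (ofSubtype_apply_of_not_mem c hzC)

end CfsgLib.ThreeCycleClasses
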